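import Cfsg.Agent.Lib.H25.FusPow

set_option autoImplicit false

/-! Exponent bound from the centre of a group of small class. -/

namespace Cfsg.Agent.H25

open Cfsg Cfsg.FusionSystem

section UCS

variable {H : Type*} [Group H]

theorem commutator_pow_mem {N : Subgroup H} [hN : N.Normal] {x y w : H} (hw : x * y * x⁻¹ * y⁻¹ = w)
    (hc : ∀ b : H, w * b * w⁻¹ * b⁻¹ ∈ N) (k : ℕ) : x ^ k * y * (x ^ k)⁻¹ * y⁻¹ * (w ^ k)⁻¹ ∈ N := by
  -- work in the quotient
  have hcomm : ∀ b : H ⧸ N, (w : H ⧸ N) * b = b * (w : H ⧸ N) := by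
    intro b
    obtain ⟨b, rfl⟩ := QuotientGroup.mk_surjective b
    have h1 := (QuotientGroup.eq_one_iff _).mpr (hc b)
    have h2 : ((w * b * w⁻¹ * b⁻¹ : H) : H ⧸ N) = (w : H ⧸ N) * b * (w : H ⧸ N)⁻¹ * (b : H ⧸ N)⁻¹ := rfl
    rw [h2] at h1
    have h3 : (w : H ⧸ N) * b * (w : H ⧸ N)⁻¹ = b := by
      rwa [mul_inv_eq_one] at h1
    calc (w : H ⧸ N) * b = ((w : H ⧸ N) * b * (w : H ⧸ N)⁻¹) * w := by group
      _ = b * w := by rw [h3]
  have hcw : ∀ j : ℕ, ∀ b : H ⧸ N, (w : H ⧸ N) ^ j * b = b * (w : H ⧸ N) ^ j := by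
    intro j b
    exact ((Commute.pow_left (hcomm b) j))
  have hstep : (x : H ⧸ N) * y = (w : H ⧸ N) * y * x := by
    rw [← hw]
    show (x : H ⧸ N) * y = (((x * y * x⁻¹ * y⁻¹ : H) : H ⧸ N)) * y * x
    have : ((x * y * x⁻¹ * y⁻¹ : H) : H ⧸ N) = (x : H ⧸ N) * y * (x : H ⧸ N)⁻¹ * (y : H ⧸ N)⁻¹ := rfl
    rw [this]
    group
  have hk : ∀ k : ℕ, (x : H ⧸ N) ^ k * y = (w : H ⧸ N) ^ k * y * (x : H ⧸ N) ^ k := by
    intro k
    induction k with
    | zero => simp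
    | succ k ih =>
      calc (x : H ⧸ N) ^ (k + 1) * y = x * ((x : H ⧸ N) ^ k * y) := by rw [pow_succ', mul_assoc]
        _ = x * ((w : H ⧸ N) ^ k * y * (x : H ⧸ N) ^ k) := by rw [ih]
        _ = ((x : H ⧸ N) * (w : H ⧸ N) ^ k) * ((y : H ⧸ N) * (x : H ⧸ N) ^ k) := by simp only [mul_assoc]
        _ = ((w : H ⧸ N) ^ k * (x : H ⧸ N)) * ((y : H ⧸ N) * (x : H ⧸ N) ^ k) := by rw [hcw k x]
        _ = (w : H ⧸ N) ^ k * ((x : H ⧸ N) * y) * (x : H ⧸ N) ^ k := by simp only [mul_assoc]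
        _ = (w : H ⧸ N) ^ k * ((w : H ⧸ N) * y * x) * (x : H ⧸ N) ^ k := by rw [hstep]
        _ = (w : H ⧸ N) ^ (k + 1) * y * (x : H ⧸ N) ^ (k + 1) := by
          rw [pow_succ (w : H ⧸ N), pow_succ' (x : H ⧸ N)]
          simp only [mul_assoc]
  rw [← QuotientGroup.eq_one_iff]
  have e : ((x ^ k * y * (x ^ k)⁻¹ * y⁻¹ * (w ^ k)⁻¹ : H) : H ⧸ N) =
      ((x : H ⧸ N) ^ k * y) * ((x : H ⧸ N) ^ k)⁻¹ * (y : H ⧸ N)⁻¹ * ((w : H ⧸ N) ^ k)⁻¹ := rfl
  rw [e, hk k]
  simp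

theorem pow_mem_ucs {e : ℕ} (hZ : ∀ z ∈ Subgroup.center H, z ^ e = 1) (i : ℕ) :
    ∀ x ∈ Subgroup.upperCentralSeries H (i + 1), x ^ e ∈ Subgroup.upperCentralSeries H i := by
  induction i with
  | zero =>
    intro x hx
    rw [Subgroup.upperCentralSeries_one] at hx
    rw [Subgroup.upperCentralSeries_zero, Subgroup.mem_bot]
    exact hZ x hx
  | succ i ih =>
    intro x hx
    rw [Subgroup.mem_upperCentralSeries_succ_iff]
    intro y
    have hw := Subgroup.mem_upperCentralSeries_succ_iff.mp hx y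
    have hc := Subgroup.mem_upperCentralSeries_succ_iff.mp hw
    have h1 := commutator_pow_mem (N := Subgroup.upperCentralSeries H i) (x := x) (y := y) rfl hc e
    have h2 := ih _ hw
    have h3 := Subgroup.mul_mem _ h1 h2
    rw [commutatorElement_def] at h2 ⊢
    simpa [commutatorElement_def] using h3

theorem pow_eq_one_ucs {e : ℕ} (hZ : ∀ z ∈ Subgroup.center H, z ^ e = 1) (i : ℕ) :
    ∀ x ∈ Subgroup.upperCentralSeries H i, x ^ (e ^ i) = 1 := by
  induction i with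
  | zero =>
    intro x hx
    rw [Subgroup.upperCentralSeries_zero, Subgroup.mem_bot] at hx
    simp [hx]
  | succ i ih =>
    intro x hx
    rw [pow_succ', pow_mul]
    exact ih _ (pow_mem_ucs hZ i x hx)

end UCS

section Sub

variable {Ω : Type*} [Group Ω] 

theorem ucs_top_of_lcs (S : Subgroup Ω) (c : ℕ) (hcl : S.lowerCentralSeries c = ⊥) :
    ∀ x : S, x ∈ Subgroup.upperCentralSeries S c := by
  have key : ∀ j, j ≤ c → ∀ x : S, (x : Ω) ∈ S.lowerCentralSeries (c - j) → x ∈ Subgroup.upperCentralSeries S j := by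
    intro j
    induction j with
    | zero =>
      intro _ x hx
      rw [Nat.sub_zero, hcl, Subgroup.mem_bot] at hx
      rw [Subgroup.upperCentralSeries_zero, Subgroup.mem_bot]
      exact Subtype.ext hx
    | succ j ih =>
      intro hj x hx
      rw [Subgroup.mem_upperCentralSeries_succ_iff]
      intro y
      refine ih (by omega) _ ?_
      have e : c - j = (c - (j + 1)) + 1 := by omega
      rw [e, Subgroup.lowerCentralSeries_succ]
      exact Subgroup.commutator_mem_commutator hx y.2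
  intro x
  exact key c le_rfl x (by rw [Nat.sub_self]; exact x.2)

theorem exp_of_center (S : Subgroup Ω) (e c : ℕ) (hZ : ∀ z ∈ S ⊓ Subgroup.centralizer (S : Set Ω), z ^ e = 1)
    (hcl : S.lowerCentralSeries c = ⊥) (x : S) : x ^ (e ^ c) = 1 := by
  refine pow_eq_one_ucs (fun z hz => ?_) c x (ucs_top_of_lcs S c hcl x)
  apply Subtype.ext
  have h1 := hZ (z : Ω) ⟨z.2, Subgroup.mem_centralizer_iff.mpr fun s hs => ?_⟩
  · simpa using h1
  · have := Subgroup.mem_center_iff.mp hz ⟨s, hs⟩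
    exact congrArg Subtype.val this

end Sub

end Cfsg.Agent.H25
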