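import Mathlib
import Cfsg.Agent.Lib.H25.Basic

set_option autoImplicit false

/-! The trace splitting of fixed points of a Sylow subgroup. -/

namespace Cfsg.Agent.H25

/-- Fixed points of a Sylow subgroup on a finite abelian `p`-group split as the global fixed points times the kernel of the
trace. -/
theorem fixed_split {A V : Type*} [Group A] [Finite A] [CommGroup V] [Finite V] {p : ℕ} [Fact p.Prime]
    (ρ : A →* MulAut V) (hV : IsPGroup p V) (P₀ : Sylow p A) :
    ∃ K : Subgroup V, (∀ v ∈ K, ∀ a ∈ (P₀ : Subgroup A), ρ a v = v) ∧ (∀ v ∈ K, (∀ a, ρ a v = v) → v = 1) ∧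
      ∀ v, (∀ a ∈ (P₀ : Subgroup A), ρ a v = v) → ∃ u w, (∀ a, ρ a u = u) ∧ w ∈ K ∧ v = u * w := by
  classical
  haveI : Fintype (A ⧸ (P₀ : Subgroup A)) := Fintype.ofFinite _
  let T : V → V := fun v => ∏ c : A ⧸ (P₀ : Subgroup A), ρ c.out v
  have hT_mul : ∀ v w, T (v * w) = T v * T w := by
    intro v w
    simp [T, Finset.prod_mul_distrib]
  have hT_one : T 1 = 1 := by simp [T]
  have hT_inv : ∀ v, T v⁻¹ = (T v)⁻¹ := by
    intro v
    apply eq_inv_of_mul_eq_one_left
    rw [← hT_mul]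
    simp [hT_one]
  have hout : ∀ v, (∀ a ∈ (P₀ : Subgroup A), ρ a v = v) → ∀ b : A,
      ρ (QuotientGroup.mk b : A ⧸ (P₀ : Subgroup A)).out v = ρ b v := by
    intro v hv b
    obtain ⟨h, hh⟩ := QuotientGroup.mk_out_eq_mul (P₀ : Subgroup A) b
    rw [hh, map_mul]
    show ρ b (ρ (h : A) v) = ρ b v
    rw [hv h h.2]
  have hfix : ∀ v, (∀ a ∈ (P₀ : Subgroup A), ρ a v = v) → ∀ b : A, ρ b (T v) = T v := by
    intro v hv b
    simp only [T, map_prod]
    refine Fintype.prod_equiv (MulAction.toPerm b) _ _ fun c => ?_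
    have h1 : (MulAction.toPerm b : Equiv.Perm _) c = QuotientGroup.mk (b * c.out) := by
      conv_lhs => rw [← QuotientGroup.out_eq' c]
      rfl
    rw [h1, hout v hv, map_mul]
    rfl
  set m := Fintype.card (A ⧸ (P₀ : Subgroup A)) with hm
  have hT_fix : ∀ v, (∀ a, ρ a v = v) → T v = v ^ m := by
    intro v hv
    simp only [T, hv]
    rw [Finset.prod_const, Finset.card_univ]
  have hcop : (Nat.card V).Coprime m := by
    obtain ⟨n, hn⟩ := IsPGroup.iff_card.mp hV
    rw [hn]
    apply Nat.Coprime.pow_left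
    have h1 : m = (P₀ : Subgroup A).index := by
      rw [hm, Subgroup.index, Nat.card_eq_fintype_card]
    rw [h1]
    exact (Nat.Prime.coprime_iff_not_dvd Fact.out).mpr P₀.not_dvd_index
  have hinj : Function.Injective (fun v : V => v ^ m) := (powCoprime hcop).injective
  have hsurj : Function.Surjective (fun v : V => v ^ m) := (powCoprime hcop).surjective
  let K : Subgroup V :=
    { carrier := {v | (∀ a ∈ (P₀ : Subgroup A), ρ a v = v) ∧ T v = 1}
      one_mem' := ⟨fun a _ => map_one _, hT_one⟩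
      mul_mem' := by
        rintro v w ⟨h1, h2⟩ ⟨h3, h4⟩
        refine ⟨fun a ha => ?_, ?_⟩
        · rw [map_mul, h1 a ha, h3 a ha]
        · rw [hT_mul, h2, h4, one_mul]
      inv_mem' := by
        rintro v ⟨h1, h2⟩
        refine ⟨fun a ha => ?_, ?_⟩
        · rw [map_inv, h1 a ha]
        · rw [hT_inv, h2, inv_one] }
  refine ⟨K, fun v hv => hv.1, fun v hv hvf => ?_, fun v hv => ?_⟩
  · have h1 := hv.2
    rw [hT_fix v hvf] at h1
    apply hinj
    simp only [one_pow]
    exact h1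
  · obtain ⟨u, hu⟩ := hsurj (T v)
    simp only at hu
    have hufix : ∀ a, ρ a u = u := by
      intro a
      apply hinj
      simp only
      rw [← map_pow, hu, hfix v hv a]
    refine ⟨u, u⁻¹ * v, hufix, ⟨fun a ha => ?_, ?_⟩, by group⟩
    · rw [map_mul, map_inv, hufix a, hv a ha]
    · rw [hT_mul, hT_inv, hT_fix u hufix, hu, inv_mul_cancel]

end Cfsg.Agent.H25
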