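import Cfsg.Agent.Lib.H25.NS2
set_option autoImplicit false
set_option linter.style.haveILetI false

/-! Normal subsystems of the fusion system of a constrained group: the subgroup `H`. -/

namespace Cfsg.Agent.H25

open Cfsg Cfsg.FusionSystem

section E
variable {G : Type*} [Group G] [Finite G] {p : ℕ} [Fact p.Prime] {S : Sylow p G} {Q T : Subgroup G} {E : FusionSystem T}

namespace NCtx

variable (c : NCtx p (S : Subgroup G) Q T) (hI : E.IsInvariantIn (groupFusionSystem (S : Subgroup G)))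

include c in
theorem A_far (hEs : E.IsSaturated p) : Far E p (nA Q T) := by
  have hTS : T ≤ (S : Subgroup G) := c.hTS
  have hT : IsPGroup p T := S.isPGroup'.to_le hTS
  haveI := c.A_normal
  refine far_of_fullyNormalized hT hEs (fullyNormalized_of_normal A_le_T ?_)
  rw [Subgroup.normalizer_eq_top]
  exact le_top

include c in
theorem cA_aut (x : G) : ∃ α : MulAut (nA Q T), ∀ a : nA Q T, ((α a : nA Q T) : G) = x * a * x⁻¹ := by
  haveI := c.A_normal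
  have hx : x ∈ Subgroup.normalizer ((nA Q T : Subgroup G) : Set G) := by
    rw [Subgroup.normalizer_eq_top]
    exact Subgroup.mem_top _
  exact ⟨Cfsg.Agent.H24.autOfNormalizer _ hx, fun _ => rfl⟩

/-- A `p`-element of `N_G(X)` induces a `p`-element of `Aut(X)`. -/
theorem aut_pow_of_pelt {X : Subgroup G} {α : MulAut X} {x : G} (hα : ∀ a : X, ((α a : X) : G) = x * a * x⁻¹) {k : ℕ}
    (hk : x ^ k = 1) : α ^ k = 1 := by
  have hpow : ∀ (n : ℕ) (a : X), (((α ^ n) a : X) : G) = x ^ n * a * (x ^ n)⁻¹ := by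
    intro n
    induction n with
    | zero => intro a; simp
    | succ n ih =>
      intro a
      rw [pow_succ, pow_succ]
      show (((α ^ n) (α a) : X) : G) = _
      rw [ih, hα]
      group
  ext a
  rw [hpow, hk]
  simp

/-- Conjugating `Aut_T(X)` by an element of `N_S(X)`. -/
theorem conj_autInduced {X : Subgroup G} {β : MulAut X} {y : G} (hβ : ∀ a : X, ((β a : X) : G) = y * a * y⁻¹)
    (hy : ∀ s ∈ T, y * s * y⁻¹ ∈ T) {r : MulAut X} (hr : r ∈ autInducedBy T X) : β * r * β⁻¹ ∈ autInducedBy T X := by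
  obtain ⟨s, hs, hrs⟩ := exists_of_mem_autInducedBy hr
  refine mem_autInducedBy_of_conj (hy s hs) fun a => ?_
  show ((β (r (β⁻¹ a)) : X) : G) = _
  rw [hβ, hrs]
  have h1 := hβ (β⁻¹ a)
  have h2 : ((β (β⁻¹ a) : X) : G) = a := by simp
  rw [h2] at h1
  have h3 : (((β⁻¹ a : X)) : G) = y⁻¹ * a * y := by
    rw [h1]
    group
  rw [h3]
  group

include c hI in
/-- Decomposition of `S ∩ H₁`. -/
theorem exists_decomp (hEs : E.IsSaturated p) {x : G} (hxS : x ∈ (S : Subgroup G)) (hxH : x ∈ c.nH1 E hI) :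
    ∃ t ∈ T, ∃ w ∈ c.nH1 E hI ⊓ nD Q T, x = t * w := by
  obtain ⟨α, hα⟩ := c.cA_aut x
  obtain ⟨α', hα'⟩ := c.cA_aut x⁻¹
  have hinv : α⁻¹ = α' := by
    refine inv_eq_of_mul_eq_one_right ?_
    ext a
    have h1 := hα (α' a)
    rw [hα'] at h1
    show ((α (α' a) : nA Q T) : G) = a
    rw [h1]
    group
  have hmem : α ∈ E.autGroup (nA Q T) := mem_autGroup_of_mp hxH.1 hα
  obtain ⟨k, hk⟩ : ∃ k : ℕ, x ^ p ^ k = 1 := by
    obtain ⟨k, hk⟩ := S.isPGroup' ⟨x, hxS⟩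
    exact ⟨k, by simpa using congrArg Subtype.val hk⟩
  have h1 := mem_autInduced_of_pelt (c.A_far hEs).auto hmem ⟨k, aut_pow_of_pelt hα hk⟩
    (fun r hr => conj_autInduced hα (fun s hs => c.S_norm hxS hs) hr)
    (fun r hr => by
      have := conj_autInduced hα' (fun s hs => c.S_norm (S.inv_mem hxS) hs) hr
      rw [← hinv] at this
      simpa using this)
  obtain ⟨s, hs, hsv⟩ := exists_of_mem_autInducedBy h1
  refine ⟨s, hs, s⁻¹ * x, ⟨(c.nH1 E hI).mul_mem ((c.nH1 E hI).inv_mem (c.T_le_H1 hI hs)) hxH, ?_⟩, by group⟩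
  show s⁻¹ * x ∈ nD Q T
  rw [mem_D]
  intro a ha
  have h2 := hα ⟨a, ha⟩
  rw [hsv] at h2
  have h3 : s * a * s⁻¹ = x * a * x⁻¹ := h2
  calc a * (s⁻¹ * x) = s⁻¹ * (s * a * s⁻¹) * x := by group
    _ = s⁻¹ * (x * a * x⁻¹) * x := by rw [h3]
    _ = s⁻¹ * x * a := by group

/-- The subgroup generated by the elements of order prime to `p` of `H₁`. -/
def nR (c : NCtx p (S : Subgroup G) Q T) (E : FusionSystem T) (hI : E.IsInvariantIn (groupFusionSystem (S : Subgroup G))) : Subgroup G :=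
  (pResidual p ↥(c.nH1 E hI)).map (c.nH1 E hI).subtype

theorem R_le : c.nR E hI ≤ c.nH1 E hI := Subgroup.map_subtype_le _

theorem coprime_mem_R {x : G} (hx : x ∈ c.nH1 E hI) (hco : Nat.Coprime (orderOf x) p) : x ∈ c.nR E hI := by
  refine ⟨⟨x, hx⟩, Cfsg.Agent.H24.mem_pResidual_of_coprime' ?_, rfl⟩
  rwa [Subgroup.orderOf_mk]

theorem R_normal : (c.nR E hI).Normal := by
  haveI := c.nH1_normal hI
  constructor
  rintro _ ⟨y, hy, rfl⟩ g
  have h1 := Cfsg.Agent.H24.pResidual_map_le (p := p) (MulAut.conjNormal g : MulAut ↥(c.nH1 E hI)).toMonoidHom ⟨y, hy, rfl⟩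
  exact ⟨_, h1, rfl⟩

include c hI in
/-- The hyperfocal computation: `R ∩ S ≤ T`. -/
theorem R_inf_S (hEs : E.IsSaturated p) {x : G} (hxR : x ∈ c.nR E hI) (hxS : x ∈ (S : Subgroup G)) : x ∈ T := by
  haveI := c.nH1_normal hI
  obtain ⟨D, hD⟩ := Cfsg.Agent.H24.exists_sylow_inf_normal S (c.nH1 E hI)
  have hyp := Cfsg.Agent.H24.hyperfocal_group_eq D
  have hle : (groupFusionSystem (D : Subgroup ↥(c.nH1 E hI))).hyperfocalSubgroup p ≤ T.subgroupOf (c.nH1 E hI) := by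
    refine (Subgroup.closure_le _).2 ?_
    rintro _ ⟨P, α, y, hP, -, rfl⟩
    obtain ⟨h, hh⟩ := exists_of_mp_F (Mp.of_mem_autGroup hP α.2)
    have h1 := hh y y.2
    rw [toFun_aut] at h1
    have hDS : ∀ z : ↥(c.nH1 E hI), z ∈ (D : Subgroup ↥(c.nH1 E hI)) → (z : G) ∈ (S : Subgroup G) := by
      intro z hz
      have hz' := hz
      rw [hD] at hz'
      exact Subgroup.mem_subgroupOf.1 hz'
    have hyS : ((y : ↥(c.nH1 E hI)) : G) ∈ (S : Subgroup G) := hDS _ (hP y.2)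
    have hαS := hDS _ (hP ((α : MulAut P) y).2)
    rw [h1] at hαS
    obtain ⟨t, ht, w, hw, e⟩ := c.exists_decomp hI hEs hyS (y : ↥(c.nH1 E hI)).2
    have hzw := (h : ↥(c.nH1 E hI)).2.2 w hw.2
    have hwS : w ∈ (S : Subgroup G) := c.hQS (c.W_le_U hI hw).1
    have hzS : (h : G) * w * (h : G)⁻¹ * w⁻¹ ∈ (S : Subgroup G) := c.hQS hzw.1.1
    have hconj : (h : G) * t * (h : G)⁻¹ ∈ T := by
      refine c.hsc t ht _ ?_
      have e2 : (h : G) * t * (h : G)⁻¹ = ((h : G) * ((y : ↥(c.nH1 E hI)) : G) * (h : G)⁻¹) * w⁻¹ *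
          ((h : G) * w * (h : G)⁻¹ * w⁻¹)⁻¹ * 1 := by
        rw [e]
        group
      rw [e2, mul_one]
      have hαS' : (h : G) * ((y : ↥(c.nH1 E hI)) : G) * (h : G)⁻¹ ∈ (S : Subgroup G) := by
        simpa using hαS
      exact S.mul_mem (S.mul_mem hαS' (S.inv_mem hwS)) (S.inv_mem hzS)
    refine Subgroup.mem_subgroupOf.2 ?_
    show ((y : ↥(c.nH1 E hI)) : G)⁻¹ * ((((α : MulAut P) y : P) : ↥(c.nH1 E hI)) : G) ∈ T
    rw [h1]
    have hτ : t⁻¹ * ((h : G) * t * (h : G)⁻¹) * ((h : G) * w * (h : G)⁻¹ * w⁻¹) ∈ T :=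
      T.mul_mem (T.mul_mem (T.inv_mem ht) hconj) hzw.1.2
    have h2 := c.S_norm (S.inv_mem hwS) hτ
    have e3 : w⁻¹ * (t⁻¹ * ((h : G) * t * (h : G)⁻¹) * ((h : G) * w * (h : G)⁻¹ * w⁻¹)) * w⁻¹⁻¹ =
        ((y : ↥(c.nH1 E hI)) : G)⁻¹ * ((h : G) * ((y : ↥(c.nH1 E hI)) : G) * (h : G)⁻¹) := by
      rw [e]
      group
    rw [e3] at h2
    simpa using h2
  obtain ⟨y, hy, rfl⟩ := hxR
  have h2 : y ∈ (D : Subgroup ↥(c.nH1 E hI)) ⊓ pResidual p ↥(c.nH1 E hI) := by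
    refine ⟨?_, hy⟩
    show y ∈ (D : Subgroup ↥(c.nH1 E hI))
    rw [hD]
    exact Subgroup.mem_subgroupOf.2 hxS
  rw [← hyp] at h2
  exact Subgroup.mem_subgroupOf.1 (hle h2)

/-- The subgroup `H`. -/
def nH (c : NCtx p (S : Subgroup G) Q T) (E : FusionSystem T) (hI : E.IsInvariantIn (groupFusionSystem (S : Subgroup G))) : Subgroup G :=
  c.nR E hI ⊔ T

theorem T_le_H : T ≤ c.nH E hI := le_sup_right

theorem R_le_H : c.nR E hI ≤ c.nH E hI := le_sup_left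

theorem H_le_H1 : c.nH E hI ≤ c.nH1 E hI := sup_le (c.R_le hI) (c.T_le_H1 hI)

theorem T_norm_R : T ≤ Subgroup.normalizer ((c.nR E hI : Subgroup G) : Set G) := by
  haveI := c.R_normal hI
  rw [Subgroup.normalizer_eq_top]
  exact le_top

/-- `H` is normal in `G`. -/
theorem H_normal : (c.nH E hI).Normal := by
  haveI hN1 := c.nH1_normal hI
  haveI hNR := c.R_normal hI
  constructor
  intro x hx g
  have hTg : ∀ t ∈ T, g * t * g⁻¹ ∈ c.nH E hI := by
    intro t ht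
    have hg1 : g ∈ ((Subgroup.normalizer (((S : Subgroup G) ⊓ c.nH1 E hI : Subgroup G) : Set G) ⊔ c.nH1 E hI : Subgroup G) : Set G) := by
      rw [Cfsg.Agent.H18.frattini_inf S (c.nH1 E hI)]
      exact Subgroup.mem_top _
    rw [Subgroup.mul_normal] at hg1
    obtain ⟨n, hn, h, hh, rfl⟩ := Set.mem_mul.1 hg1
    -- `h = d κ`
    obtain ⟨D, hD⟩ := Cfsg.Agent.H24.exists_sylow_inf_normal S (c.nH1 E hI)
    have h2 := Cfsg.Agent.H13.sylow_sup_pResidual (p := p) D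
    have h3 : (⟨h, hh⟩ : ↥(c.nH1 E hI)) ∈ (((D : Subgroup ↥(c.nH1 E hI)) ⊔ pResidual p ↥(c.nH1 E hI) : Subgroup _) : Set _) := by
      rw [h2]
      exact Subgroup.mem_top _
    rw [Subgroup.mul_normal (N := pResidual p ↥(c.nH1 E hI)) (hN := Cfsg.Agent.H24.pResidual_normal')] at h3
    obtain ⟨d, hd, κ, hκ, e⟩ := Set.mem_mul.1 h3
    have hd' : d ∈ (D : Subgroup ↥(c.nH1 E hI)) := hd
    rw [hD] at hd'
    have hdS : (d : G) ∈ (S : Subgroup G) := Subgroup.mem_subgroupOf.1 hd'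
    have hκR : (κ : G) ∈ c.nR E hI := ⟨κ, hκ, rfl⟩
    have eh : h = (d : G) * (κ : G) := (congrArg Subtype.val e).symm
    subst eh
    set t' := (d : G) * t * (d : G)⁻¹ with ht'
    have ht'T : t' ∈ T := c.S_norm hdS ht
    have hnt : n * t' * n⁻¹ ∈ T := by
      refine c.hsc t' ht'T n ?_
      have h4 := Cfsg.Agent.H24.conj_mem_of_normalizer hn ⟨c.hTS ht'T, c.T_le_H1 hI ht'T⟩
      exact h4.1
    set κ' := (d : G) * (κ : G) * (d : G)⁻¹ with hκ'
    have hκ'R : κ' ∈ c.nR E hI := hNR.conj_mem _ hκR _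
    have hκ''R : κ' * (t' * κ'⁻¹ * t'⁻¹) ∈ c.nR E hI :=
      (c.nR E hI).mul_mem hκ'R (hNR.conj_mem _ ((c.nR E hI).inv_mem hκ'R) t')
    have e5 : (n * ((d : G) * (κ : G))) * t * (n * ((d : G) * (κ : G)))⁻¹ = (n * (κ' * (t' * κ'⁻¹ * t'⁻¹)) * n⁻¹) * (n * t' * n⁻¹) := by
      rw [hκ', ht']
      group
    rw [e5]
    exact (c.nH E hI).mul_mem (c.R_le_H hI (hNR.conj_mem _ hκ''R n)) (c.T_le_H hI hnt)
  have hle : (c.nR E hI ⊔ T).map (MulAut.conj g).toMonoidHom ≤ c.nH E hI := by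
    rw [Subgroup.map_sup]
    refine sup_le ?_ ?_
    · rintro _ ⟨y, hy, rfl⟩
      exact c.R_le_H hI (hNR.conj_mem _ hy g)
    · rintro _ ⟨t, ht, rfl⟩
      exact hTg t ht
  exact hle ⟨x, hx, rfl⟩

include c hI in
/-- `S ∩ H ≤ T`. -/
theorem S_inf_H (hEs : E.IsSaturated p) {x : G} (hxS : x ∈ (S : Subgroup G)) (hxH : x ∈ c.nH E hI) : x ∈ T := by
  obtain ⟨r, hr, t, ht, rfl⟩ := Cfsg.Agent.H01.exists_mul_of_mem_sup (c.T_norm_R hI) hxH
  have hrS : r ∈ (S : Subgroup G) := by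
    have := S.mul_mem hxS (S.inv_mem (c.hTS ht))
    simpa using this
  exact T.mul_mem (c.R_inf_S hI hEs hr hrS) ht

include c hI in
theorem S_inf_H_eq (hEs : E.IsSaturated p) : (S : Subgroup G) ⊓ c.nH E hI = T :=
  le_antisymm (fun _ hx => c.S_inf_H hI hEs hx.1 hx.2) (le_inf c.hTS (c.T_le_H hI))

include c hI in
/-- `T` is a Sylow subgroup of `H`. -/
theorem T_sylow (hEs : E.IsSaturated p) : ∃ R : Sylow p ↥(c.nH E hI), (R : Subgroup ↥(c.nH E hI)) = T.subgroupOf (c.nH E hI) := by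
  haveI := c.H_normal hI
  obtain ⟨D, hD⟩ := Cfsg.Agent.H24.exists_sylow_inf_normal S (c.nH E hI)
  refine ⟨D, hD.trans ?_⟩
  ext x
  rw [Subgroup.mem_subgroupOf, Subgroup.mem_subgroupOf]
  exact ⟨fun h => c.S_inf_H hI hEs h x.2, fun h => c.hTS h⟩

include c hI in
/-- `H ∩ D = Z`. -/
theorem H_D (hEs : E.IsSaturated p) {x : G} (hxH : x ∈ c.nH E hI) (hxD : x ∈ nD Q T) : x ∈ nZ Q T := by
  have h1 := c.W_le_U hI ⟨c.H_le_H1 hI hxH, hxD⟩
  exact c.T_D (c.S_inf_H hI hEs (c.hQS h1.1) hxH) hxD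

theorem Z_le_T : nZ Q T ≤ T := fun _ h => h.1.2

theorem Z_le_H : nZ Q T ≤ c.nH E hI := fun _ h => c.T_le_H hI (Z_le_T h)

/-- Powers preserve the conjugation maps. -/
theorem mp_cj_pow {Y : Subgroup G} {y : G} (hY : Y ≤ T) (hy : Mp E Y (cj y)) (hm : ∀ a ∈ Y, y * a * y⁻¹ ∈ Y) (k : ℕ) : Mp E Y (cj (y ^ k)) := by
  induction k with
  | zero => simpa using mp_cj_one hY
  | succ n ih =>
    rw [pow_succ']
    exact mp_cj_mul ih (fun a ha => by
      have e : y ^ n * a * (y ^ n)⁻¹ ∈ Y := by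
        clear ih
        induction n generalizing a with
        | zero => simpa using ha
        | succ m ihm =>
          have e2 : y ^ (m + 1) * a * (y ^ (m + 1))⁻¹ = y ^ m * (y * a * y⁻¹) * (y ^ m)⁻¹ := by
            rw [pow_succ]
            group
          rw [e2]
          exact ihm _ (hm _ ha)
      exact e) hy

include c hI in
/-- The image in `G/Z` of a `p`-element chain. -/
theorem chain_mod {y v w : G} (hy : Nat.Coprime (orderOf y) p) (hvw : y * v * y⁻¹ * v⁻¹ * w⁻¹ ∈ nZ Q T)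
    (hwf : y * w * y⁻¹ * w⁻¹ ∈ nZ Q T) (hw : w ∈ Q) : w ∈ nZ Q T := by
  haveI := c.Z_normal
  let π : G →* G ⧸ nZ Q T := QuotientGroup.mk' (nZ Q T)
  have hπ : ∀ z ∈ nZ Q T, π z = 1 := fun z hz => (QuotientGroup.eq_one_iff z).2 hz
  have h1 : π y * π v * (π y)⁻¹ = π w * π v := by
    have h2 := hπ _ hvw
    simp only [map_mul, map_inv] at h2
    have e : π y * π v * (π y)⁻¹ = (π y * π v * (π y)⁻¹ * (π v)⁻¹ * (π w)⁻¹) * (π w * π v) := by group
    rw [e, h2, one_mul]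
  have h2 : π y * π w * (π y)⁻¹ = π w := by
    have h3 := hπ _ hwf
    simp only [map_mul, map_inv] at h3
    have e : π y * π w * (π y)⁻¹ = (π y * π w * (π y)⁻¹ * (π w)⁻¹) * π w := by group
    rw [e, h3, one_mul]
  have hco : Nat.Coprime (orderOf (π y)) p := Nat.Coprime.coprime_dvd_left (orderOf_map_dvd π y) hy
  obtain ⟨n, hn⟩ := c.hQp ⟨w, hw⟩
  have hn' : w ^ p ^ n = 1 := by simpa using congrArg Subtype.val hn
  have h4 := chain_trivial hco h1 h2 ⟨n, by rw [← map_pow, hn', map_one]⟩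
  exact (QuotientGroup.eq_one_iff w).1 h4

include c hI in
/-- A `p`-element of `Aut_E(T)` is inner. -/
theorem inner_of_pelt (hEs : E.IsSaturated p) {β : MulAut T} (hβ : β ∈ E.autGroup T) (hpe : ∃ k : ℕ, β ^ p ^ k = 1) :
    ∃ t ∈ T, ∀ x : T, ((β x : T) : G) = t * x * t⁻¹ := by
  have hT : IsPGroup p T := S.isPGroup'.to_le c.hTS
  have hfar : Far E p T := far_of_fullyNormalized hT hEs (fullyNormalized_of_normal le_rfl (fun t ht => mem_normalizer_of_conj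
    (fun y hy => T.mul_mem (T.mul_mem ht hy) (T.inv_mem ht)) (fun y hy => T.mul_mem (T.mul_mem (T.inv_mem ht) hy) ht)))
  have hinner : ∀ (γ : MulAut T), ∀ r ∈ autInducedBy T T, γ * r * γ⁻¹ ∈ autInducedBy T T := by
    intro γ r hr
    obtain ⟨s, hs, hrs⟩ := exists_of_mem_autInducedBy hr
    refine mem_autInducedBy_of_conj (γ ⟨s, hs⟩).2 fun a => ?_
    show ((γ (r (γ⁻¹ a)) : T) : G) = _
    have e1 : r (γ⁻¹ a) = ⟨s, hs⟩ * (γ⁻¹ a) * ⟨s, hs⟩⁻¹ := Subtype.ext (hrs _)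
    rw [e1]
    simp
  have h1 := mem_autInduced_of_pelt hfar.auto hβ hpe (fun r hr => hinner β r hr) (fun r hr => by
    have := hinner β⁻¹ r hr
    simpa using this)
  exact exists_of_mem_autInducedBy h1

include c hI in
/-- The main lemma: the extension condition forces an element into `H₁`. -/
theorem y_mem (hEs : E.IsSaturated p) {y : G} (hy : Nat.Coprime (orderOf y) p) (hyT : Mp E T (cj y))
    (hym : ∀ t ∈ T, y * t * y⁻¹ ∈ T)
    (hext : ∀ v ∈ (S : Subgroup G), v ∈ Subgroup.centralizer (T : Set G) → v⁻¹ * (y * v * y⁻¹) ∈ T ⊓ Subgroup.centralizer (T : Set G)) :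
    y ∈ c.nH1 E hI := by
  have hUn := c.U_normal
  have hDn := c.D_normal
  have hym' : ∀ t ∈ T, y⁻¹ * t * y ∈ T := by
    intro t ht
    obtain ⟨x, hx, e⟩ := (Iso.of_maps hyT hym).surj t ht
    have e2 : y⁻¹ * t * y = x := by
      rw [← e]
      show y⁻¹ * (y * x * y⁻¹) * y = x
      group
    rwa [e2]
  -- centralizing `T` implies centralizing `A`
  have hCD : Subgroup.centralizer (T : Set G) ≤ nD Q T := Subgroup.centralizer_le (fun _ h => A_le_T h)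
  have h1 : ∀ u ∈ nU Q T, y * u * y⁻¹ * u⁻¹ ∈ nZ Q T := by
    intro u hu
    have huS : u ∈ (S : Subgroup G) := c.hQS hu.1
    set r := y * u * y⁻¹ * u⁻¹ with hr
    have hrU : r ∈ nU Q T := (nU Q T).mul_mem (hUn.conj_mem _ hu y) ((nU Q T).inv_mem hu)
    have hrS : r ∈ (S : Subgroup G) := c.hQS hrU.1
    -- `r` induces an element of `Aut_E(T)`
    have hconj : Mp E T (cj (u * y⁻¹ * u⁻¹)) := by
      refine inv_norm hI (n := u) (g := y⁻¹) (P := T) (P' := T) ?_ le_rfl ?_ (mp_cj_inv hyT hym)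
      · exact mem_normalizer_of_conj (fun t ht => c.S_norm huS ht) (fun t ht => c.S_norm (S.inv_mem huS) ht |> fun h => by simpa using h)
      · intro t
        constructor
        · intro ht
          have := c.S_norm (S.inv_mem huS) ht
          simpa using this
        · intro ht
          have := c.S_norm huS ht
          have e : u * (u⁻¹ * t * u) * u⁻¹ = t := by group
          rwa [e] at this
    have hm1 : Mp E T (cj r) := by
      have e : r = y * (u * y⁻¹ * u⁻¹) := by rw [hr]; group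
      rw [e]
      refine mp_cj_mul hconj (fun t ht => ?_) hyT
      have e2 : (u * y⁻¹ * u⁻¹) * t * (u * y⁻¹ * u⁻¹)⁻¹ = u * (y⁻¹ * (u⁻¹ * t * u) * y) * u⁻¹ := by group
      show (u * y⁻¹ * u⁻¹) * t * (u * y⁻¹ * u⁻¹)⁻¹ ∈ T
      rw [e2]
      have ht2 : u⁻¹ * t * u ∈ T := by
        have := c.S_norm (S.inv_mem huS) ht
        simpa using this
      exact c.S_norm huS (hym' _ ht2)
    have hrN : r ∈ Subgroup.normalizer (T : Set G) :=
      mem_normalizer_of_conj (fun t ht => c.S_norm hrS ht) (fun t ht => by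
        have := c.S_norm (S.inv_mem hrS) ht
        simpa using this)
    let β : MulAut T := Cfsg.Agent.H24.autOfNormalizer T hrN
    have hβv : ∀ x : T, ((β x : T) : G) = r * x * r⁻¹ := fun _ => rfl
    have hβ : β ∈ E.autGroup T := mem_autGroup_of_mp hm1 hβv
    obtain ⟨k, hk⟩ : ∃ k : ℕ, r ^ p ^ k = 1 := by
      obtain ⟨k, hk⟩ := c.hQp ⟨r, hrU.1⟩
      exact ⟨k, by simpa using congrArg Subtype.val hk⟩
    obtain ⟨t₀, ht₀, ht₀v⟩ := c.inner_of_pelt hI hEs hβ ⟨k, aut_pow_of_pelt hβv hk⟩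
    have hconj2 : ∀ t ∈ T, r * t * r⁻¹ = t₀ * t * t₀⁻¹ := by
      intro t ht
      have := ht₀v ⟨t, ht⟩
      rwa [hβv] at this
    have ht₀D : t₀ ∈ nD Q T := by
      rw [mem_D]
      intro a ha
      have e1 := hconj2 a (A_le_T ha)
      rw [D_fix hrU.2 ha] at e1
      calc a * t₀ = (t₀ * a * t₀⁻¹) * t₀ := by rw [← e1]
        _ = t₀ * a := by group
    have ht₀Z : t₀ ∈ nZ Q T := c.T_D ht₀ ht₀D
    have hvU : t₀⁻¹ * r ∈ nU Q T := (nU Q T).mul_mem ((nU Q T).inv_mem (Z_le_U ht₀Z)) hrU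
    have hvC : t₀⁻¹ * r ∈ Subgroup.centralizer (T : Set G) := by
      rw [Subgroup.mem_centralizer_iff]
      intro t ht
      have e1 := hconj2 t ht
      calc t * (t₀⁻¹ * r) = t₀⁻¹ * (t₀ * t * t₀⁻¹) * r := by group
        _ = t₀⁻¹ * (r * t * r⁻¹) * r := by rw [e1]
        _ = t₀⁻¹ * r * t := by group
    have hz1 := hext _ (c.hQS hvU.1) hvC
    have hz1Q : (t₀⁻¹ * r)⁻¹ * (y * (t₀⁻¹ * r) * y⁻¹) ∈ Q :=
      Q.mul_mem (Q.inv_mem hvU.1) (c.hQn.conj_mem _ hvU.1 y)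
    have hz1Z : (t₀⁻¹ * r)⁻¹ * (y * (t₀⁻¹ * r) * y⁻¹) ∈ nZ Q T :=
      ⟨⟨hz1Q, hz1.1⟩, hCD hz1.2⟩
    have hvZ : t₀⁻¹ * r ∈ nZ Q T := by
      refine c.chain_mod hI (v := u) hy ?_ ?_ hvU.1
      · have e : y * u * y⁻¹ * u⁻¹ * (t₀⁻¹ * r)⁻¹ = t₀ := by
          rw [← hr]
          group
        rw [e]
        exact ht₀Z
      · have h5 := c.Z_normal.conj_mem _ hz1Z (t₀⁻¹ * r)
        have e : (t₀⁻¹ * r) * ((t₀⁻¹ * r)⁻¹ * (y * (t₀⁻¹ * r) * y⁻¹)) * (t₀⁻¹ * r)⁻¹ = y * (t₀⁻¹ * r) * y⁻¹ * (t₀⁻¹ * r)⁻¹ := by group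
        rwa [e] at h5
    have e : r = t₀ * (t₀⁻¹ * r) := by group
    rw [e]
    exact (nZ Q T).mul_mem ht₀Z hvZ
  refine ⟨hyT.restrict A_le_T, fun d hd => ?_⟩
  have hxD : y * d * y⁻¹ * d⁻¹ ∈ nD Q T := (nD Q T).mul_mem (hDn.conj_mem _ hd y) ((nD Q T).inv_mem hd)
  have hyK : y ∈ c.nK := h1
  have hxK : y * d * y⁻¹ * d⁻¹ ∈ c.nK := by
    have e : y * d * y⁻¹ * d⁻¹ = y * (d * y⁻¹ * d⁻¹) := by group
    rw [e]
    exact c.nK.mul_mem hyK (c.nK_normal.conj_mem _ (c.nK.inv_mem hyK) d)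
  have hxU := c.mem_U_of hxD hxK
  refine c.chain_mod hI (v := d) hy ?_ (h1 _ hxU) hxU.1
  have e : y * d * y⁻¹ * d⁻¹ * (y * d * y⁻¹ * d⁻¹)⁻¹ = 1 := by group
  rw [e]
  exact (nZ Q T).one_mem

end NCtx

end E

end Cfsg.Agent.H25
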