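import Cfsg.Agent.Lib.H25.NS3
import Cfsg.Agent.Lib.H25.FusAlp
set_option autoImplicit false
set_option linter.style.haveILetI false

/-! Normal subsystems of the fusion system of a constrained group: comparison. -/

namespace Cfsg.Agent.H25

open Cfsg Cfsg.FusionSystem

section Gen
variable {Ω : Type*} [Group Ω] {S T : Subgroup Ω} {F : FusionSystem S} {E E₂ : FusionSystem T} {p : ℕ}
variable {P Q A : Subgroup Ω}

/-- A normal subgroup lies in every essential subgroup. -/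
theorem normal_le_ess [Finite S] [Fact p.Prime] (hS : IsPGroup p S) (hF : F.IsSaturated p) (hN : F.IsNormal Q) (hE : F.IsEssential p P) :
    Q ≤ P := by
  have hPS : P ≤ S := hE.1.1
  have hSN : S ≤ Subgroup.normalizer (Q : Set Ω) := Cfsg.Agent.H24.normalizer_of_isNormal hN
  refine le_ess_of_rule hS hF hE hN.1 (fun s hs h hh => conj_mem_of_normalizer (hSN hs) hh) (fun a ha t ht => ?_) ?_
  · have hm : Mp F P (toFun (P.subtype.comp a.toMonoidHom)) := Mp.of_mem_autGroup hPS ha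
    obtain ⟨ĥ, hĥ, hĥe, hĥg⟩ := normal_ext hN hm
    have h1 := hĥg.1 t ht
    rwa [hĥe t t.2, toFun_aut] at h1
  · intro a ha x hx c hc
    have hm : Mp F P (toFun (P.subtype.comp a.toMonoidHom)) := Mp.of_mem_autGroup hPS ha
    obtain ⟨b, hb, hbe, hbg⟩ := normal_ext hN hm
    have hxL : x ∈ P ⊔ Q := Subgroup.mem_sup_right hx
    refine ⟨b x, hbg.1 x hx, fun u hu => ?_⟩
    have h1 := hbe _ (c u).2
    rw [toFun_aut] at h1
    rw [← h1, hc u]
    have huL : (u : Ω) ∈ P ⊔ Q := Subgroup.mem_sup_left u.2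
    rw [hb.map_mul (Subgroup.mul_mem _ hxL huL) (Subgroup.inv_mem _ hxL), hb.map_mul hxL huL, hb.map_inv hxL]
    have h2 := hbe _ u.2
    rw [toFun_aut] at h2
    rw [h2]

/-- The intersection with a normal subgroup is normal in an invariant subsystem. -/
theorem inf_isNormal [Finite S] [Fact p.Prime] (hS : IsPGroup p S) (hEs : E.IsSaturated p) (hI : E.IsInvariantIn F) (hQn : F.IsNormal Q) :
    E.IsNormal (Q ⊓ T) := by
  have hTS := inv_le hI
  haveI hfinT : Finite T := finite_of_le hTS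
  have hT : IsPGroup p T := hS.to_le hTS
  have hQS : Q ≤ S := hQn.1
  have hSN : S ≤ Subgroup.normalizer (Q : Set Ω) := Cfsg.Agent.H24.normalizer_of_isNormal hQn
  have hsc_T : ∀ {Y : Subgroup Ω} {f : Ω → Ω}, Y ≤ T → Mp F Y f → ∀ y ∈ Y, f y ∈ T := by
    intro Y f hY hf y hy
    obtain ⟨φ, hφ, e⟩ := hf
    rw [← e ⟨y, hy⟩]
    exact hI.2.1.2 Y hY φ hφ ⟨y, hy⟩
  have hRn : ∀ s ∈ T, ∀ h ∈ Q ⊓ T, s * h * s⁻¹ ∈ Q ⊓ T := fun s hs h hh =>
    ⟨conj_mem_of_normalizer (hSN (hTS hs)) hh.1, T.mul_mem (T.mul_mem hs hh.2) (T.inv_mem hs)⟩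
  have hst : ∀ P, P ≤ T → Q ⊓ T ≤ P → ∀ a ∈ E.autGroup P, ∀ y : P, (y : Ω) ∈ Q ⊓ T → ((a y : P) : Ω) ∈ Q ⊓ T := by
    intro P hPT hRP a ha y hy
    have hm : Mp E P (toFun (P.subtype.comp a.toMonoidHom)) := Mp.of_mem_autGroup hPT ha
    obtain ⟨ĥ, hĥ, hĥe, hĥg⟩ := normal_ext hQn (inv_mp_sub hI hm)
    have h1 := hĥg.1 y hy.1
    rw [hĥe y y.2, toFun_aut] at h1
    exact ⟨h1, hPT (a y).2⟩
  refine Cfsg.Agent.H24.isNormal_of_aut hT hEs inf_le_right ?_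
  rintro P (rfl | hP)
  · exact ⟨inf_le_right, fun a ha => map_eq_of_stable (hst _ le_rfl inf_le_right a ha) (hst _ le_rfl inf_le_right a⁻¹ (inv_mem ha))⟩
  · have hPT : P ≤ T := hP.1.1
    have hle : Q ⊓ T ≤ P := by
      refine le_ess_of_rule hT hEs hP inf_le_right hRn (fun a ha t ht => ?_) ?_
      · have hm : Mp E P (toFun (P.subtype.comp a.toMonoidHom)) := Mp.of_mem_autGroup hPT ha
        obtain ⟨ĥ, hĥ, hĥe, hĥg⟩ := normal_ext hQn (inv_mp_sub hI hm)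
        have h1 := hĥg.1 t ht.1
        rw [hĥe t t.2, toFun_aut] at h1
        exact ⟨h1, hPT (a t).2⟩
      · intro a ha x hx c hc
        have hm : Mp E P (toFun (P.subtype.comp a.toMonoidHom)) := Mp.of_mem_autGroup hPT ha
        obtain ⟨b, hb, hbe, hbg⟩ := normal_ext hQn (inv_mp_sub hI hm)
        have hxL : x ∈ P ⊔ Q := Subgroup.mem_sup_right hx.1
        refine ⟨b x, ⟨hbg.1 x hx.1, ?_⟩, fun u hu => ?_⟩
        · exact hsc_T (Y := Q ⊓ T) inf_le_right (hb.restrict (inf_le_left.trans le_sup_right)) x hx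
        · have h1 := hbe _ (c u).2
          rw [toFun_aut] at h1
          rw [← h1, hc u]
          have huL : (u : Ω) ∈ P ⊔ Q := Subgroup.mem_sup_left u.2
          rw [hb.map_mul (Subgroup.mul_mem _ hxL huL) (Subgroup.inv_mem _ hxL), hb.map_mul hxL huL, hb.map_inv hxL]
          have h2 := hbe _ u.2
          rw [toFun_aut] at h2
          rw [h2]
    exact ⟨hle, fun a ha => map_eq_of_stable (hst _ hPT hle a ha) (hst _ hPT hle a⁻¹ (inv_mem ha))⟩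

/-- Comparison of two systems through their automorphisms of coprime order. -/
theorem cmp_le [Finite T] [Fact p.Prime] (hT : IsPGroup p T) (hE : E.IsSaturated p) (hN : E.IsNormal A)
    (hgen : ∀ Y, A ≤ Y → Y ≤ T → E.IsFullyNormalized Y → ∀ γ : MulAut Y, γ ∈ E.autGroup Y → Nat.Coprime (orderOf γ) p → γ ∈ E₂.autGroup Y) :
    E ≤ E₂ := by
  have key : ∀ Y, A ≤ Y → E.IsFullyNormalized Y → E.autGroup Y ≤ E₂.autGroup Y := by
    intro Y hAY hY β hβ
    have hYT : Y ≤ T := hY.1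
    have hauto := fullyAutomized_of_fullyNormalized hT hE hY
    obtain ⟨d, hd, κ, hκ, rfl⟩ := Cfsg.Agent.H24.exists_decomp_pResidual hauto hβ
    refine Subgroup.mul_mem _ (autInducedBy_le hYT hd) ?_
    have hle : pResidual p ↥(E.autGroup Y) ≤ (E₂.autGroup Y).comap (E.autGroup Y).subtype := by
      refine (Subgroup.closure_le _).2 ?_
      intro γ hγ
      refine hgen Y hAY hYT hY γ γ.2 ?_
      have h1 : orderOf (γ : MulAut Y) = orderOf γ := Subgroup.orderOf_coe γ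
      rw [h1]
      exact hγ
    exact hle hκ
  refine alperin_ind hT hE ?_ ?_
  · refine key T hN.1 ?_
    exact fullyNormalized_of_normal le_rfl (fun t ht => mem_normalizer_of_conj
      (fun y hy => T.mul_mem (T.mul_mem ht hy) (T.inv_mem ht)) (fun y hy => T.mul_mem (T.mul_mem (T.inv_mem ht) hy) ht))
  · intro Q' hQ' _
    exact key Q' (normal_le_ess hT hE hN hQ') hQ'.2.1

end Gen

section E
variable {G : Type*} [Group G] [Finite G] {p : ℕ} [Fact p.Prime] {S : Sylow p G} {Q T : Subgroup G} {E : FusionSystem T}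

theorem aut_pow_apply {X : Subgroup G} {α : MulAut X} {x : G} (hα : ∀ a : X, ((α a : X) : G) = x * a * x⁻¹) (n : ℕ) (a : X) :
    (((α ^ n) a : X) : G) = x ^ n * a * (x ^ n)⁻¹ := by
  induction n generalizing a with
  | zero => simp
  | succ n ih =>
    rw [pow_succ, pow_succ]
    show (((α ^ n) (α a) : X) : G) = _
    rw [ih, hα]
    group

namespace NCtx

variable (c : NCtx p (S : Subgroup G) Q T) (hI : E.IsInvariantIn (groupFusionSystem (S : Subgroup G)))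

include c hI in
/-- The extension condition gives that the image of `H` in `Aut(A)` is `Aut_E(A)`. -/
theorem surj (hE : ∀ α ∈ E.autGroup T, ∃ β ∈ (groupFusionSystem (S : Subgroup G)).autGroup (T ⊔ centralizerIn (S : Subgroup G) T),
      (∀ x : T, ((β (Subgroup.inclusion le_sup_left x) : ↥(T ⊔ centralizerIn (S : Subgroup G) T)) : G) = ((α x : T) : G)) ∧
      ∀ c : ↥(T ⊔ centralizerIn (S : Subgroup G) T), (c : G) ∈ centralizerIn (S : Subgroup G) T →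
        (c : G)⁻¹ * ((β c : ↥(T ⊔ centralizerIn (S : Subgroup G) T)) : G) ∈ T ⊓ Subgroup.centralizer (T : Set G))
    (hEs : E.IsSaturated p) {g : G} (hg : Mp E (nA Q T) (cj g)) :
    ∃ h ∈ c.nH E hI, ∀ a ∈ nA Q T, g * a * g⁻¹ = h * a * h⁻¹ := by
  haveI hNH := c.H_normal hI
  have hfr := Cfsg.Agent.H18.frattini_inf S (c.nH E hI)
  rw [c.S_inf_H_eq hI hEs] at hfr
  have hg1 : g ∈ ((Subgroup.normalizer (T : Set G) ⊔ c.nH E hI : Subgroup G) : Set G) := by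
    rw [hfr]
    exact Subgroup.mem_top _
  rw [Subgroup.mul_normal] at hg1
  obtain ⟨n, hn, h₁, hh₁, rfl⟩ := Set.mem_mul.1 hg1
  have hh₁1 : h₁ ∈ c.nH1 E hI := c.H_le_H1 hI hh₁
  have hnM : Mp E (nA Q T) (cj n) := by
    have h1 := c.H1_mul hI hg ((c.nH1 E hI).inv_mem hh₁1).1
    have e : n * h₁ * h₁⁻¹ = n := by group
    rwa [e] at h1
  obtain ⟨φh, hφh, hφhe⟩ := recept_ext (c.A_far hEs).recep (Iso.of_maps hnM (fun a ha => c.A_conj n a ha)) (K := T) A_le_T (fun t ht =>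
    Subgroup.subset_closure ⟨ht, mem_normalizer_of_conj (fun a ha => c.A_conj t a ha) (fun a ha => c.A_conj t⁻¹ a ha |> fun h => by simpa using h),
      n * t * n⁻¹, conj_mem_of_normalizer hn ht, fun x _ => by
        show n * (t * x * t⁻¹) * n⁻¹ = (n * t * n⁻¹) * (n * x * n⁻¹) * (n * t * n⁻¹)⁻¹
        group⟩)
  have hTI : Iso E T T φh := Iso.of_maps hφh (fun t ht => hφh.mem ht)
  obtain ⟨β, hβ, hβ1, hβ2⟩ := hE (autOfIso hTI) (autOfIso_mem hTI)
  have hVS : T ⊔ centralizerIn (S : Subgroup G) T ≤ (S : Subgroup G) := sup_le c.hTS inf_le_left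
  obtain ⟨y, hy⟩ := exists_of_mp_F (Mp.of_mem_autGroup hVS hβ)
  have hy' : ∀ z : ↥(T ⊔ centralizerIn (S : Subgroup G) T), ((β z : ↥(T ⊔ centralizerIn (S : Subgroup G) T)) : G) = y * z * y⁻¹ := by
    intro z
    have := hy z z.2
    rwa [toFun_aut] at this
  have hyT : ∀ t ∈ T, φh t = y * t * y⁻¹ := by
    intro t ht
    have h1 := hβ1 ⟨t, ht⟩
    rw [hy'] at h1
    rw [← autOfIso_apply hTI ⟨t, ht⟩, ← h1]
    rfl
  have hyM : Mp E T (cj y) := hφh.congr hyT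
  have hym : ∀ t ∈ T, y * t * y⁻¹ ∈ T := fun t ht => by
    rw [← hyT t ht]
    exact hφh.mem ht
  have hym' : ∀ t ∈ T, y⁻¹ * t * y ∈ T := by
    intro t ht
    obtain ⟨x, hx, e⟩ := (Iso.of_maps hyM hym).surj t ht
    have e2 : y⁻¹ * t * y = x := by
      rw [← e]
      show y⁻¹ * (y * x * y⁻¹) * y = x
      group
    rwa [e2]
  have hyC : ∀ v ∈ (S : Subgroup G), v ∈ Subgroup.centralizer (T : Set G) → v⁻¹ * (y * v * y⁻¹) ∈ T ⊓ Subgroup.centralizer (T : Set G) := by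
    intro v hv hvc
    have hv' : v ∈ centralizerIn (S : Subgroup G) T := Subgroup.mem_inf.2 ⟨hv, hvc⟩
    have h1 := hβ2 ⟨v, Subgroup.mem_sup_right hv'⟩ hv'
    rwa [hy'] at h1
  -- the conjugation by `y` preserves `Z(T)`
  have hZT : ∀ z ∈ T ⊓ Subgroup.centralizer (T : Set G), y * z * y⁻¹ ∈ T ⊓ Subgroup.centralizer (T : Set G) := by
    intro z hz
    obtain ⟨hz1, hz2⟩ := Subgroup.mem_inf.1 hz
    refine Subgroup.mem_inf.2 ⟨hym z hz1, ?_⟩
    rw [Subgroup.mem_centralizer_iff]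
    intro t ht
    have h1 := Subgroup.mem_centralizer_iff.1 hz2 _ (hym' t ht)
    calc t * (y * z * y⁻¹) = y * ((y⁻¹ * t * y) * z) * y⁻¹ := by group
      _ = y * (z * (y⁻¹ * t * y)) * y⁻¹ := by rw [h1]
      _ = y * z * y⁻¹ * t := by group
  have hpowC : ∀ (k : ℕ), ∀ v ∈ (S : Subgroup G), v ∈ Subgroup.centralizer (T : Set G) →
      v⁻¹ * (y ^ k * v * (y ^ k)⁻¹) ∈ T ⊓ Subgroup.centralizer (T : Set G) := by
    intro k v hv hvc
    induction k with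
    | zero => simp
    | succ k ih =>
      have h1 := hZT _ ih
      have h2 := (T ⊓ Subgroup.centralizer (T : Set G)).mul_mem (hyC v hv hvc) h1
      have e : v⁻¹ * (y * v * y⁻¹) * (y * (v⁻¹ * (y ^ k * v * (y ^ k)⁻¹)) * y⁻¹) = v⁻¹ * (y ^ (k + 1) * v * (y ^ (k + 1))⁻¹) := by
        rw [pow_succ' y k]
        group
      rwa [e] at h2
  have hpowT : ∀ (k : ℕ), ∀ t ∈ T, y ^ k * t * (y ^ k)⁻¹ ∈ T := by
    intro k
    induction k with
    | zero => intro t ht; simpa using ht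
    | succ k ih =>
      intro t ht
      have e : y ^ (k + 1) * t * (y ^ (k + 1))⁻¹ = y ^ k * (y * t * y⁻¹) * (y ^ k)⁻¹ := by
        rw [pow_succ]
        group
      rw [e]
      exact ih _ (hym t ht)
  obtain ⟨m₁, m₂, e, hco, ⟨k, hk⟩, -⟩ := exists_parts (p := p) y
  have hm1 : Mp E T (cj (y ^ m₁)) := mp_cj_pow le_rfl hyM hym m₁
  have hm2 : Mp E T (cj (y ^ m₂)) := mp_cj_pow le_rfl hyM hym m₂
  have hy1 : y ^ m₁ ∈ c.nH1 E hI := c.y_mem hI hEs hco hm1 (hpowT m₁) (hpowC m₁)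
  have hI2 : Iso E T T (cj (y ^ m₂)) := Iso.of_maps hm2 (hpowT m₂)
  have hβ₂ : ∀ x : T, ((autOfIso hI2 x : T) : G) = y ^ m₂ * x * (y ^ m₂)⁻¹ := fun x => autOfIso_apply hI2 x
  obtain ⟨t₂, ht₂, ht₂v⟩ := c.inner_of_pelt hI hEs (autOfIso_mem hI2) ⟨k, aut_pow_of_pelt hβ₂ hk⟩
  refine ⟨y ^ m₁ * t₂ * h₁, (c.nH E hI).mul_mem ((c.nH E hI).mul_mem (c.R_le_H hI (c.coprime_mem_R hI hy1 hco)) (c.T_le_H hI ht₂)) hh₁, fun a ha => ?_⟩
  have ha' : h₁ * a * h₁⁻¹ ∈ nA Q T := c.A_conj h₁ a ha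
  have e1 : n * (h₁ * a * h₁⁻¹) * n⁻¹ = y * (h₁ * a * h₁⁻¹) * y⁻¹ := (hφhe _ ha').symm.trans (hyT _ (A_le_T ha'))
  have e2 : y ^ m₂ * (h₁ * a * h₁⁻¹) * (y ^ m₂)⁻¹ = t₂ * (h₁ * a * h₁⁻¹) * t₂⁻¹ := by
    have h3 := ht₂v ⟨_, A_le_T ha'⟩
    rw [hβ₂] at h3
    exact h3
  calc n * h₁ * a * (n * h₁)⁻¹ = n * (h₁ * a * h₁⁻¹) * n⁻¹ := by group
    _ = y * (h₁ * a * h₁⁻¹) * y⁻¹ := e1
    _ = y ^ m₁ * (y ^ m₂ * (h₁ * a * h₁⁻¹) * (y ^ m₂)⁻¹) * (y ^ m₁)⁻¹ := by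
      conv_lhs => rw [← e]
      group
    _ = y ^ m₁ * (t₂ * (h₁ * a * h₁⁻¹) * t₂⁻¹) * (y ^ m₁)⁻¹ := by rw [e2]
    _ = y ^ m₁ * t₂ * h₁ * a * (y ^ m₁ * t₂ * h₁)⁻¹ := by group

end NCtx

end E

end Cfsg.Agent.H25
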