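import Cfsg.Agent.Lib.H25.NS4
set_option autoImplicit false
set_option linter.style.haveILetI false

/-! Normal subsystems of the fusion system of a constrained group: the main theorem. -/

namespace Cfsg.Agent.H25

open Cfsg Cfsg.FusionSystem

section E
variable {G : Type*} [Group G] [Finite G] {p : ℕ} [Fact p.Prime] {S : Sylow p G} {Q T : Subgroup G} {E : FusionSystem T}

namespace NCtx

variable (c : NCtx p (S : Subgroup G) Q T) (hI : E.IsInvariantIn (groupFusionSystem (S : Subgroup G)))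

/-- The form of the extension condition. -/
def ExtC (S : Sylow p G) (E : FusionSystem T) : Prop :=
  ∀ α ∈ E.autGroup T, ∃ β ∈ (groupFusionSystem (S : Subgroup G)).autGroup (T ⊔ centralizerIn (S : Subgroup G) T),
      (∀ x : T, ((β (Subgroup.inclusion le_sup_left x) : ↥(T ⊔ centralizerIn (S : Subgroup G) T)) : G) = ((α x : T) : G)) ∧
      ∀ c : ↥(T ⊔ centralizerIn (S : Subgroup G) T), (c : G) ∈ centralizerIn (S : Subgroup G) T →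
        (c : G)⁻¹ * ((β c : ↥(T ⊔ centralizerIn (S : Subgroup G) T)) : G) ∈ T ⊓ Subgroup.centralizer (T : Set G)

include c hI in
/-- Elements of coprime order with action in `Aut_E(A)` act on `T` as an element of `H`. -/
theorem claimP (hE : ExtC S E) (hEs : E.IsSaturated p) {g : G} (hco : Nat.Coprime (orderOf g) p) (hg : Mp E (nA Q T) (cj g)) :
    ∃ h ∈ c.nH E hI, ∀ t ∈ T, g * t * g⁻¹ = h * t * h⁻¹ := by
  haveI hZn := c.Z_normal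
  obtain ⟨h₀, hh₀, e₀⟩ := c.surj hI hE hEs hg
  have hh₀1 := c.H_le_H1 hI hh₀
  -- `d₀`
  obtain ⟨d₀, rfl⟩ : ∃ d₀, g = h₀ * d₀ := ⟨h₀⁻¹ * g, by group⟩
  have hd₀ : d₀ ∈ nD Q T := by
    rw [mem_D]
    intro a ha
    have h1 := e₀ a ha
    have h2 : h₀ * (d₀ * a * d₀⁻¹) * h₀⁻¹ = h₀ * a * h₀⁻¹ := by
      rw [← h1]
      group
    have h3 : d₀ * a * d₀⁻¹ = a := by
      have h4 := mul_left_cancel (mul_right_cancel h2)
      exact h4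
    calc a * d₀ = (d₀ * a * d₀⁻¹) * d₀ := by rw [h3]
      _ = d₀ * a := by group
  let k := orderOf (h₀ * d₀)
  let π : G →* G ⧸ nZ Q T := QuotientGroup.mk' (nZ Q T)
  have hπ : ∀ z ∈ nZ Q T, π z = 1 := fun z hz => (QuotientGroup.eq_one_iff z).2 hz
  have hcomm : Commute (π h₀) (π d₀) := by
    have h1 := hπ _ (hh₀1.2 d₀ hd₀)
    simp only [map_mul, map_inv] at h1
    have h2 : π h₀ * π d₀ = (π h₀ * π d₀ * (π h₀)⁻¹ * (π d₀)⁻¹) * (π d₀ * π h₀) := by group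
    show π h₀ * π d₀ = π d₀ * π h₀
    rw [h2, h1, one_mul]
  have hk1 : π (h₀ * d₀) ^ k = 1 := by
    rw [← map_pow, pow_orderOf_eq_one, map_one]
  rw [map_mul, hcomm.mul_pow, ← map_pow, ← map_pow, ← map_mul] at hk1
  have hk2 : h₀ ^ k * d₀ ^ k ∈ nZ Q T := (QuotientGroup.eq_one_iff _).1 hk1
  have hz₀H : d₀ ^ k ∈ c.nH E hI := by
    have h1 : d₀ ^ k = (h₀ ^ k)⁻¹ * (h₀ ^ k * d₀ ^ k) := by group
    rw [h1]
    exact (c.nH E hI).mul_mem ((c.nH E hI).inv_mem ((c.nH E hI).pow_mem hh₀ k)) (c.Z_le_H hI hk2)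
  have hz₀ : d₀ ^ k ∈ nZ Q T := c.H_D hI hEs hz₀H ((nD Q T).pow_mem hd₀ k)
  -- the exponent
  have hZp : IsPGroup p ↥(nZ Q T) := c.hQp.to_le (Z_le_A.trans A_le_Q)
  obtain ⟨N, hN⟩ := (IsPGroup.iff_card).1 hZp
  have hcoM : Nat.Coprime k (Nat.card ↥(nZ Q T)) := by
    rw [hN]
    exact Nat.Coprime.pow_right N hco
  obtain ⟨l', hl0, hl1⟩ := Nat.chineseRemainder hcoM 0 1
  obtain ⟨l, rfl⟩ := (Nat.modEq_zero_iff_dvd).1 hl0
  refine ⟨h₀ * (d₀ ^ k) ^ l, (c.nH E hI).mul_mem hh₀ (c.Z_le_H hI ((nZ Q T).pow_mem hz₀ l)), fun t ht => ?_⟩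
  have hf := c.TD ht hd₀
  obtain ⟨f, hfdef⟩ : ∃ f, f = d₀ * t * d₀⁻¹ * t⁻¹ := ⟨_, rfl⟩
  rw [← hfdef] at hf
  have h1 : d₀ * t * d₀⁻¹ = f * t := by
    rw [hfdef]
    group
  have h2 : d₀ * f * d₀⁻¹ = f := Z_fix hd₀ hf
  have h3 := conj_pow_chain h1 h2 k
  have h4 : d₀ ^ k * f ^ k * (d₀ ^ k)⁻¹ = f ^ k := Z_fix ((nD Q T).pow_mem hd₀ k) ((nZ Q T).pow_mem hf k)
  have h5 := conj_pow_chain h3 h4 l
  have hfM : f ^ (k * l) = f := by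
    have hfo : f ^ Nat.card ↥(nZ Q T) = 1 := by
      have h7 : (⟨f, hf⟩ : ↥(nZ Q T)) ^ Nat.card ↥(nZ Q T) = 1 := pow_card_eq_one'
      have h8 : ((⟨f, hf⟩ : ↥(nZ Q T)) ^ Nat.card ↥(nZ Q T)).1 = 1 := congrArg Subtype.val h7
      simpa only [Subgroup.coe_pow] using h8
    have h6 : k * l ≡ 1 [MOD orderOf f] := hl1.of_dvd (orderOf_dvd_of_pow_eq_one hfo)
    have := pow_eq_pow_iff_modEq.2 h6
    rwa [pow_one] at this
  have h5' : (d₀ ^ k) ^ l * t * ((d₀ ^ k) ^ l)⁻¹ = f * t := by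
    rw [h5, ← pow_mul, hfM]
  calc h₀ * d₀ * t * (h₀ * d₀)⁻¹ = h₀ * (d₀ * t * d₀⁻¹) * h₀⁻¹ := by group
    _ = h₀ * (f * t) * h₀⁻¹ := by rw [h1]
    _ = h₀ * ((d₀ ^ k) ^ l * t * ((d₀ ^ k) ^ l)⁻¹) * h₀⁻¹ := by rw [h5']
    _ = h₀ * (d₀ ^ k) ^ l * t * (h₀ * (d₀ ^ k) ^ l)⁻¹ := by group

include c hI in
/-- `E ≤ F_T(H)`. -/
theorem E_le (hE : ExtC S E) (hEs : E.IsSaturated p) (hN : E.IsNormal (nA Q T)) :
    E ≤ fusionSystemOfSubgroup (c.nH E hI) T (c.T_le_H hI) := by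
  have hT : IsPGroup p T := S.isPGroup'.to_le c.hTS
  refine cmp_le hT hEs hN ?_
  intro Y hAY hYT _ γ hγ hco
  have hγM : Mp E Y (toFun (Y.subtype.comp γ.toMonoidHom)) := Mp.of_mem_autGroup hYT hγ
  obtain ⟨g₀, hg₀⟩ := exists_of_mp_F (S := S) (inv_mp_sub hI hγM)
  have hg₀' : ∀ x : Y, ((γ x : Y) : G) = g₀ * x * g₀⁻¹ := by
    intro x
    have := hg₀ x x.2
    rwa [toFun_aut] at this
  obtain ⟨g, hgco, hg⟩ := Cfsg.Agent.H24.exists_coprime_conj γ g₀ hg₀' hco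
  have hgA : Mp E (nA Q T) (cj g) := (hγM.restrict hAY).congr fun a ha => by
    rw [toFun_aut γ ⟨a, hAY ha⟩, hg]
    rfl
  obtain ⟨h, hh, hhv⟩ := c.claimP hI hE hEs hgco hgA
  have hv : ∀ x : Y, h * (x : G) * h⁻¹ ∈ T := fun x => by
    rw [← hhv _ (hYT x.2), ← hg]
    exact hYT (γ x).2
  refine mem_autGroup_of_mp (f := cj h) ⟨conjHom Y h, ⟨hYT, hv, h, hh, fun _ => rfl⟩, fun _ => rfl⟩ (fun x => ?_)
  rw [hg, hhv _ (hYT x.2)]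
  rfl

/-- A coprime automorphism induced by `h` is induced by a coprime power of `h`. -/
theorem exists_coprime_pow {X : Subgroup G} {γ : MulAut X} {h : G} (hh : ∀ a : X, ((γ a : X) : G) = h * a * h⁻¹)
    (hco : Nat.Coprime (orderOf γ) p) : ∃ k : ℕ, Nat.Coprime (orderOf (h ^ k)) p ∧ ∀ a : X, ((γ a : X) : G) = h ^ k * a * (h ^ k)⁻¹ := by
  obtain ⟨m₁, m₂, -, hc, -, hm⟩ := exists_parts (p := p) h
  refine ⟨m₁, hc, fun a => ?_⟩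
  have h1 : orderOf γ ∣ orderOf h := orderOf_dvd_of_pow_eq_one (aut_pow_of_pelt hh (pow_orderOf_eq_one h))
  have h2 := pow_eq_pow_iff_modEq.2 (hm _ hco h1)
  rw [pow_one] at h2
  have h3 := aut_pow_apply hh m₁ a
  rwa [h2] at h3

include c hI in
/-- `F_T(H) ≤ E`. -/
theorem le_E (hE : ExtC S E) (hEs : E.IsSaturated p) :
    fusionSystemOfSubgroup (c.nH E hI) T (c.T_le_H hI) ≤ E := by
  have hT : IsPGroup p T := S.isPGroup'.to_le c.hTS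
  haveI hNH := c.H_normal hI
  have hTidx := Cfsg.Agent.H24.sylow_inf_normal_index S (c.nH E hI)
  rw [c.S_inf_H_eq hI hEs] at hTidx
  have hsat := Cfsg.Agent.H24.saturated_fusionSystemOfSubgroup (c.T_le_H hI) hT hTidx
  -- `A` is normal in `F_T(H)`
  have hN : (fusionSystemOfSubgroup (c.nH E hI) T (c.T_le_H hI)).IsNormal (nA Q T) := by
    refine ⟨A_le_T, fun P φ hφ => ?_⟩
    obtain ⟨hP, hv, h, hh, hφh⟩ := hφ
    have hL : P ⊔ nA Q T ≤ T := sup_le hP A_le_T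
    have hvv : ∀ x : ↥(P ⊔ nA Q T), h * (x : G) * h⁻¹ ∈ T := by
      have hAP : nA Q T ≤ Subgroup.normalizer (P : Set G) ∨ True := Or.inr trivial
      have hPA : P ≤ Subgroup.normalizer ((nA Q T : Subgroup G) : Set G) := by
        haveI := c.A_normal
        rw [Subgroup.normalizer_eq_top]
        exact le_top
      intro x
      have hx : (x : G) ∈ nA Q T ⊔ P := by
        rw [sup_comm]
        exact x.2
      obtain ⟨a, ha, b, hb, e⟩ := Cfsg.Agent.H01.exists_mul_of_mem_sup hPA hx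
      rw [e]
      have e2 : h * (a * b) * h⁻¹ = (h * a * h⁻¹) * (h * b * h⁻¹) := by group
      rw [e2]
      refine T.mul_mem (A_le_T (c.A_conj h a ha)) ?_
      have := hv ⟨b, hb⟩
      rwa [hφh] at this
    refine ⟨conjHom (P ⊔ nA Q T) h, ⟨hL, hvv, h, hh, fun _ => rfl⟩, fun x => (hφh x).symm, ?_⟩
    ext y
    constructor
    · rintro ⟨x, hx, rfl⟩
      exact c.A_conj h _ hx
    · intro hy
      have hy' := c.A_conj h⁻¹ y hy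
      refine ⟨⟨h⁻¹ * y * h⁻¹⁻¹, Subgroup.mem_sup_right hy'⟩, hy', ?_⟩
      show h * (h⁻¹ * y * h⁻¹⁻¹) * h⁻¹ = y
      group
  refine cmp_le hT hsat hN ?_
  intro Y hAY hYT _ γ hγ hco
  have hγM := Mp.of_mem_autGroup hYT hγ
  obtain ⟨φ, ⟨-, -, h₀, hh₀, hφ⟩, hφf⟩ := hγM
  have hh₀' : ∀ a : Y, ((γ a : Y) : G) = h₀ * a * h₀⁻¹ := by
    intro a
    rw [← toFun_aut, ← hφf a, hφ]
  obtain ⟨k, hkco, hkv⟩ := exists_coprime_pow hh₀' hco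
  obtain ⟨h, hh, hcoh, hhv⟩ : ∃ h ∈ c.nH E hI, Nat.Coprime (orderOf h) p ∧ ∀ a : Y, ((γ a : Y) : G) = h * a * h⁻¹ :=
    ⟨h₀ ^ k, (c.nH E hI).pow_mem hh₀ k, hkco, hkv⟩
  have hh1 := c.H_le_H1 hI hh
  -- extension
  obtain ⟨φh, hφh, hφhe⟩ := recept_ext (c.A_far hEs).recep (Iso.of_maps hh1.1 (fun a ha => c.A_conj h a ha)) (K := Y) hAY (fun y hy =>
    Subgroup.subset_closure ⟨hYT hy, mem_normalizer_of_conj (fun a ha => c.A_conj y a ha) (fun a ha => c.A_conj y⁻¹ a ha |> fun h => by simpa using h),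
      h * y * h⁻¹, by rw [← hhv ⟨y, hy⟩]; exact hYT (γ ⟨y, hy⟩).2, fun x _ => by
        show h * (y * x * y⁻¹) * h⁻¹ = (h * y * h⁻¹) * (h * x * h⁻¹) * (h * y * h⁻¹)⁻¹
        group⟩)
  -- the difference
  have hdiff : ∀ y ∈ Y, (φh y)⁻¹ * (h * y * h⁻¹) ∈ nZ Q T := by
    intro y hy
    have hyT' : φh y ∈ T := hφh.mem hy
    have hcT : h * y * h⁻¹ ∈ T := by
      rw [← hhv ⟨y, hy⟩]
      exact hYT (γ ⟨y, hy⟩).2
    refine c.T_D (T.mul_mem (T.inv_mem hyT') hcT) ?_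
    rw [mem_D]
    intro a ha
    have ha' : h⁻¹ * a * h⁻¹⁻¹ ∈ nA Q T := c.A_conj h⁻¹ a ha
    have e1 : φh (h⁻¹ * a * h⁻¹⁻¹) = a := by
      rw [hφhe _ ha']
      show h * (h⁻¹ * a * h⁻¹⁻¹) * h⁻¹ = a
      group
    have hyA : y * (h⁻¹ * a * h⁻¹⁻¹) * y⁻¹ ∈ nA Q T := c.A_conj y _ ha'
    have hA_Y : h⁻¹ * a * h⁻¹⁻¹ ∈ Y := hAY ha'
    have e2 : φh (y * (h⁻¹ * a * h⁻¹⁻¹) * y⁻¹) = φh y * a * (φh y)⁻¹ := by
      rw [hφh.map_mul (Y.mul_mem hy hA_Y) (Y.inv_mem hy), hφh.map_mul hy hA_Y, hφh.map_inv hy, e1]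
    have e3 : φh (y * (h⁻¹ * a * h⁻¹⁻¹) * y⁻¹) = h * (y * (h⁻¹ * a * h⁻¹⁻¹) * y⁻¹) * h⁻¹ := hφhe _ hyA
    have e4 : φh y * a * (φh y)⁻¹ = (h * y * h⁻¹) * a * (h * y * h⁻¹)⁻¹ := by
      rw [← e2, e3]
      group
    calc a * ((φh y)⁻¹ * (h * y * h⁻¹)) = (φh y)⁻¹ * (φh y * a * (φh y)⁻¹) * (h * y * h⁻¹) := by group
      _ = (φh y)⁻¹ * ((h * y * h⁻¹) * a * (h * y * h⁻¹)⁻¹) * (h * y * h⁻¹) := by rw [e4]
      _ = (φh y)⁻¹ * (h * y * h⁻¹) * a := by group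
  have hmaps : ∀ y ∈ Y, φh y ∈ Y := by
    intro y hy
    have h1 := hdiff y hy
    have hcY : h * y * h⁻¹ ∈ Y := by
      rw [← hhv ⟨y, hy⟩]
      exact (γ ⟨y, hy⟩).2
    have e : φh y = (h * y * h⁻¹) * ((φh y)⁻¹ * (h * y * h⁻¹))⁻¹ := by group
    rw [e]
    exact Y.mul_mem hcY (Y.inv_mem (hAY (Z_le_A h1)))
  have hIY : Iso E Y Y φh := Iso.of_maps hφh hmaps
  obtain ⟨a₀, ha₀⟩ : ∃ a₀ : MulAut Y, a₀ = autOfIso hIY := ⟨_, rfl⟩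
  have ha₀M : a₀ ∈ E.autGroup Y := by rw [ha₀]; exact autOfIso_mem hIY
  have ha₀v : ∀ x : Y, ((a₀ x : Y) : G) = φh x := fun x => by rw [ha₀]; exact autOfIso_apply hIY x
  -- the coprime part of `a₀`
  obtain ⟨m₁, m₂, -, hc₁, -, hm₁⟩ := exists_parts (p := p) a₀
  obtain ⟨g₀, hg₀⟩ := exists_of_mp_F (S := S) (inv_mp_sub hI hφh)
  have hg₀' : ∀ x : Y, ((a₀ x : Y) : G) = g₀ * x * g₀⁻¹ := fun x => by rw [ha₀v]; exact hg₀ x x.2
  have hpw := aut_pow_apply hg₀' m₁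
  obtain ⟨g, hgco, hg⟩ := Cfsg.Agent.H24.exists_coprime_conj (a₀ ^ m₁) (g₀ ^ m₁) hpw hc₁
  -- the action on `A`
  obtain ⟨ρ, hρ⟩ := c.cA_aut h
  have h3 : ∀ n : ℕ, ∀ b : nA Q T, (((ρ ^ n) b : nA Q T) : G) = (((a₀ ^ n) ⟨b, hAY b.2⟩ : Y) : G) := by
    intro n
    induction n with
    | zero => intro b; simp
    | succ n ih =>
      intro b
      rw [pow_succ, pow_succ]
      show (((ρ ^ n) (ρ b) : nA Q T) : G) = (((a₀ ^ n) (a₀ ⟨b, hAY b.2⟩) : Y) : G)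
      rw [ih]
      have hstep : (⟨((ρ b : nA Q T) : G), hAY (ρ b).2⟩ : Y) = a₀ ⟨b, hAY b.2⟩ := by
        apply Subtype.ext
        rw [ha₀v, hφhe _ b.2, hρ]
        rfl
      rw [hstep]
  have hρo : orderOf ρ ∣ orderOf a₀ := by
    refine orderOf_dvd_of_pow_eq_one ?_
    ext a
    rw [h3, pow_orderOf_eq_one]
    simp
  have hρco : Nat.Coprime (orderOf ρ) p :=
    Nat.Coprime.coprime_dvd_left (orderOf_dvd_of_pow_eq_one (aut_pow_of_pelt hρ (pow_orderOf_eq_one h))) hcoh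
  have hρm : ρ ^ m₁ = ρ := by
    have := pow_eq_pow_iff_modEq.2 (hm₁ _ hρco hρo)
    rwa [pow_one] at this
  have hgA : ∀ a ∈ nA Q T, g * a * g⁻¹ = h * a * h⁻¹ := by
    intro a ha
    have h4 := h3 m₁ ⟨a, ha⟩
    rw [hρm, hρ, hg] at h4
    exact h4.symm
  have hpM : Mp E Y (toFun (Y.subtype.comp (a₀ ^ m₁).toMonoidHom)) :=
    Mp.of_mem_autGroup hYT (Subgroup.pow_mem _ ha₀M m₁)
  have hgAM : Mp E (nA Q T) (cj g) := (hpM.restrict hAY).congr fun a ha => by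
    rw [toFun_aut (a₀ ^ m₁) ⟨a, hAY ha⟩, hg]
    rfl
  obtain ⟨h', hh', hh'v⟩ := c.claimP hI hE hEs hgco hgAM
  have hz₁ : h⁻¹ * h' ∈ nZ Q T := by
    refine c.H_D hI hEs ((c.nH E hI).mul_mem ((c.nH E hI).inv_mem hh) hh') ?_
    rw [mem_D]
    intro a ha
    have e1 := hgA a ha
    rw [hh'v a (A_le_T ha)] at e1
    calc a * (h⁻¹ * h') = h⁻¹ * (h * a * h⁻¹) * h' := by group
      _ = h⁻¹ * (h' * a * h'⁻¹) * h' := by rw [e1]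
      _ = h⁻¹ * h' * a := by group
  -- the conclusion
  have hz₁Y : (h⁻¹ * h')⁻¹ ∈ Y := Y.inv_mem (hAY (Z_le_A hz₁))
  have hcM : Mp E Y (cj (h⁻¹ * h')⁻¹) := Mp.conj hYT (T.inv_mem (Z_le_T hz₁))
  have hcY : ∀ y ∈ Y, cj (h⁻¹ * h')⁻¹ y ∈ Y := fun y hy => Y.mul_mem (Y.mul_mem hz₁Y hy) (Y.inv_mem hz₁Y)
  refine mem_autGroup_of_mp ((hcM.comp hcY hpM)) (fun x => ?_)
  show ((γ x : Y) : G) = toFun (Y.subtype.comp (a₀ ^ m₁).toMonoidHom) (cj (h⁻¹ * h')⁻¹ x)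
  rw [toFun_aut (a₀ ^ m₁) ⟨_, hcY x x.2⟩, hg, hh'v _ (hYT (hcY x x.2)), hhv]
  show h * (x : G) * h⁻¹ = h' * ((h⁻¹ * h')⁻¹ * x * (h⁻¹ * h')⁻¹⁻¹) * h'⁻¹
  group

end NCtx

end E

end Cfsg.Agent.H25
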