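import Mathlib
import Cfsg.Agent.Lib.H24.BisetI

/-!
Every fusion system is realized inside a finite group, through a biset whose marks on graphs
depend only on the order of the graph.
-/

set_option autoImplicit false
set_option linter.style.haveILetI false

namespace Cfsg.Agent.H25

open Cfsg Cfsg.FusionSystem
open Cfsg.Agent.H24

universe u

section Uniform

variable {G : Type u} [Group G]

/-- All stabilizers lie in a family. -/
def StabFam (Fam : Subgroup G → Prop) (X : Type*) [MulAction G X] : Prop :=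
  ∀ x : X, Fam (MulAction.stabilizer G x)

variable [Finite G] {Fam : Subgroup G → Prop}

theorem stabFam_sum (hconj : ∀ H g, Fam H → Fam (H.map (MulAut.conj g).toMonoidHom)) {X : Type u} [MulAction G X] (hX : StabFam Fam X) (K : Subgroup G) (hK : Fam K) :
    StabFam Fam (X ⊕ (G ⧸ K)) := by
  rintro (x | q)
  · have e : MulAction.stabilizer G (Sum.inl x : X ⊕ (G ⧸ K)) = MulAction.stabilizer G x := by
      ext g
      simp only [MulAction.mem_stabilizer_iff]
      constructor
      · intro h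
        exact Sum.inl_injective h
      · intro h
        exact congrArg Sum.inl h
    rw [e]
    exact hX x
  · obtain ⟨a, rfl⟩ := QuotientGroup.mk_surjective q
    have e : MulAction.stabilizer G (Sum.inr (a : G ⧸ K) : X ⊕ (G ⧸ K)) =
        K.map (MulAut.conj a).toMonoidHom := by
      ext g
      simp only [MulAction.mem_stabilizer_iff]
      constructor
      · intro h
        have h1 : ((g * a : G) : G ⧸ K) = (a : G ⧸ K) := Sum.inr_injective h
        have h2 := QuotientGroup.eq.1 h1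
        have h3 := K.inv_mem h2
        refine ⟨a⁻¹ * g * a, by simpa [mul_assoc] using h3, ?_⟩
        show a * (a⁻¹ * g * a) * a⁻¹ = g
        group
      · rintro ⟨k, hk, rfl⟩
        apply congrArg Sum.inr
        show (((a * k * a⁻¹) * a : G) : G ⧸ K) = (a : G ⧸ K)
        rw [QuotientGroup.eq]
        have h3 := K.inv_mem hk
        simpa [mul_assoc] using h3
    rw [e]
    exact hconj K a hK

theorem fillFam (hconj : ∀ H g, Fam H → Fam (H.map (MulAut.conj g).toMonoidHom)) (t L : ℕ) (hL : ∀ H, Fam H → Nat.card H = t → L ∣ H.index)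
    (M : Subgroup G → ℕ)
    (hM : ∀ H g, Fam H → Nat.card H = t → M (H.map (MulAut.conj g).toMonoidHom) = M H) :
    ∀ (d : ℕ) (X : Type u) [MulAction G X] [Finite X], StabFam Fam X →
      (∀ H, Fam H → Nat.card H = t → mrk X H ≤ M H ∧ (wd H : ℤ) ∣ (M H : ℤ) - mrk X H) →
      (∑ᶠ H ∈ {H : Subgroup G | Fam H ∧ Nat.card H = t}, (M H - mrk X H)) = d →
      ∃ (X' : Type u) (_ : MulAction G X') (_ : Finite X'), StabFam Fam X' ∧
        (∀ H : Subgroup G, t < Nat.card H → mrk X' H = mrk X H) ∧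
        (∀ H, Fam H → Nat.card H = t → mrk X' H = M H) ∧
        Nat.card X' ≡ Nat.card X [MOD L] := by
  classical
  haveI : Finite (Subgroup G) := inferInstance
  intro d
  induction d using Nat.strong_induction_on with
  | _ d ih =>
    intro X _ _ hX hcond hd
    by_cases hall : ∀ H, Fam H → Nat.card H = t → mrk X H = M H
    · exact ⟨X, inferInstance, inferInstance, hX, fun _ _ => rfl, hall, Nat.ModEq.refl _⟩
    · push Not at hall
      obtain ⟨H₀, hH₀, hH₀t, hne⟩ := hall
      have hlt₀ : mrk X H₀ < M H₀ := lt_of_le_of_ne (hcond H₀ hH₀ hH₀t).1 hne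
      -- marks of the new set
      have hmk : ∀ K : Subgroup G, mrk (X ⊕ (G ⧸ H₀)) K = mrk X K + mrk (G ⧸ H₀) K := fun K => mrk_sum K
      have hX₁ : StabFam Fam (X ⊕ (G ⧸ H₀)) := stabFam_sum hconj hX H₀ hH₀
      have hcond₁ : ∀ H, Fam H → Nat.card H = t →
          mrk (X ⊕ (G ⧸ H₀)) H ≤ M H ∧ (wd H : ℤ) ∣ (M H : ℤ) - mrk (X ⊕ (G ⧸ H₀)) H := by
        intro H hH hHt
        rw [hmk]
        by_cases hconj : ∃ g : G, H = H₀.map (MulAut.conj g).toMonoidHom
        · obtain ⟨g, rfl⟩ := hconj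
          rw [mrk_quot_of_conj, mrk_conj, hM H₀ g hH₀ hH₀t, wd_conj]
          obtain ⟨-, hdv⟩ := hcond H₀ hH₀ hH₀t
          have hpos : (0 : ℤ) < (M H₀ : ℤ) - mrk X H₀ := by omega
          have hle := Int.le_of_dvd hpos hdv
          constructor
          · omega
          · have : (M H₀ : ℤ) - ((mrk X H₀ + wd H₀ : ℕ) : ℤ) = ((M H₀ : ℤ) - mrk X H₀) - wd H₀ := by
              push_cast; ring
            rw [this]
            exact dvd_sub hdv (dvd_refl _)
        · push Not at hconj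
          rw [mrk_quot_of_not_conj (by omega) hconj, add_zero]
          exact hcond H hH hHt
      have hfin : {H : Subgroup G | Fam H ∧ Nat.card H = t}.Finite := Set.toFinite _
      have hdlt : (∑ᶠ H ∈ {H : Subgroup G | Fam H ∧ Nat.card H = t},
          (M H - mrk (X ⊕ (G ⧸ H₀)) H)) < d := by
        rw [← hd, finsum_mem_eq_finite_toFinset_sum _ hfin, finsum_mem_eq_finite_toFinset_sum _ hfin]
        apply Finset.sum_lt_sum
        · intro H _
          rw [hmk]
          omega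
        · refine ⟨H₀, by simpa using ⟨hH₀, hH₀t⟩, ?_⟩
          rw [hmk]
          have h1 := (hcond₁ H₀ hH₀ hH₀t).1
          rw [hmk] at h1
          have h2 : 0 < mrk (G ⧸ H₀) H₀ := by
            have := mrk_quot_of_conj (G := G) H₀ 1
            have e : H₀.map (MulAut.conj (1 : G)).toMonoidHom = H₀ := by
              ext y
              simp
            rw [e] at this
            rw [this]
            exact wd_pos H₀
          omega
      obtain ⟨X', i1, i2, hX', h1, h2, h3⟩ := ih _ hdlt (X ⊕ (G ⧸ H₀)) hX₁ hcond₁ rfl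
      refine ⟨X', i1, i2, hX', ?_, h2, ?_⟩
      · intro H hH
        rw [h1 H hH, hmk, mrk_quot_of_card (by omega), add_zero]
      · refine h3.trans ?_
        have h4 : Nat.card (X ⊕ (G ⧸ H₀)) = Nat.card X + H₀.index := by
          rw [Nat.card_sum]
          rfl
        rw [h4]
        obtain ⟨c, hc⟩ := hL H₀ hH₀ hH₀t
        rw [hc]
        simp [Nat.ModEq]


/-- `c` copies of a `G`-set. -/
def Copies (X : Type u) (c : ℕ) : Type u := X × ULift.{u} (Fin c)

instance instFiniteCopies {X : Type u} [Finite X] {c : ℕ} : Finite (Copies X c) := by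
  unfold Copies
  infer_instance

instance instMulActionCopies {X : Type u} [MulAction G X] {c : ℕ} : MulAction G (Copies X c) where
  smul g x := (g • x.1, x.2)
  one_smul x := by
    apply Prod.ext
    · exact one_smul G x.1
    · rfl
  mul_smul a b x := by
    apply Prod.ext
    · exact mul_smul a b x.1
    · rfl

theorem copies_smul {X : Type u} [MulAction G X] {c : ℕ} (g : G) (x : Copies X c) :
    g • x = (g • x.1, x.2) := rfl

theorem mrk_copies {X : Type u} [MulAction G X] {c : ℕ} (H : Subgroup G) :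
    mrk (Copies X c) H = mrk X H * c := by
  have h1 : Nat.card (fixSet X H × ULift.{u} (Fin c)) = mrk X H * c := by
    rw [Nat.card_prod]
    simp [mrk]
  rw [← h1]
  apply Nat.card_congr
  refine ⟨fun z => (⟨z.1.1, fun h hh => congrArg Prod.fst (z.2 h hh)⟩, z.1.2),
    fun z => ⟨(z.1.1, z.2), fun h hh => ?_⟩, ?_, ?_⟩
  · exact Prod.ext (z.1.2 h hh) rfl
  · intro z
    rfl
  · intro z
    rfl

theorem stabFam_copies {X : Type u} [MulAction G X] {c : ℕ} (hX : StabFam Fam X) :
    StabFam Fam (Copies X c) := by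
  intro x
  have e : MulAction.stabilizer G x = MulAction.stabilizer G x.1 := by
    ext g
    simp only [MulAction.mem_stabilizer_iff]
    constructor
    · intro h
      exact congrArg Prod.fst h
    · intro h
      rw [copies_smul, h]
      rfl
  rw [e]
  exact hX x.1

theorem exists_uniform (hconj : ∀ H g, Fam H → Fam (H.map (MulAut.conj g).toMonoidHom)) (s : ℕ) :
    s ≤ Nat.card G + 1 → ∃ (X : Type u) (_ : MulAction G X) (_ : Finite X), StabFam Fam X ∧
      (∀ H H', Fam H → Fam H' → Nat.card G + 1 - s ≤ Nat.card H → Nat.card H = Nat.card H' →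
        mrk X H = mrk X H') ∧
      (∀ H, Fam H → Nat.card G + 1 - s ≤ Nat.card H → 0 < mrk X H) := by
  have hcG : ∀ H : Subgroup G, Nat.card H ≤ Nat.card G := fun H => Subgroup.card_le_card_group H
  induction s with
  | zero =>
    intro _
    let iE : MulAction G PEmpty.{u + 1} :=
      { smul := fun _ x => x.elim
        one_smul := fun x => x.elim
        mul_smul := fun _ _ x => x.elim }
    refine ⟨PEmpty, iE, inferInstance, fun x => x.elim, ?_, ?_⟩
    · intro H H' _ _ h
      have := hcG H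
      omega
    · intro H _ h
      have := hcG H
      omega
  | succ s ih =>
    intro hs
    obtain ⟨X, i1, i2, hX, h1, h2⟩ := ih (by omega)
    obtain ⟨t, ht⟩ : ∃ t, t = Nat.card G + 1 - (s + 1) := ⟨_, rfl⟩
    have ht1 : Nat.card G + 1 - s = t + 1 := by omega
    rw [ht1] at h1 h2
    rw [← ht]
    let c := Nat.card G
    have hc0 : 0 < c := Nat.card_pos
    let M : Subgroup G → ℕ := fun _ => c * (Nat.card X + 1)
    have hY : StabFam Fam (Copies X c) := stabFam_copies hX
    have hcond : ∀ H, Fam H → Nat.card H = t → mrk (Copies X c) H ≤ M H ∧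
        (wd H : ℤ) ∣ (M H : ℤ) - mrk (Copies X c) H := by
      intro H _ _
      rw [mrk_copies]
      have h3 := mrk_le_card (X := X) H
      constructor
      · show mrk X H * c ≤ c * (Nat.card X + 1)
        rw [mul_comm]
        exact Nat.mul_le_mul_left _ (by omega)
      · have h4 : (wd H : ℤ) ∣ (c : ℤ) := Int.natCast_dvd_natCast.2 (wd_dvd_card H)
        have e : (M H : ℤ) - ((mrk X H * c : ℕ) : ℤ) = (c : ℤ) * ((Nat.card X : ℤ) + 1 - mrk X H) := by
          show ((c * (Nat.card X + 1) : ℕ) : ℤ) - _ = _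
          push_cast
          ring
        rw [e]
        exact Dvd.dvd.mul_right h4 _
    obtain ⟨X', i1', i2', hX', h3, h4, -⟩ := fillFam hconj t 1 (fun _ _ _ => one_dvd _) M
      (fun _ _ _ _ => rfl) _ (Copies X c) hY hcond rfl
    refine ⟨X', i1', i2', hX', ?_, ?_⟩
    · intro H H' hH hH' hle he
      rcases Nat.lt_or_ge t (Nat.card H) with hlt | hge
      · rw [h3 H hlt, h3 H' (by omega), mrk_copies, mrk_copies, h1 H H' hH hH' (by omega) he]
      · rw [h4 H hH (by omega), h4 H' hH' (by omega)]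
    · intro H hH hle
      rcases Nat.lt_or_ge t (Nat.card H) with hlt | hge
      · rw [h3 H hlt, mrk_copies]
        exact Nat.mul_pos (h2 H hH (by omega)) hc0
      · rw [h4 H hH (by omega)]
        exact Nat.mul_pos hc0 (by omega)

end Uniform

section Biset

variable {Ω : Type u} [Group Ω] {S : Subgroup Ω} [Finite S] (F : FusionSystem S)

/-- A biset with stabilizers graphs of the system and marks depending only on orders. -/
theorem exists_unif_biset : ∃ (X : Type u) (_ : MulAction (↥S × ↥S) X) (_ : Finite X),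
    (∀ x : X, IsFG F (MulAction.stabilizer _ x)) ∧
    (∀ H H', IsFG F H → IsFG F H' → Nat.card H = Nat.card H' → mrk X H = mrk X H') ∧
    (∀ H, IsFG F H → 0 < mrk X H) := by
  obtain ⟨X, i1, i2, hX, h1, h2⟩ := exists_uniform (G := ↥S × ↥S) (Fam := IsFG F)
    (fun H g hH => (isFG_conj g hH).1) (Nat.card (↥S × ↥S) + 1) le_rfl
  refine ⟨X, i1, i2, hX, fun H H' hH hH' he => h1 H H' hH hH' (by omega) he,
    fun H hH => h2 H hH (by omega)⟩

variable {F}

theorem marks_twist_unif {X : Type u} [MulAction (↥S × ↥S) X]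
    (hX : ∀ x : X, IsFG F (MulAction.stabilizer _ x))
    (hmark : ∀ H H', IsFG F H → IsFG F H' → Nat.card H = Nat.card H' → mrk X H = mrk X H')
    {P : Subgroup Ω} {f : Ω → Ω} (hf : Mp F P f) (K : Subgroup (↥P × ↥S)) :
    mrk X (K.map (hom₁ hf.le)) = mrk X (K.map (hom₂ hf)) := by
  have hmain := graph_transfer (F := F) (A := P) (B := S) (θ₁ := f) (θ₂ := _root_.id)
    (K₁ := K.map (hom₁ hf.le)) (K₂ := K.map (hom₂ hf)) hf (Mp.id le_rfl) ?_ ?_ ?_
  · have hinj1 : Function.Injective (hom₁ hf.le : (↥P × ↥S) →* (↥S × ↥S)) := by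
      rintro ⟨a, b⟩ ⟨c, d⟩ h
      have e1 := congrArg (fun q : ↥S × ↥S => ((q.1 : ↥S) : Ω)) h
      have e2 := congrArg (fun q : ↥S × ↥S => q.2) h
      exact Prod.ext (Subtype.ext e1) e2
    have hinj2 : Function.Injective (hom₂ hf : (↥P × ↥S) →* (↥S × ↥S)) := by
      rintro ⟨a, b⟩ ⟨c, d⟩ h
      have e1 : f a = f c := congrArg (fun q : ↥S × ↥S => ((q.1 : ↥S) : Ω)) h
      have e2 := congrArg (fun q : ↥S × ↥S => q.2) h
      exact Prod.ext (Subtype.ext (hf.inj a.2 c.2 e1)) e2
    have hcard : Nat.card (K.map (hom₁ hf.le)) = Nat.card (K.map (hom₂ hf)) := by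
      rw [Subgroup.card_map_of_injective hinj1, Subgroup.card_map_of_injective hinj2]
    by_cases h : IsFG F (K.map (hom₁ hf.le))
    · exact hmark _ _ h (hmain.1 h).1 hcard
    · have h' : ¬ IsFG F (K.map (hom₂ hf)) := fun h3 => h (hmain.2 h3)
      have h0 : ∀ L : Subgroup (↥S × ↥S), ¬ IsFG F L → mrk X L = 0 := by
        intro L hL
        unfold mrk
        haveI : IsEmpty (fixSet X L) := by
          constructor
          rintro ⟨x, hx⟩
          exact hL (isFG_le (hX x) (mem_fixSet_iff_le.1 hx))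
        exact Nat.card_of_isEmpty
      rw [h0 _ h, h0 _ h']
  · rintro a b ⟨⟨c, s⟩, hk, e⟩
    have e1 : (c : Ω) = a := congrArg (fun q : ↥S × ↥S => ((q.1 : ↥S) : Ω)) e
    exact ⟨e1 ▸ c.2, b.2⟩
  · rintro a b a' b' ⟨⟨c, s⟩, hk, e⟩ h1 h2
    refine ⟨(c, s), hk, ?_⟩
    have e1 : (c : Ω) = a := congrArg (fun q : ↥S × ↥S => ((q.1 : ↥S) : Ω)) e
    have e2 : s = b := congrArg (fun q : ↥S × ↥S => q.2) e
    apply Prod.ext
    · apply Subtype.ext
      show f c = a'
      rw [h1, e1]
    · apply Subtype.ext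
      show (s : Ω) = b'
      rw [h2, e2]
      rfl
  · rintro a' b' ⟨⟨c, s⟩, hk, e⟩
    have e1 : f c = a' := congrArg (fun q : ↥S × ↥S => ((q.1 : ↥S) : Ω)) e
    have e2 : s = b' := congrArg (fun q : ↥S × ↥S => q.2) e
    refine ⟨⟨c, hf.le c.2⟩, s, ⟨(c, s), hk, rfl⟩, e1.symm, ?_⟩
    rw [← e2]
    rfl

/-- The group of automorphisms of the right action. -/
def rightAut (X : Type u) [MulAction (↥S × ↥S) X] : Subgroup (Equiv.Perm X) where
  carrier := {σ | ∀ (s : ↥S) (x : X), σ (((1 : ↥S), s) • x) = ((1 : ↥S), s) • σ x}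
  mul_mem' := by
    intro a b ha hb s x
    show a (b _) = _
    rw [hb, ha]
    rfl
  one_mem' := fun _ _ => rfl
  inv_mem' := by
    intro a ha s x
    rw [Equiv.Perm.inv_eq_iff_eq, ha]
    simp

theorem left_comm {X : Type u} [MulAction (↥S × ↥S) X] (a s : ↥S) (x : X) :
    (a, (1 : ↥S)) • ((1 : ↥S), s) • x = ((1 : ↥S), s) • (a, (1 : ↥S)) • x := by
  rw [smul_smul, smul_smul]
  congr 1
  simp

/-- The left action as a homomorphism. -/
def leftHom (X : Type u) [MulAction (↥S × ↥S) X] : ↥S →* rightAut (S := S) X where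
  toFun a := ⟨MulAction.toPerm (a, (1 : ↥S)), fun s x => left_comm a s x⟩
  map_one' := by
    apply Subtype.ext
    ext x
    show ((1 : ↥S), (1 : ↥S)) • x = x
    exact one_smul _ x
  map_mul' a b := by
    apply Subtype.ext
    ext x
    show (a * b, (1 : ↥S)) • x = (a, (1 : ↥S)) • (b, (1 : ↥S)) • x
    rw [smul_smul]
    congr 1
    simp

theorem leftHom_apply {X : Type u} [MulAction (↥S × ↥S) X] (a : ↥S) (x : X) :
    ((leftHom X a : rightAut X) : Equiv.Perm X) x = (a, (1 : ↥S)) • x := rfl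

/-- Park's theorem. -/
theorem park (F : FusionSystem S) : ∃ (G : Type u) (_ : Group G) (_ : Finite G) (ι : ↥S →* G), F.IsRealizedBy ι := by
  obtain ⟨X, i1, i2, hX, hmark, hpos⟩ := exists_unif_biset F
  have hdiag : IsFG F (diagS S : Subgroup (↥S × ↥S)) := isFG_diag le_rfl
  obtain ⟨ω₀, hω₀⟩ : ∃ ω₀ : X, ∀ q ∈ (diagS S : Subgroup (↥S × ↥S)), q • ω₀ = ω₀ := by
    have h1 : 0 < Nat.card (fixSet X (diagS S : Subgroup (↥S × ↥S))) := hpos _ hdiag
    obtain ⟨x⟩ := Nat.card_pos_iff.1 h1 |>.1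
    exact ⟨x.1, x.2⟩
  have hdiag' : ∀ a : ↥S, ((a, a) : ↥S × ↥S) • ω₀ = ω₀ := fun a =>
    hω₀ _ ⟨a.2, rfl⟩
  haveI : Finite (Equiv.Perm X) := inferInstance
  refine ⟨rightAut (S := S) X, inferInstance, inferInstance, leftHom X, ?_, ?_⟩
  · -- injectivity
    rw [injective_iff_map_eq_one]
    intro a ha
    have h1 : (a, (1 : ↥S)) • ω₀ = ω₀ := by
      rw [← leftHom_apply, ha]
      rfl
    obtain ⟨P, f, hf, hgr⟩ := hX ω₀
    have h2 := (hgr a 1).1 (MulAction.mem_stabilizer_iff.2 h1)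
    apply Subtype.ext
    have h3 : f a = f 1 := by
      rw [← h2.2, hf.map_one]
      rfl
    exact hf.inj h2.1 P.one_mem h3
  · intro P hP φ hφ
    constructor
    · intro hm
      have hf : Mp F P (toFun φ) := mp_of_mem hm
      haveI : Finite P := finite_of_le hP
      haveI : Finite (ActOn (hom₁ hf.le) X) := i2
      haveI : Finite (ActOn (hom₂ hf) X) := i2
      obtain ⟨e, he⟩ := exists_equiv_of_marks (Γ := ↥P × ↥S) (X := ActOn (hom₁ hf.le) X) (Y := ActOn (hom₂ hf) X)
        (fun K => by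
          rw [mrk_actOn, mrk_actOn]
          exact marks_twist_unif hX hmark hf K)
      let e' : Equiv.Perm X := e
      have he1 : ∀ (q : ↥P × ↥S) (x : X), e' (hom₁ hf.le q • x) = hom₂ hf q • e' x := fun q x => he q x
      have hright : ∀ (s : ↥S) (x : X), e' (((1 : ↥S), s) • x) = ((1 : ↥S), s) • e' x := by
        intro s x
        have h1 := he1 ((1 : ↥P), s) x
        have h2 : hom₁ hf.le ((1 : ↥P), s) = ((1 : ↥S), s) := rfl
        have h3 : hom₂ hf ((1 : ↥P), s) = ((1 : ↥S), s) := by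
          apply Prod.ext
          · exact Subtype.ext hf.map_one
          · rfl
        rw [h2, h3] at h1
        exact h1
      refine ⟨⟨e', hright⟩, fun x => ?_⟩
      rw [eq_mul_inv_iff_mul_eq]
      apply Subtype.ext
      ext ω
      show ((⟨φ x, hφ x⟩, (1 : ↥S)) : ↥S × ↥S) • e' ω = e' (((⟨(x : Ω), hP x.2⟩, (1 : ↥S)) : ↥S × ↥S) • ω)
      have h1 := he1 (x, (1 : ↥S)) ω
      have h2 : hom₁ hf.le (x, (1 : ↥S)) = ((⟨(x : Ω), hP x.2⟩, (1 : ↥S)) : ↥S × ↥S) := rfl
      have h3 : hom₂ hf (x, (1 : ↥S)) = ((⟨φ x, hφ x⟩, (1 : ↥S)) : ↥S × ↥S) := by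
        apply Prod.ext
        · apply Subtype.ext
          show toFun φ x = φ x
          exact toFun_coe φ x
        · rfl
      rw [h2, h3] at h1
      exact h1.symm
    · rintro ⟨g, hg⟩
      let ω₁ : X := (g : Equiv.Perm X) ω₀
      have hfix : ∀ x : P, ((⟨φ x, hφ x⟩, ⟨(x : Ω), hP x.2⟩) : ↥S × ↥S) • ω₁ = ω₁ := by
        intro x
        have h1 := congrArg (fun z : rightAut (S := S) X => (z : Equiv.Perm X) ((g : Equiv.Perm X) (((1 : ↥S), (⟨(x : Ω), hP x.2⟩ : ↥S)) • ω₀))) (hg x)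
        have h2 : (g : Equiv.Perm X) (((1 : ↥S), (⟨(x : Ω), hP x.2⟩ : ↥S)) • ω₀) = ((1 : ↥S), (⟨(x : Ω), hP x.2⟩ : ↥S)) • (g : Equiv.Perm X) ω₀ := g.2 _ _
        have h3 : (leftHom X ⟨φ x, hφ x⟩ : rightAut X).1 ((g : Equiv.Perm X) (((1 : ↥S), (⟨(x : Ω), hP x.2⟩ : ↥S)) • ω₀)) =
            (g : Equiv.Perm X) (((⟨(x : Ω), hP x.2⟩, (1 : ↥S)) : ↥S × ↥S) • ((1 : ↥S), (⟨(x : Ω), hP x.2⟩ : ↥S)) • ω₀) := by
          have h4 := h1
          simp only [Subgroup.coe_mul, Equiv.Perm.mul_apply, InvMemClass.coe_inv] at h4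
          have e5 : ((g : Equiv.Perm X))⁻¹ ((g : Equiv.Perm X) (((1 : ↥S), (⟨(x : Ω), hP x.2⟩ : ↥S)) • ω₀)) = ((1 : ↥S), (⟨(x : Ω), hP x.2⟩ : ↥S)) • ω₀ := by
            simp
          rw [e5] at h4
          exact h4
        have h5 : ((⟨(x : Ω), hP x.2⟩, (1 : ↥S)) : ↥S × ↥S) • ((1 : ↥S), (⟨(x : Ω), hP x.2⟩ : ↥S)) • ω₀ = ω₀ := by
          rw [smul_smul]
          have : ((⟨(x : Ω), hP x.2⟩, (1 : ↥S)) : ↥S × ↥S) * ((1 : ↥S), (⟨(x : Ω), hP x.2⟩ : ↥S)) = ((⟨(x : Ω), hP x.2⟩, ⟨(x : Ω), hP x.2⟩) : ↥S × ↥S) := by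
            simp
          rw [this]
          exact hdiag' _
        rw [h5, h2, leftHom_apply, smul_smul] at h3
        have e : ((⟨φ x, hφ x⟩, (1 : ↥S)) : ↥S × ↥S) * ((1 : ↥S), (⟨(x : Ω), hP x.2⟩ : ↥S)) = ((⟨φ x, hφ x⟩, ⟨(x : Ω), hP x.2⟩) : ↥S × ↥S) := by
          simp
        rw [e] at h3
        exact h3
      obtain ⟨R, θ, hθ, hgr⟩ := hX ω₁
      have hR : ∀ x : P, φ x ∈ R ∧ (x : Ω) = θ (φ x) := by
        intro x
        exact (hgr _ _).1 (MulAction.mem_stabilizer_iff.2 (hfix x))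
      have hle : φ.range ≤ R := by
        rintro _ ⟨x, rfl⟩
        exact (hR x).1
      have hm : Mp F φ.range θ := hθ.restrict hle
      have hI : Iso F φ.range hm.img θ := Iso.of_mp hm
      obtain ⟨ψ, hψ, hψ1, hψ2⟩ := hI.inv
      have himg : hm.img = P := by
        ext y
        rw [hm.mem_img]
        constructor
        · rintro ⟨_, ⟨x, rfl⟩, rfl⟩
          rw [← (hR x).2]
          exact x.2
        · intro hy
          exact ⟨_, ⟨⟨y, hy⟩, rfl⟩, ((hR ⟨y, hy⟩).2).symm⟩
      have hfin : Mp F P ψ := himg ▸ hψ.mp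
      rw [mem_hom_iff]
      refine hfin.congr ?_
      intro x hx
      have h1 := hψ1 (φ ⟨x, hx⟩) ⟨⟨x, hx⟩, rfl⟩
      rw [← (hR ⟨x, hx⟩).2] at h1
      show ψ x = toFun φ x
      rw [h1, toFun_coe φ ⟨x, hx⟩]

end Biset

end Cfsg.Agent.H25
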