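import Cfsg.Agent.Lib.H25.SimGen
set_option autoImplicit false
set_option linter.style.haveILetI false
set_option linter.unusedSectionVars false
set_option linter.unusedVariables false

/-! A simplicity criterion with subgroups that are self-centralizing in the group, not necessarily normal in `S`. -/

namespace Cfsg.Agent.H25

open Cfsg Cfsg.FusionSystem

section E
variable {G : Type*} [Group G] [Finite G] {p : ℕ} [Fact p.Prime] {S : Sylow p G}
  {E : FusionSystem (S : Subgroup G)}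

theorem exists_frat' (hI : E.IsInvariantIn (groupFusionSystem (S : Subgroup G))) {A : Subgroup G} (hAT : A ≤ (S : Subgroup G)) {x : G}
    (hA : ∀ a ∈ A, x * a * x⁻¹ ∈ (S : Subgroup G)) : ∃ n ∈ Subgroup.normalizer ((S : Subgroup G) : Set G), Mp E A (cj (n⁻¹ * x)) := by
  obtain ⟨φ, hφ, hφf⟩ := mp_F_cj (S := S) (g := x) hAT (fun a ha => hA a ha)
  obtain ⟨α, hα, φ₀, hφ₀, h⟩ := hI.2.2.2 A hAT φ hφ
  obtain ⟨n, hn⟩ := exists_of_mp_F (Mp.of_mem_autGroup (le_refl _) hα)
  have hn' : ∀ t : (S : Subgroup G), ((α t : (S : Subgroup G)) : G) = n * t * n⁻¹ := by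
    intro t
    have := hn t t.2
    rwa [toFun_aut] at this
  refine ⟨n, normalizer_of_aut hn', (mp_of_mem hφ₀).congr fun a ha => ?_⟩
  have hv : φ₀ ⟨a, ha⟩ ∈ (S : Subgroup G) := by
    have := (mp_of_mem hφ₀).mem ha
    rwa [toFun_coe φ₀ ⟨a, ha⟩] at this
  have h1 := h ⟨a, ha⟩ hv
  rw [hφf ⟨a, ha⟩, hn'] at h1
  rw [toFun_coe φ₀ ⟨a, ha⟩]
  have h2 : x * a * x⁻¹ = n * φ₀ ⟨a, ha⟩ * n⁻¹ := h1
  show φ₀ ⟨a, ha⟩ = (n⁻¹ * x) * a * (n⁻¹ * x)⁻¹
  have e : (n⁻¹ * x) * a * (n⁻¹ * x)⁻¹ = n⁻¹ * (x * a * x⁻¹) * n := by group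
  rw [e, h2]
  group

/-- `p`-elements of `N_G(R)` act on `R` in `E`, without any normalization hypothesis. -/
theorem sm_pelt2 (hI : E.IsInvariantIn (groupFusionSystem (S : Subgroup G)))
    {R : Subgroup G} (hRS : R ≤ (S : Subgroup G)) {u : G}
    (hu : u ∈ Subgroup.normalizer (R : Set G)) (hup : ∃ k : ℕ, orderOf u = p ^ k) : Mp E R (cj u) := by
  have hSp : IsPGroup p (S : Subgroup G) := Cfsg.Agent.H24.sylow_isPGroup S
  have hZ : IsPGroup p (Subgroup.zpowers u) := by
    obtain ⟨k, hk⟩ := hup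
    exact IsPGroup.of_card (n := k) (by rw [Nat.card_zpowers, hk])
  have hZN : Subgroup.zpowers u ≤ Subgroup.normalizer (R : Set G) := by
    rw [Subgroup.zpowers_le]
    exact hu
  have hP1 : IsPGroup p (Subgroup.zpowers u ⊔ R : Subgroup G) :=
    hZ.to_sup_of_normal_right' (hSp.to_le hRS) hZN
  obtain ⟨Q₀, hQ₀⟩ := hP1.exists_le_sylow
  obtain ⟨t, ht⟩ := MulAction.exists_smul_eq G Q₀ S
  have hconj : ∀ x ∈ (Subgroup.zpowers u ⊔ R : Subgroup G), t * x * t⁻¹ ∈ (S : Subgroup G) := by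
    intro x hx
    rw [← ht, Sylow.coe_subgroup_smul, Subgroup.mem_smul_pointwise_iff_exists]
    exact ⟨x, hQ₀ hx, rfl⟩
  set s := t * u * t⁻¹ with hsdef
  have hsS : s ∈ (S : Subgroup G) := hconj u (Subgroup.mem_sup_left (Subgroup.mem_zpowers u))
  let R' : Subgroup G := R.map (MulAut.conj t).toMonoidHom
  have hR'mem : ∀ y, y ∈ R' ↔ t⁻¹ * y * t ∈ R := by
    intro y
    constructor
    · rintro ⟨r, hr, rfl⟩
      have e : t⁻¹ * ((MulAut.conj t).toMonoidHom r) * t = r := by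
        show t⁻¹ * (t * r * t⁻¹) * t = r
        group
      rwa [e]
    · intro hy
      refine ⟨_, hy, ?_⟩
      show t * (t⁻¹ * y * t) * t⁻¹ = y
      group
  have hR'S : R' ≤ (S : Subgroup G) := by
    rintro _ ⟨r, hr, rfl⟩
    exact hconj r (Subgroup.mem_sup_right hr)
  have hsE : Mp E R' (cj s) := Mp.conj hR'S hsS
  have hsR : ∀ x ∈ R', cj s x ∈ R' := by
    intro x hx
    rw [hR'mem] at hx ⊢
    have e : t⁻¹ * (cj s x) * t = u * (t⁻¹ * x * t) * u⁻¹ := by
      show t⁻¹ * (s * x * s⁻¹) * t = _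
      rw [hsdef]
      group
    rw [e]
    exact conj_mem_of_normalizer hu hx
  obtain ⟨n, hn, hw⟩ := exists_frat' hI hR'S (x := t⁻¹) (fun a ha => by
    have := (hR'mem a).1 ha
    have e : t⁻¹ * a * t⁻¹⁻¹ = t⁻¹ * a * t := by group
    rw [e]
    exact hRS this)
  set w := n⁻¹ * t⁻¹ with hwdef
  have hIw := Iso.of_mp hw
  set Q := hw.img with hQ
  obtain ⟨k, hk, k1, k2⟩ := hIw.inv
  have hQS : Q ≤ (S : Subgroup G) := hk.mp.le
  have hK : ∀ y ∈ Q, k y = w⁻¹ * y * w := by
    intro y hy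
    obtain ⟨x, hx, rfl⟩ := hIw.surj y hy
    rw [k1 x hx]
    show x = w⁻¹ * (w * x * w⁻¹) * w
    group
  have hm : Mp E Q (cj (w * s * w⁻¹)) := by
    have m1 : Mp E Q (cj s ∘ k) := hk.mp.comp hk.maps hsE
    have m2 : Mp E Q (cj w ∘ (cj s ∘ k)) := m1.comp (fun y hy => hsR _ (hk.maps y hy)) hw
    refine m2.congr fun y hy => ?_
    show w * (s * k y * s⁻¹) * w⁻¹ = (w * s * w⁻¹) * y * (w * s * w⁻¹)⁻¹
    rw [hK y hy]
    group
  have hP' : ∀ y, y ∈ R ↔ n⁻¹ * y * n ∈ Q := by
    intro y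
    constructor
    · intro hy
      have hx : t * y * t⁻¹ ∈ R' := (hR'mem _).2 (by
        have e : t⁻¹ * (t * y * t⁻¹) * t = y := by group
        rwa [e])
      have e : n⁻¹ * y * n = cj w (t * y * t⁻¹) := by
        show n⁻¹ * y * n = w * (t * y * t⁻¹) * w⁻¹
        rw [hwdef]
        group
      rw [e]
      exact hIw.maps _ hx
    · intro hy
      obtain ⟨x, hx, hxe⟩ := hIw.surj _ hy
      have e : y = t⁻¹ * x * t := by
        have h1 : w * x * w⁻¹ = n⁻¹ * y * n := hxe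
        rw [hwdef] at h1
        have h2 : n⁻¹ * (t⁻¹ * x * t) * n = n⁻¹ * y * n := by
          rw [← h1]
          group
        have h3 := mul_left_cancel (mul_right_cancel h2)
        exact h3.symm
      rw [e]
      exact (hR'mem _).1 hx
  have h5 := inv_norm hI hn hQS hP' hm
  refine h5.congr fun y _ => ?_
  have e : n * (w * s * w⁻¹) * n⁻¹ = u := by
    rw [hwdef, hsdef]
    group
  rw [e]

theorem sm_KR2 (hI : E.IsInvariantIn (groupFusionSystem (S : Subgroup G)))
    {R : Subgroup G} (hRS : R ≤ (S : Subgroup G)) {g : G}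
    (hg : g ∈ Subgroup.closure {g : G | g ∈ Subgroup.normalizer (R : Set G) ∧ ∃ k : ℕ, orderOf g = p ^ k}) :
    g ∈ Subgroup.normalizer (R : Set G) ∧ Mp E R (cj g) := by
  induction hg using Subgroup.closure_induction with
  | mem x hx => exact ⟨hx.1, sm_pelt2 hI hRS hx.1 hx.2⟩
  | one => exact ⟨Subgroup.one_mem _, mp_cj_one hRS⟩
  | mul x y _ _ hx hy =>
    refine ⟨Subgroup.mul_mem _ hx.1 hy.1, ?_⟩
    exact mp_cj_mul hy.2 (fun a ha => conj_mem_of_normalizer hy.1 ha) hx.2
  | inv x _ hx =>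
    exact ⟨Subgroup.inv_mem _ hx.1, mp_cj_inv hx.2 (fun a ha => conj_mem_of_normalizer hx.1 ha)⟩

/-- Subgroups containing their centralizer in the group are centric. -/
theorem centric_of_selfcent {R : Subgroup G} (hRS : R ≤ (S : Subgroup G)) (hc : ∀ g : G, (∀ r ∈ R, g * r = r * g) → g ∈ R) :
    (groupFusionSystem (S : Subgroup G)).IsCentric R := by
  refine ⟨hRS, fun Q hQ => ?_⟩
  obtain ⟨f, hf⟩ := isConj_iff.1 hQ
  obtain ⟨a, ha⟩ := exists_of_mp_F hf.mp
  intro y hy
  obtain ⟨hyS, hyc⟩ := mem_centralizerIn.1 hy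
  -- `a⁻¹ y a` centralizes `R`
  have h1 : a⁻¹ * y * a ∈ R := by
    refine hc _ fun r hr => ?_
    have hQr : a * r * a⁻¹ ∈ Q := by
      rw [← ha r hr]
      exact hf.maps r hr
    have h2 := hyc _ hQr
    have h3 : y * (a * r * a⁻¹) = (a * r * a⁻¹) * y := h2.symm
    calc a⁻¹ * y * a * r = a⁻¹ * (y * (a * r * a⁻¹)) * a := by group
      _ = a⁻¹ * ((a * r * a⁻¹) * y) * a := by rw [h3]
      _ = r * (a⁻¹ * y * a) := by group
  have h2 := hf.maps _ h1
  rw [ha _ h1] at h2
  have e : a * (a⁻¹ * y * a) * a⁻¹ = y := by group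
  rwa [e] at h2

/-- Generators, with general self-centralizing subgroups. -/
def GGen2 (p : ℕ) (S : Subgroup G) : Set G :=
  {x | (∀ y ∈ S, x * y = y * x) ∨ (x ∈ Subgroup.normalizer (S : Set G) ∧ ∃ R : Subgroup G, R ≤ S ∧
    (∀ g : G, (∀ r ∈ R, g * r = r * g) → g ∈ R) ∧
    x ∈ Subgroup.closure {g : G | g ∈ Subgroup.normalizer (R : Set G) ∧ ∃ k : ℕ, orderOf g = p ^ k})}

/-- The generation hypothesis. -/
def GCb2 (p : ℕ) (S : Subgroup G) : Prop :=
  ∀ g ∈ Subgroup.normalizer (S : Set G), g ∈ Subgroup.closure (GGen2 p S)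

theorem simple_of_crit2 (S : Sylow p G) (hS1 : (S : Subgroup G) ≠ ⊥) (ha : GCa (S : Subgroup G))
    (hb : GCb2 p (S : Subgroup G)) : (groupFusionSystem (S : Subgroup G)).IsSimple p := by
  have hF : (groupFusionSystem (S : Subgroup G)).IsSaturated p := Cfsg.Agent.H24.groupFusion_saturated S
  have hSp : IsPGroup p (S : Subgroup G) := Cfsg.Agent.H24.sylow_isPGroup S
  refine ⟨hF, hS1, fun T E hN => ?_⟩
  have hEs : E.IsSaturated p := hN.1.1
  have hI : E.IsInvariantIn (groupFusionSystem (S : Subgroup G)) := hN.1.2.2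
  rcases ha T hI.2.1.1 (fun t ht g hg => sc_of_inv hI ht hg) with h | h
  · exact Or.inl h
  · subst h
    refine Or.inr ⟨rfl, ?_⟩
    have hkey : ∀ g ∈ Subgroup.closure (GGen2 p (S : Subgroup G)),
        g ∈ Subgroup.normalizer ((S : Subgroup G) : Set G) ∧ Mp E (S : Subgroup G) (cj g) := by
      intro g hg
      induction hg using Subgroup.closure_induction with
      | mem x hx =>
        rcases hx with h | ⟨h1, R, hRS, hC, hK⟩
        · refine ⟨?_, (Mp.id (le_refl _)).congr fun y hy => ?_⟩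
          · refine mem_normalizer_of_conj (fun y hy => ?_) (fun y hy => ?_)
            · have e : x * y * x⁻¹ = y := by rw [h y hy]; group
              rwa [e]
            · have e : x⁻¹ * y * x = y := by
                have := h y hy
                rw [mul_assoc, ← this]
                group
              rwa [e]
          · have e : x * y * x⁻¹ = y := by rw [h y hy]; group
            exact e.symm
        · refine ⟨h1, ?_⟩
          have hcen : (groupFusionSystem (S : Subgroup G)).IsCentric R := centric_of_selfcent hRS hC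
          obtain ⟨hgR, hgE⟩ := sm_KR2 hI hRS hK
          exact sm_chain hEs hI.1 h1 R hcen (fun y hy => conj_mem_of_normalizer hgR hy) hgE
      | one => exact ⟨Subgroup.one_mem _, mp_cj_one (le_refl _)⟩
      | mul x y _ _ hx hy =>
        refine ⟨Subgroup.mul_mem _ hx.1 hy.1, ?_⟩
        exact mp_cj_mul hy.2 (fun a ha => conj_mem_of_normalizer hy.1 ha) hx.2
      | inv x _ hx =>
        exact ⟨Subgroup.inv_mem _ hx.1, mp_cj_inv hx.2 (fun a ha => conj_mem_of_normalizer hx.1 ha)⟩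
    intro P
    ext φ
    constructor
    · exact fun h => hI.1 P h
    · intro hφ
      have hPS : P ≤ (S : Subgroup G) := ((groupFusionSystem (S : Subgroup G)).le_of_mem hφ).1
      obtain ⟨α, hα, φ₀, hφ₀, h⟩ := hI.2.2.2 P hPS φ hφ
      obtain ⟨n, hn⟩ := exists_of_mp_F (Mp.of_mem_autGroup (le_refl _) hα)
      have hn' : ∀ t : (S : Subgroup G), ((α t : (S : Subgroup G)) : G) = n * t * n⁻¹ := by
        intro t
        have := hn t t.2
        rwa [toFun_aut] at this
      have hnN : n ∈ Subgroup.normalizer ((S : Subgroup G) : Set G) := normalizer_of_aut hn'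
      have hnE := (hkey n (hb n hnN)).2
      have m1 := mp_of_mem hφ₀
      refine (m1.comp (fun x hx => m1.mem hx) hnE).mem_hom fun x => ?_
      have hv : φ₀ x ∈ (S : Subgroup G) := (E.le_of_mem hφ₀).2 x
      rw [h x hv, hn' ⟨φ₀ x, hv⟩]
      show n * φ₀ x * n⁻¹ = n * toFun φ₀ x * n⁻¹
      rw [toFun_coe φ₀ x]

end E

section Equiv
variable {G H : Type*} [Group G] [Group H] (φ : G ≃* H)

theorem mem_map_equiv {S : Subgroup G} {x : H} : x ∈ S.map φ.toMonoidHom ↔ φ.symm x ∈ S := by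
  constructor
  · rintro ⟨y, hy, rfl⟩
    simpa using hy
  · intro hx
    exact ⟨_, hx, by simp⟩

theorem GCa_equiv {S : Subgroup G} (h : GCa S) : GCa (S.map φ.toMonoidHom) := by
  intro T hT hc
  have hle : T.map φ.symm.toMonoidHom ≤ S := by
    rintro _ ⟨y, hy, rfl⟩
    exact (mem_map_equiv φ).1 (hT hy)
  have hmem : ∀ x, x ∈ T.map φ.symm.toMonoidHom ↔ φ x ∈ T := by
    intro x
    constructor
    · rintro ⟨y, hy, rfl⟩
      simpa using hy
    · intro hx
      exact ⟨φ x, hx, by simp⟩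
  rcases h (T.map φ.symm.toMonoidHom) hle (by
    intro t ht g hg
    rw [hmem] at ht ⊢
    have h2 : φ g * φ t * (φ g)⁻¹ ∈ S.map φ.toMonoidHom := by
      rw [mem_map_equiv]
      simpa using hg
    have h3 := hc _ ht _ h2
    simpa using h3) with h1 | h1
  · left
    rw [eq_bot_iff]
    intro x hx
    have h2 : φ.symm x ∈ T.map φ.symm.toMonoidHom := ⟨x, hx, rfl⟩
    rw [h1] at h2
    have h3 : φ.symm x = 1 := Subgroup.mem_bot.1 h2
    simpa using h3
  · right
    refine le_antisymm hT fun x hx => ?_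
    have h2 : φ.symm x ∈ T.map φ.symm.toMonoidHom := by
      rw [h1]
      exact (mem_map_equiv φ).1 hx
    have h3 := (hmem _).1 h2
    simpa using h3

theorem mem_norm_equiv {S : Subgroup G} {g : G} (hg : g ∈ Subgroup.normalizer (S : Set G)) :
    φ g ∈ Subgroup.normalizer ((S.map φ.toMonoidHom : Subgroup H) : Set H) := by
  refine Subgroup.mem_normalizer_iff.2 fun x => ?_
  have h1 := Subgroup.mem_normalizer_iff.1 hg (φ.symm x)
  rw [mem_map_equiv, mem_map_equiv]
  simpa using h1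

theorem mem_GGen2_equiv {p : ℕ} {S : Subgroup G} {x : G} (hx : x ∈ GGen2 p S) : φ x ∈ GGen2 p (S.map φ.toMonoidHom) := by
  rcases hx with h | ⟨h1, R, hRS, hC, hK⟩
  · left
    rintro _ ⟨y, hy, rfl⟩
    have := congrArg φ (h y hy)
    simpa using this
  · right
    refine ⟨mem_norm_equiv φ h1, R.map φ.toMonoidHom, Subgroup.map_mono hRS, ?_, ?_⟩
    · intro g hg
      rw [mem_map_equiv]
      refine hC _ fun r hr => ?_
      have h3 := hg (φ r) ⟨r, hr, rfl⟩
      have h4 := congrArg φ.symm h3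
      simpa using h4
    · have h3 : φ x ∈ (Subgroup.closure {g : G | g ∈ Subgroup.normalizer (R : Set G) ∧ ∃ k : ℕ, orderOf g = p ^ k}).map
          φ.toMonoidHom := ⟨x, hK, rfl⟩
      rw [MonoidHom.map_closure] at h3
      refine (Subgroup.closure_le _).2 ?_ h3
      rintro _ ⟨g, ⟨hg, k, hk⟩, rfl⟩
      refine Subgroup.subset_closure ⟨mem_norm_equiv φ hg, k, ?_⟩
      have : orderOf (φ.toMonoidHom g) = orderOf g := orderOf_injective _ φ.injective g
      rw [this, hk]

theorem GCb2_equiv {p : ℕ} {S : Subgroup G} (h : GCb2 p S) : GCb2 p (S.map φ.toMonoidHom) := by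
  intro g hg
  have h0 : φ.symm g ∈ Subgroup.normalizer (S : Set G) := by
    have h1 := mem_norm_equiv φ.symm hg
    have h2 : (S.map φ.toMonoidHom).map φ.symm.toMonoidHom = S := by
      ext x
      rw [mem_map_equiv, mem_map_equiv]
      simp
    rwa [h2] at h1
  have h1 := h _ h0
  have h2 : φ (φ.symm g) ∈ (Subgroup.closure (GGen2 p S)).map φ.toMonoidHom := ⟨_, h1, rfl⟩
  rw [MonoidHom.map_closure] at h2
  have hsub : (⇑φ.toMonoidHom '' GGen2 p S) ⊆ (Subgroup.closure (GGen2 p (S.map φ.toMonoidHom)) : Subgroup H) := by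
    rintro _ ⟨x, hx, rfl⟩
    exact Subgroup.subset_closure (mem_GGen2_equiv φ hx)
  have h3 := (Subgroup.closure_le _).2 hsub h2
  simpa using h3

end Equiv

section C
variable {G : Type*} [Group G] [Finite G] {p : ℕ} [Fact p.Prime]

theorem simple_of_crit2_conj (S₀ S : Sylow p G) (hS1 : (S₀ : Subgroup G) ≠ ⊥) (ha : GCa (S₀ : Subgroup G))
    (hb : GCb2 p (S₀ : Subgroup G)) : (groupFusionSystem (S : Subgroup G)).IsSimple p := by
  obtain ⟨a, ha'⟩ := MulAction.exists_smul_eq G S₀ S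
  have hS : (S : Subgroup G) = (S₀ : Subgroup G).map (MulAut.conj a).toMonoidHom := by
    rw [← ha']
    ext x
    rfl
  refine simple_of_crit2 S ?_ ?_ ?_
  · intro h
    apply hS1
    rw [eq_bot_iff]
    intro x hx
    have h1 : (MulAut.conj a).toMonoidHom x ∈ (S : Subgroup G) := by
      rw [hS]
      exact ⟨x, hx, rfl⟩
    rw [h] at h1
    have h2 : (MulAut.conj a).toMonoidHom x = 1 := Subgroup.mem_bot.1 h1
    exact Subgroup.mem_bot.2 ((map_eq_one_iff _ (MulAut.conj a).injective).1 h2)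
  · rw [hS]
    exact GCa_equiv _ ha
  · rw [hS]
    exact GCb2_equiv _ hb

end C

end Cfsg.Agent.H25
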