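import Cfsg.Agent.Lib.H25.SimA9
set_option autoImplicit false
set_option linter.style.haveILetI false
set_option linter.unusedSectionVars false
set_option linter.unusedSimpArgs false
set_option linter.unusedVariables false

/-! Assembly. -/

namespace Cfsg.Agent.H25

open Equiv

section Final
variable {p : ℕ} [hp : Fact p.Prime]

theorem ne_bot_of_pair {X A : Type*} [Fintype X] [DecidableEq X] [Fintype A] [DecidableEq A] {Q : Subgroup (Perm X)}
    (hX : 2 ≤ Fintype.card X) : (StS (p := p) (A := A) Q).subgroupOf (alternatingGroup (YY p X A)) ≠ ⊥ := by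
  obtain ⟨b, b', hbb⟩ := Fintype.one_lt_card_iff.1 (by omega : 1 < Fintype.card X)
  intro h
  have h1 : (⟨Tt (indK {b, b'}), Perm.mem_alternatingGroup.2 (sign_pair hbb)⟩ : alternatingGroup (YY p X A)) ∈
      (StS (p := p) (A := A) Q).subgroupOf (alternatingGroup (YY p X A)) := Subgroup.mem_subgroupOf.2 (Tt_mem _ _)
  rw [h] at h1
  have h2 := congrArg Subtype.val (Subgroup.mem_bot.1 h1)
  refine Tt_ne_one ?_ h2
  intro h3
  have h4 := congrFun h3 b
  simp [indK] at h4

theorem main_odd {X₂ A₂ A : Type*} [DecidableEq X₂] [Fintype X₂] [Fintype A₂] [DecidableEq A₂] [Fintype A] [DecidableEq A] [Subsingleton A]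
    (hp2 : p ≠ 2) (hX : p ≤ Fintype.card (YY p X₂ A₂)) {W : Subgroup (Perm X₂)} (hWg : OmGen p W) (hWp : IsPGroup p W) (w₀ : X₂)
    {N : ℕ} (hcY : Fintype.card (Y3 p X₂ A₂ A) = N) (hN : 2 ≤ N)
    (hc : Nat.card (StS (p := p) (A := A) (StS (p := p) (A := A₂) W)) = p ^ (Nat.factorial N).factorization p) :
    ∃ S₀ : Sylow p (alternatingGroup (Y3 p X₂ A₂ A)), (S₀ : Subgroup (alternatingGroup (Y3 p X₂ A₂ A))) ≠ ⊥ ∧
      GCa (S₀ : Subgroup (alternatingGroup (Y3 p X₂ A₂ A))) ∧ GCb2 p (S₀ : Subgroup (alternatingGroup (Y3 p X₂ A₂ A))) := by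
  have hpp := hp.out
  have hp3 : 3 ≤ p := by
    have := hpp.two_le
    omega
  have hQp : IsPGroup p (StS (p := p) (A := A₂) W) := IsPGroup_StS hWp
  have hle := StS_le_alt (A := A) hp2 hQp
  have hcardAlt : Nat.card (alternatingGroup (Y3 p X₂ A₂ A)) = Nat.factorial N / 2 := by
    haveI : Nontrivial (Y3 p X₂ A₂ A) := Fintype.one_lt_card_iff_nontrivial.1 (by omega)
    rw [nat_card_alternatingGroup, Nat.card_eq_fintype_card, hcY]
  have hfact : (Nat.factorial N / 2).factorization p = (Nat.factorial N).factorization p := by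
    obtain ⟨c, hc'⟩ := Nat.dvd_factorial (by norm_num : 0 < 2) hN
    have hc0 : c ≠ 0 := by
      rintro rfl
      rw [mul_zero] at hc'
      exact (Nat.factorial_pos N).ne' hc'
    rw [hc', Nat.mul_div_cancel_left _ (by norm_num : 0 < 2), Nat.factorization_mul (by norm_num) hc0]
    have : (Nat.factorization 2) p = 0 := Nat.factorization_eq_zero_of_not_dvd (fun h => hp2 ((Nat.prime_dvd_prime_iff_eq hpp Nat.prime_two).1 h))
    simp [this]
  have hcard : Nat.card ((StS (p := p) (A := A) (StS (p := p) (A := A₂) W)).subgroupOf (alternatingGroup (Y3 p X₂ A₂ A))) =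
      p ^ (Nat.card (alternatingGroup (Y3 p X₂ A₂ A))).factorization p := by
    rw [card_subgroupOf_alt_le hle, hc, hcardAlt, hfact]
  obtain ⟨U, k, hk, hU⟩ := exists_orbit hWp w₀
  refine ⟨Sylow.ofCard _ hcard, ?_, ?_, ?_⟩
  · rw [Sylow.coe_ofCard]
    exact ne_bot_of_pair (by omega)
  · rw [Sylow.coe_ofCard]
    exact GCa_odd hp2 (by omega) (by
      have : Fintype.card A ≤ 1 := Fintype.card_le_one_iff_subsingleton.2 inferInstance
      omega) hQp (OmGen_StS hWg)
  · rw [Sylow.coe_ofCard]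
    exact GCb2_odd hp2 hX hWp U hU hk

theorem main_two {X A : Type*} [Fintype X] [DecidableEq X] [Fintype A] [DecidableEq A] [Subsingleton A] (hX : 3 ≤ Fintype.card X)
    {Q : Subgroup (Perm X)} (hQg : OmGen 2 Q) (hQp : IsPGroup 2 Q) (hQo : OddTriv Q) {b₁ b₂ : X} (hb : b₁ ≠ b₂) (hsw : swap b₁ b₂ ∈ Q)
    {N : ℕ} (hcY : Fintype.card (YY 2 X A) = N) (hN : 2 ≤ N)
    (hc : Nat.card (StS (p := 2) (A := A) Q) = 2 ^ (Nat.factorial N).factorization 2) :
    ∃ S₀ : Sylow 2 (alternatingGroup (YY 2 X A)), (S₀ : Subgroup (alternatingGroup (YY 2 X A))) ≠ ⊥ ∧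
      GCa (S₀ : Subgroup (alternatingGroup (YY 2 X A))) ∧ GCb2 2 (S₀ : Subgroup (alternatingGroup (YY 2 X A))) := by
  have hcardAlt : Nat.card (alternatingGroup (YY 2 X A)) = Nat.factorial N / 2 := by
    haveI : Nontrivial (YY 2 X A) := Fintype.one_lt_card_iff_nontrivial.1 (by omega)
    rw [nat_card_alternatingGroup, Nat.card_eq_fintype_card, hcY]
  have h2 := card_subgroupOf_alt_two (S' := StS (p := 2) (A := A) Q) (Tt_mem _ (indK {b₁})) (sign_Tt_single b₁)
  have hcard : Nat.card ((StS (p := 2) (A := A) Q).subgroupOf (alternatingGroup (YY 2 X A))) =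
      2 ^ (Nat.card (alternatingGroup (YY 2 X A))).factorization 2 := by
    obtain ⟨c, hc'⟩ := Nat.dvd_factorial (by norm_num : 0 < 2) hN
    have hc0 : c ≠ 0 := by
      rintro rfl
      rw [mul_zero] at hc'
      exact (Nat.factorial_pos N).ne' hc'
    rw [hcardAlt, hc', Nat.mul_div_cancel_left _ (by norm_num : 0 < 2)]
    rw [hc, hc', Nat.factorization_mul (by norm_num) hc0] at h2
    have h3 : (Nat.factorization 2) 2 = 1 := Nat.Prime.factorization_self Nat.prime_two
    simp only [Finsupp.coe_add, Pi.add_apply, h3] at h2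
    rw [add_comm, pow_succ] at h2
    exact Nat.eq_of_mul_eq_mul_right (by norm_num) h2
  refine ⟨Sylow.ofCard _ hcard, ?_, ?_, ?_⟩
  · rw [Sylow.coe_ofCard]
    exact ne_bot_of_pair (by omega)
  · rw [Sylow.coe_ofCard]
    exact GCa_two hX (by
      have : Fintype.card A ≤ 1 := Fintype.card_le_one_iff_subsingleton.2 inferInstance
      omega) hQp hQg hb hsw
  · exact GCb2_two hX hQo _ (Sylow.coe_ofCard _ hcard)

/-- The main existence statement. -/
theorem main_exists (n p : ℕ) [hp : Fact p.Prime] (hn : 6 ≤ n) (hnp : p ^ 2 ≤ n) (hb : n % p ≤ 1) :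
    ∃ S₀ : Sylow p (alternatingGroup (Fin n)), (S₀ : Subgroup (alternatingGroup (Fin n))) ≠ ⊥ ∧
      GCa (S₀ : Subgroup (alternatingGroup (Fin n))) ∧ GCb2 p (S₀ : Subgroup (alternatingGroup (Fin n))) := by
  have hpp := hp.out
  haveI : NeZero p := ⟨hpp.ne_zero⟩
  obtain ⟨m, hm⟩ : ∃ m, m = n / p := ⟨_, rfl⟩
  obtain ⟨m₂, hm₂⟩ : ∃ m₂, m₂ = m / p := ⟨_, rfl⟩
  have hpm : p ≤ m := by
    rw [hm]
    exact (Nat.le_div_iff_mul_le hpp.pos).2 (by rw [← pow_two]; exact hnp)
  have hm₂pos : 0 < m₂ := by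
    rw [hm₂]
    exact Nat.div_pos hpm hpp.pos
  have hdm : p * m + n % p = n := by
    rw [hm]
    exact Nat.div_add_mod n p
  have hdm₂ : p * m₂ + m % p = m := by
    rw [hm₂]
    exact Nat.div_add_mod m p
  obtain ⟨W, hWc, hWg, hWo, hWp⟩ := exists_W p m₂
  have hcX : Fintype.card (YY p (Fin m₂) (Fin (m % p))) = m := by
    rw [Fintype.card_sum, Fintype.card_prod, ZMod.card, Fintype.card_fin, Fintype.card_fin, hdm₂]
  have hcY : Fintype.card (YY p (YY p (Fin m₂) (Fin (m % p))) (Fin (n % p))) = n := by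
    rw [Fintype.card_sum, Fintype.card_prod, ZMod.card, hcX, Fintype.card_fin, hdm]
  haveI hsub : Subsingleton (Fin (n % p)) := Fintype.card_le_one_iff_subsingleton.1 (by simpa using hb)
  have hcS : Nat.card (StS (p := p) (A := Fin (n % p)) (StS (p := p) (A := Fin (m % p)) W)) = p ^ (Nat.factorial n).factorization p := by
    rw [card_StS, card_StS, hWc, hcX, Fintype.card_fin, fact_val n, ← hm, fact_val m, ← hm₂, ← pow_add, ← pow_add]
    congr 1
    ring
  let e : YY p (YY p (Fin m₂) (Fin (m % p))) (Fin (n % p)) ≃ Fin n := Fintype.equivOfCardEq (by rw [hcY]; simp)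
  have hm3 : p ≠ 2 → 3 ≤ m := by
    intro h
    have := hpp.two_le
    omega
  rcases eq_or_ne p 2 with rfl | hp2
  · haveI hsub2 : Subsingleton (Fin (m % 2)) := by
      refine Fintype.card_le_one_iff_subsingleton.1 ?_
      simp only [Fintype.card_fin]
      have := Nat.mod_lt m (by norm_num : 2 > 0)
      omega
    have hm3' : 3 ≤ m := by omega
    -- a swap in the second level
    have hsup : (Tt (indK {(⟨0, hm₂pos⟩ : Fin m₂)}) : Perm (YY 2 (Fin m₂) (Fin (m % 2)))).support.card = 2 := by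
      rw [card_support_Tt, filter_ind]
      simp
    obtain ⟨b₁, b₂, hbb, hsw⟩ := Perm.card_support_eq_two.1 hsup
    have hswQ : swap b₁ b₂ ∈ StS (p := 2) (A := Fin (m % 2)) W := by
      rw [← hsw]
      exact Tt_mem _ _
    obtain ⟨S₁, h1, h2, h3⟩ := main_two (A := Fin (n % 2)) (X := YY 2 (Fin m₂) (Fin (m % 2))) (by rw [hcX]; exact hm3') (OmGen_StS hWg) (IsPGroup_StS hWp)
      (OddTriv_StS (hWo rfl)) hbb hswQ hcY (by omega) hcS
    exact transfer_sylow e.altCongrHom S₁ h1 h2 h3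
  · obtain ⟨S₁, h1, h2, h3⟩ := main_odd (X₂ := Fin m₂) (A₂ := Fin (m % p)) (A := Fin (n % p)) hp2 (by rw [hcX]; exact hpm) hWg hWp ⟨0, hm₂pos⟩ hcY (by omega) hcS
    exact transfer_sylow e.altCongrHom S₁ h1 h2 h3

end Final

end Cfsg.Agent.H25
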