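import Cfsg.Agent.Lib.H25.SimA1
set_option autoImplicit false
set_option linter.style.haveILetI false
set_option linter.unusedSectionVars false
set_option linter.unusedSimpArgs false
set_option linter.unusedVariables false

/-! Affine wreath elements on `(ZMod p × X) ⊕ A`. -/

namespace Cfsg.Agent.H25

open Equiv

section Ph

variable {p : ℕ} [hp : Fact p.Prime] {X A : Type*}

/-- The point set. -/
abbrev YY (p : ℕ) (X A : Type*) := (ZMod p × X) ⊕ A

/-- The affine wreath element. -/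
def Ph (d : X → (ZMod p)ˣ) (e : X → ZMod p) (π : Perm X) : Perm (YY p X A) where
  toFun q := match q with
    | Sum.inl (y, b) => Sum.inl ((d b : ZMod p) * y + e b, π b)
    | Sum.inr a => Sum.inr a
  invFun q := match q with
    | Sum.inl (y, b) => Sum.inl (((d (π⁻¹ b))⁻¹ : (ZMod p)ˣ) * (y - e (π⁻¹ b)), π⁻¹ b)
    | Sum.inr a => Sum.inr a
  left_inv := by
    rintro (⟨y, b⟩ | a)
    · have h : π⁻¹ (π b) = b := by simp
      show Sum.inl (((d (π⁻¹ (π b)))⁻¹ : (ZMod p)ˣ) * (((d b : ZMod p) * y + e b) - e (π⁻¹ (π b))), π⁻¹ (π b)) = _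
      rw [h, add_sub_cancel_right, ← mul_assoc, Units.inv_mul, one_mul]
    · rfl
  right_inv := by
    rintro (⟨y, b⟩ | a)
    · have h : π (π⁻¹ b) = b := by simp
      show Sum.inl ((d (π⁻¹ b) : ZMod p) * (((d (π⁻¹ b))⁻¹ : (ZMod p)ˣ) * (y - e (π⁻¹ b))) + e (π⁻¹ b), π (π⁻¹ b)) = _
      rw [h, ← mul_assoc, Units.mul_inv, one_mul, sub_add_cancel]
    · rfl

@[simp] theorem Ph_inl (d : X → (ZMod p)ˣ) (e : X → ZMod p) (π : Perm X) (y : ZMod p) (b : X) :
    (Ph d e π : Perm (YY p X A)) (Sum.inl (y, b)) = Sum.inl ((d b : ZMod p) * y + e b, π b) := rfl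

@[simp] theorem Ph_inr (d : X → (ZMod p)ˣ) (e : X → ZMod p) (π : Perm X) (a : A) :
    (Ph d e π : Perm (YY p X A)) (Sum.inr a) = Sum.inr a := rfl

theorem Ph_mul (d d' : X → (ZMod p)ˣ) (e e' : X → ZMod p) (π π' : Perm X) :
    (Ph d e π * Ph d' e' π' : Perm (YY p X A)) =
      Ph (fun b => d (π' b) * d' b) (fun b => (d (π' b) : ZMod p) * e' b + e (π' b)) (π * π') := by
  ext q
  rcases q with ⟨y, b⟩ | a
  · simp [mul_add, mul_assoc, add_assoc]
  · simp

theorem Ph_one : (Ph (fun _ => 1) (fun _ => 0) 1 : Perm (YY p X A)) = 1 := by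
  ext q
  rcases q with ⟨y, b⟩ | a
  · simp
  · simp

theorem Ph_inj {d d' : X → (ZMod p)ˣ} {e e' : X → ZMod p} {π π' : Perm X}
    (h : (Ph d e π : Perm (YY p X A)) = Ph d' e' π') : d = d' ∧ e = e' ∧ π = π' := by
  have h0 : ∀ y b, (d b : ZMod p) * y + e b = (d' b : ZMod p) * y + e' b ∧ π b = π' b := by
    intro y b
    have := congrArg (fun f : Perm (YY p X A) => f (Sum.inl (y, b))) h
    simpa [Prod.ext_iff] using this
  refine ⟨?_, ?_, ?_⟩
  · funext b
    have h1 := (h0 0 b).1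
    have h2 := (h0 1 b).1
    simp only [mul_zero, zero_add, mul_one] at h1 h2
    apply Units.ext
    rw [h1] at h2
    exact add_right_cancel h2
  · funext b
    have h1 := (h0 0 b).1
    simpa using h1
  · ext b
    rw [(h0 0 b).2]

/-- The translation part. -/
abbrev Tt (e : X → ZMod p) : Perm (YY p X A) := Ph (fun _ => 1) e 1

/-- The top part. -/
abbrev Ll (π : Perm X) : Perm (YY p X A) := Ph (fun _ => 1) (fun _ => 0) π

/-- The diagonal part. -/
abbrev Dd (d : X → (ZMod p)ˣ) : Perm (YY p X A) := Ph d (fun _ => 0) 1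

theorem Tt_mul (e e' : X → ZMod p) : (Tt e * Tt e' : Perm (YY p X A)) = Tt (e + e') := by
  rw [Ph_mul]
  congr 1
  · funext b
    simp
  · funext b
    simp [add_comm]

theorem Tt_zero : (Tt (0 : X → ZMod p) : Perm (YY p X A)) = 1 := Ph_one

theorem Tt_inv (e : X → ZMod p) : (Tt e : Perm (YY p X A))⁻¹ = Tt (-e) := by
  rw [inv_eq_iff_mul_eq_one, Tt_mul, add_neg_cancel, Tt_zero]

theorem Tt_pow (e : X → ZMod p) (k : ℕ) : (Tt e : Perm (YY p X A)) ^ k = Tt (k • e) := by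
  induction k with
  | zero => rw [pow_zero, zero_smul, Tt_zero]
  | succ k ih => rw [pow_succ, ih, Tt_mul, add_smul, one_smul]

theorem Ll_mul (π π' : Perm X) : (Ll π * Ll π' : Perm (YY p X A)) = Ll (π * π') := by
  rw [Ph_mul]
  congr 1 <;> (funext b; simp)

theorem Ll_one : (Ll (1 : Perm X) : Perm (YY p X A)) = 1 := Ph_one

/-- The homomorphism from the top group. -/
def LlH (p : ℕ) [Fact p.Prime] (X A : Type*) : Perm X →* Perm (YY p X A) where
  toFun π := Ll π
  map_one' := Ll_one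
  map_mul' a b := (Ll_mul a b).symm

@[simp] theorem LlH_apply (π : Perm X) : LlH p X A π = Ll π := rfl

theorem Ll_inv (π : Perm X) : (Ll π : Perm (YY p X A))⁻¹ = Ll π⁻¹ := (map_inv (LlH p X A) π).symm

theorem Dd_mul (d d' : X → (ZMod p)ˣ) : (Dd d * Dd d' : Perm (YY p X A)) = Dd (d * d') := by
  rw [Ph_mul]
  congr 1
  funext b
  simp

theorem Dd_one : (Dd (1 : X → (ZMod p)ˣ) : Perm (YY p X A)) = 1 := Ph_one

theorem Ph_eq (d : X → (ZMod p)ˣ) (e : X → ZMod p) (π : Perm X) :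
    (Ph d e π : Perm (YY p X A)) = Ll π * (Tt e * Dd d) := by
  rw [Ph_mul, Ph_mul]
  congr 1 <;> (funext b; simp)

theorem Sq_eq (e : X → ZMod p) (π : Perm X) :
    (Ph (fun _ => 1) e π : Perm (YY p X A)) = Ll π * Tt e := by
  rw [Ph_mul]
  congr 1 <;> (funext b; simp)

theorem Ll_Tt (π : Perm X) (e : X → ZMod p) : (Ll π * Tt e * (Ll π)⁻¹ : Perm (YY p X A)) = Tt (e ∘ ⇑π⁻¹) := by
  rw [mul_inv_eq_iff_eq_mul, Ph_mul, Ph_mul]
  congr 1 <;> (funext b; simp)

theorem Ll_Dd (π : Perm X) (d : X → (ZMod p)ˣ) : (Ll π * Dd d * (Ll π)⁻¹ : Perm (YY p X A)) = Dd (d ∘ ⇑π⁻¹) := by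
  rw [mul_inv_eq_iff_eq_mul, Ph_mul, Ph_mul]
  congr 1 <;> (funext b; simp)

theorem Dd_Tt (d : X → (ZMod p)ˣ) (e : X → ZMod p) :
    (Dd d * Tt e * (Dd d)⁻¹ : Perm (YY p X A)) = Tt (fun b => (d b : ZMod p) * e b) := by
  rw [mul_inv_eq_iff_eq_mul, Ph_mul, Ph_mul]
  congr 1 <;> (funext b; simp)

/-- The wreath product. -/
def StS (Q : Subgroup (Perm X)) : Subgroup (Perm (YY p X A)) where
  carrier := {s | ∃ e : X → ZMod p, ∃ π ∈ Q, s = Ph (fun _ => 1) e π}
  mul_mem' := by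
    rintro _ _ ⟨e, π, hπ, rfl⟩ ⟨e', π', hπ', rfl⟩
    refine ⟨fun b => e' b + e (π' b), π * π', mul_mem hπ hπ', ?_⟩
    rw [Ph_mul]
    congr 1
    · funext b
      simp
    · funext b
      simp
  one_mem' := ⟨0, 1, one_mem _, Ph_one.symm⟩
  inv_mem' := by
    rintro _ ⟨e, π, hπ, rfl⟩
    refine ⟨fun b => -e (π⁻¹ b), π⁻¹, inv_mem hπ, ?_⟩
    rw [inv_eq_iff_mul_eq_one, Ph_mul, ← Ph_one (p := p) (X := X) (A := A)]
    congr 1
    · funext b
      simp
    · funext b
      simp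
    · simp

theorem mem_StS {Q : Subgroup (Perm X)} {s : Perm (YY p X A)} :
    s ∈ StS Q ↔ ∃ e : X → ZMod p, ∃ π ∈ Q, s = Ph (fun _ => 1) e π := Iff.rfl

theorem Tt_mem (Q : Subgroup (Perm X)) (e : X → ZMod p) : (Tt e : Perm (YY p X A)) ∈ StS Q := ⟨e, 1, one_mem _, rfl⟩

theorem Ll_mem {Q : Subgroup (Perm X)} {π : Perm X} (h : π ∈ Q) : (Ll π : Perm (YY p X A)) ∈ StS Q := ⟨_, π, h, rfl⟩

theorem card_StS [Fintype X] (Q : Subgroup (Perm X)) :
    Nat.card (StS (p := p) (A := A) Q) = p ^ Fintype.card X * Nat.card Q := by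
  classical
  haveI : NeZero p := ⟨hp.out.ne_zero⟩
  let F : (X → ZMod p) × Q → StS (p := p) (A := A) Q := fun x => ⟨Ph (fun _ => 1) x.1 x.2, x.1, x.2, x.2.2, rfl⟩
  have hF : Function.Bijective F := by
    constructor
    · rintro ⟨c, π⟩ ⟨d, σ⟩ h
      obtain ⟨-, h1, h2⟩ := Ph_inj (congrArg Subtype.val h)
      exact Prod.ext h1 (Subtype.ext h2)
    · rintro ⟨_, c, π, hπ, rfl⟩
      exact ⟨(c, ⟨π, hπ⟩), rfl⟩
  rw [← Nat.card_congr (Equiv.ofBijective F hF), Nat.card_prod, Nat.card_fun, Nat.card_zmod, Nat.card_eq_fintype_card]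

/-- Generation by elements of order dividing `p`. -/
def OmGen (p : ℕ) {G : Type*} [Group G] (H : Subgroup G) : Prop :=
  H ≤ Subgroup.closure {x | x ∈ H ∧ x ^ p = 1}

theorem Tt_pow_p (e : X → ZMod p) : (Tt e : Perm (YY p X A)) ^ p = 1 := by
  rw [Tt_pow, ← Tt_zero (p := p) (X := X) (A := A)]
  congr 1
  funext b
  simp

theorem OmGen_StS {Q : Subgroup (Perm X)} (hQ : OmGen p Q) : OmGen p (StS (p := p) (A := A) Q) := by
  rintro _ ⟨e, π, hπ, rfl⟩
  rw [Sq_eq]
  refine Subgroup.mul_mem _ ?_ (Subgroup.subset_closure ⟨Tt_mem _ _, Tt_pow_p _⟩)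
  have h1 := hQ hπ
  have h2 : LlH p X A π ∈ (Subgroup.closure {x | x ∈ Q ∧ x ^ p = 1}).map (LlH p X A) := ⟨π, h1, rfl⟩
  rw [MonoidHom.map_closure] at h2
  refine (Subgroup.closure_le _).2 ?_ h2
  rintro _ ⟨x, ⟨hx, hxp⟩, rfl⟩
  refine Subgroup.subset_closure ⟨Ll_mem hx, ?_⟩
  rw [← map_pow, hxp, map_one]

theorem OmGen_map {G H : Type*} [Group G] [Group H] {Q : Subgroup G} (hQ : OmGen p Q) (φ : G →* H) : OmGen p (Q.map φ) := by
  rintro _ ⟨x, hx, rfl⟩
  have h2 : φ x ∈ (Subgroup.closure {x | x ∈ Q ∧ x ^ p = 1}).map φ := ⟨x, hQ hx, rfl⟩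
  rw [MonoidHom.map_closure] at h2
  refine (Subgroup.closure_le _).2 ?_ h2
  rintro _ ⟨y, ⟨hy, hyp⟩, rfl⟩
  refine Subgroup.subset_closure ⟨⟨y, hy, rfl⟩, ?_⟩
  rw [← map_pow, hyp, map_one]

theorem OmGen_bot {G : Type*} [Group G] : OmGen p (⊥ : Subgroup G) := by
  intro x hx
  rw [Subgroup.mem_bot.1 hx]
  exact one_mem _

variable [Fintype X] [DecidableEq X] [Fintype A] [DecidableEq A]

/-- The indicator. -/
def indK (K : Finset X) : X → ZMod p := fun b => if b ∈ K then 1 else 0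

theorem support_Tt (e : X → ZMod p) : (Tt e : Perm (YY p X A)).support =
    ((Finset.univ : Finset (ZMod p)) ×ˢ (Finset.univ.filter fun b => e b ≠ 0)).map ⟨Sum.inl, Sum.inl_injective⟩ := by
  haveI : NeZero p := ⟨hp.out.ne_zero⟩
  ext q
  rcases q with ⟨y, b⟩ | a
  · simp [Perm.mem_support]
  · simp [Perm.mem_support]

theorem card_support_Tt (e : X → ZMod p) : (Tt e : Perm (YY p X A)).support.card =
    p * (Finset.univ.filter fun b => e b ≠ 0).card := by
  haveI : NeZero p := ⟨hp.out.ne_zero⟩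
  rw [support_Tt, Finset.card_map, Finset.card_product, Finset.card_univ, ZMod.card]

theorem Tt_ne_one {e : X → ZMod p} (he : e ≠ 0) : (Tt e : Perm (YY p X A)) ≠ 1 := by
  intro h
  rw [← Tt_zero (p := p) (X := X) (A := A)] at h
  exact he (Ph_inj h).2.1

theorem orderOf_Tt {e : X → ZMod p} (he : e ≠ 0) : orderOf (Tt e : Perm (YY p X A)) = p :=
  orderOf_eq_prime (Tt_pow_p e) (Tt_ne_one he)

theorem isConj_of_order_p {Z : Type*} [Fintype Z] [DecidableEq Z] {x y : Perm Z} (hx : orderOf x = p) (hy : orderOf y = p)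
    (h : x.support.card = y.support.card) : IsConj x y := by
  have hpp := hp.out
  obtain ⟨k, hk⟩ := Perm.cycleType_prime_order (σ := x) (by rw [hx]; exact hpp)
  obtain ⟨k', hk'⟩ := Perm.cycleType_prime_order (σ := y) (by rw [hy]; exact hpp)
  rw [hx] at hk
  rw [hy] at hk'
  have h1 := Perm.sum_cycleType x
  have h2 := Perm.sum_cycleType y
  rw [hk, Multiset.sum_replicate] at h1
  rw [hk', Multiset.sum_replicate] at h2
  have h3 : (k + 1) • p = (k' + 1) • p := by rw [h1, h2, h]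
  have h4 : k = k' := by
    simp only [smul_eq_mul] at h3
    have := Nat.eq_of_mul_eq_mul_right hpp.pos h3
    omega
  rw [Perm.isConj_iff_cycleType_eq, hk, hk', h4]

/-- Elements of order `p` are conjugate to translations by indicators. -/
theorem exists_conj_ind (hA : Fintype.card A < p) {x : Perm (YY p X A)} (hx : orderOf x = p) :
    ∃ K : Finset X, K.Nonempty ∧ IsConj x (Tt (indK K)) := by
  have hpp := hp.out
  haveI : NeZero p := ⟨hpp.ne_zero⟩
  obtain ⟨k, hk⟩ := Perm.cycleType_prime_order (σ := x) (by rw [hx]; exact hpp)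
  rw [hx] at hk
  have h1 := Perm.sum_cycleType x
  rw [hk, Multiset.sum_replicate] at h1
  have hcard : x.support.card ≤ Fintype.card (YY p X A) := Finset.card_le_univ _
  rw [Fintype.card_sum, Fintype.card_prod, ZMod.card] at hcard
  have hk1 : k + 1 ≤ Fintype.card X := by
    rw [← h1, smul_eq_mul] at hcard
    by_contra hcon
    have : (Fintype.card X + 1) * p ≤ (k + 1) * p := Nat.mul_le_mul_right _ (by omega)
    nlinarith
  obtain ⟨K, -, hK⟩ := Finset.exists_subset_card_eq (s := (Finset.univ : Finset X)) (n := k + 1) (by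
    simpa using hk1)
  have hKne : K.Nonempty := by
    rw [← Finset.card_pos, hK]
    omega
  refine ⟨K, hKne, ?_⟩
  have hind : (indK K : X → ZMod p) ≠ 0 := by
    obtain ⟨b, hb⟩ := hKne
    intro h
    have := congrFun h b
    simp [indK, hb] at this
  refine isConj_of_order_p hx (orderOf_Tt hind) ?_
  rw [card_support_Tt, ← h1, smul_eq_mul, mul_comm]
  congr 1
  rw [← hK]
  congr 1
  ext b
  simp [indK]

theorem isConj_Tt_ind {K : Finset X} (hK : K.Nonempty) {e : X → ZMod p} (he : ∀ b, e b ≠ 0 ↔ b ∈ K) :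
    IsConj (Tt e : Perm (YY p X A)) (Tt (indK K)) := by
  have hind : (indK K : X → ZMod p) ≠ 0 := by
    obtain ⟨b, hb⟩ := hK
    intro h
    have := congrFun h b
    simp [indK, hb] at this
  have he0 : e ≠ 0 := by
    obtain ⟨b, hb⟩ := hK
    intro h
    have := (he b).2 hb
    rw [h] at this
    simp at this
  refine isConj_of_order_p (orderOf_Tt he0) (orderOf_Tt hind) ?_
  rw [card_support_Tt, card_support_Tt]
  congr 2
  ext b
  simp [indK, he]

/-- Conjugacy in the alternating group. -/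
theorem exists_alt_conj {Z : Type*} [Fintype Z] [DecidableEq Z] {x z t : Perm Z} (h : IsConj x z) (ht : Perm.sign t = -1)
    (htz : t * z = z * t) (hx : x ∈ alternatingGroup Z) : ∃ g : Perm Z, g ∈ alternatingGroup Z ∧ g * x * g⁻¹ = z := by
  obtain ⟨c, hc⟩ := _root_.isConj_iff.1 h
  rcases Int.units_eq_one_or (Perm.sign c) with h1 | h1
  · exact ⟨c, Perm.mem_alternatingGroup.2 h1, hc⟩
  · refine ⟨t * c, Perm.mem_alternatingGroup.2 (by simp [h1, ht]), ?_⟩
    calc t * c * x * (t * c)⁻¹ = t * (c * x * c⁻¹) * t⁻¹ := by group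
      _ = t * z * t⁻¹ := by rw [hc]
      _ = z := by rw [htz]; group

omit [DecidableEq A] [Fintype A] in
theorem Ll_eq_sumCongr [Fintype A] [DecidableEq A] (π : Perm X) :
    (Ll π : Perm (YY p X A)) = Perm.sumCongr (prodCongrRight fun _ : ZMod p => π) 1 := by
  ext q
  rcases q with ⟨y, b⟩ | a
  · simp
  · simp

theorem sign_Ll (π : Perm X) : Perm.sign (Ll π : Perm (YY p X A)) = Perm.sign π ^ p := by
  haveI : NeZero p := ⟨hp.out.ne_zero⟩
  rw [Ll_eq_sumCongr, Perm.sign_sumCongr, map_one, mul_one, Perm.sign_prodCongrRight]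
  simp only [Finset.prod_const, Finset.card_univ, ZMod.card]

theorem sign_odd_of_pow {Z : Type*} [Fintype Z] [DecidableEq Z] {x : Perm Z} {r : ℕ} (hr : Odd r) (h : x ^ r = 1) : Perm.sign x = 1 := by
  have h1 : Perm.sign x ^ r = 1 := by rw [← map_pow, h, map_one]
  rcases Int.units_eq_one_or (Perm.sign x) with h2 | h2
  · exact h2
  · rw [h2, hr.neg_one_pow] at h1
    exact absurd h1 (by decide)

end Ph

end Cfsg.Agent.H25
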