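import Cfsg.Agent.Lib.H25.SimA2
set_option autoImplicit false
set_option linter.style.haveILetI false
set_option linter.unusedSectionVars false
set_option linter.unusedSimpArgs false
set_option linter.unusedVariables false

/-! The strong closure statement in alternating groups. -/

namespace Cfsg.Agent.H25

open Equiv

section Wrap
variable {Z : Type*} [Fintype Z] [DecidableEq Z]

/-- The strong closure condition in terms of permutations. -/
theorem GCa_of_perm (H : Subgroup (Perm Z))
    (h : ∀ T : Subgroup (Perm Z), T ≤ H → T ≤ alternatingGroup Z → (∀ x ∈ T, ∀ g ∈ alternatingGroup Z, g * x * g⁻¹ ∈ H → g * x * g⁻¹ ∈ T) →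
      T = ⊥ ∨ H ⊓ alternatingGroup Z ≤ T) : GCa (H.subgroupOf (alternatingGroup Z)) := by
  intro T hT hc
  let T' : Subgroup (Perm Z) := T.map (alternatingGroup Z).subtype
  have hmem : ∀ x : alternatingGroup Z, (x : Perm Z) ∈ T' ↔ x ∈ T := by
    intro x
    constructor
    · rintro ⟨y, hy, hxy⟩
      have : y = x := Subtype.ext hxy
      rwa [← this]
    · intro hx
      exact ⟨x, hx, rfl⟩
  rcases h T' (by
    rintro _ ⟨y, hy, rfl⟩
    exact hT hy) (by
    rintro _ ⟨y, hy, rfl⟩
    exact y.2) (by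
    rintro _ ⟨y, hy, rfl⟩ g hg hs
    have h1 : (⟨g, hg⟩ : alternatingGroup Z) * y * (⟨g, hg⟩ : alternatingGroup Z)⁻¹ ∈ H.subgroupOf (alternatingGroup Z) := hs
    have h2 := hc y hy _ h1
    exact (hmem _).2 h2) with h1 | h1
  · left
    rw [eq_bot_iff]
    intro x hx
    have h2 : (x : Perm Z) ∈ T' := (hmem x).2 hx
    rw [h1] at h2
    exact Subgroup.mem_bot.2 (Subtype.ext (Subgroup.mem_bot.1 h2))
  · right
    refine le_antisymm hT fun x hx => ?_
    exact (hmem x).1 (h1 ⟨hx, x.2⟩)

end Wrap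

section Main

variable {p : ℕ} [hp : Fact p.Prime] {X A : Type*} [Fintype X] [DecidableEq X] [Fintype A] [DecidableEq A]

theorem IsPGroup_StS {Q : Subgroup (Perm X)} (hQ : IsPGroup p Q) : IsPGroup p (StS (p := p) (A := A) Q) := by
  obtain ⟨k, hk⟩ := IsPGroup.iff_card.1 hQ
  exact IsPGroup.of_card (n := Fintype.card X + k) (by rw [card_StS, hk, pow_add])

theorem isConj_Tt_card {K : Finset X} (hK : K.Nonempty) {e : X → ZMod p} (he : (Finset.univ.filter fun b => e b ≠ 0).card = K.card) :
    IsConj (Tt e : Perm (YY p X A)) (Tt (indK K)) := by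
  have hind : (indK K : X → ZMod p) ≠ 0 := by
    obtain ⟨b, hb⟩ := hK
    intro h
    have := congrFun h b
    simp [indK, hb] at this
  have he0 : e ≠ 0 := by
    intro h
    rw [h] at he
    simp at he
    exact hK.ne_empty (Finset.card_eq_zero.1 he.symm)
  refine isConj_of_order_p (orderOf_Tt he0) (orderOf_Tt hind) ?_
  rw [card_support_Tt, card_support_Tt]
  congr 1
  rw [he]
  congr 1
  ext b
  simp [indK]

theorem filter_ind (K : Finset X) : (Finset.univ.filter fun b => (indK K : X → ZMod p) b ≠ 0) = K := by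
  ext b
  simp [indK]

theorem indK_insert {b : X} {K : Finset X} (hb : b ∉ K) : (indK (insert b K) : X → ZMod p) = indK K + indK {b} := by
  funext c
  by_cases h1 : c = b
  · subst h1
    simp [indK, hb]
  · simp [indK, h1]

theorem Tt_comm (e f : X → ZMod p) : (Tt e * Tt f : Perm (YY p X A)) = Tt f * Tt e := by
  rw [Tt_mul, Tt_mul, add_comm]

/-- A prime order element with an odd centralizer element in the target. -/
theorem exists_odd_comm_K (hp2 : p ≠ 2) (hX : 3 ≤ Fintype.card X) (K : Finset X) :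
    ∃ t : Perm (YY p X A), Perm.sign t = -1 ∧ t * Tt (indK K) = Tt (indK K) * t := by
  obtain ⟨a, b, c, hab, hac, hbc⟩ := Fintype.two_lt_card_iff.1 (by omega : 2 < Fintype.card X)
  have hodd : Odd p := hp.out.odd_of_ne_two hp2
  have key : ∀ u v : X, u ≠ v → (u ∈ K ↔ v ∈ K) →
      ∃ t : Perm (YY p X A), Perm.sign t = -1 ∧ t * Tt (indK K) = Tt (indK K) * t := by
    intro u v huv h
    refine ⟨Ll (swap u v), ?_, ?_⟩
    · rw [sign_Ll, Perm.sign_swap huv, hodd.neg_one_pow]
    · have h1 := Ll_Tt (p := p) (A := A) (swap u v) (indK K)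
      have h2 : (indK K : X → ZMod p) ∘ ⇑(swap u v)⁻¹ = indK K := by
        funext w
        simp only [Function.comp, swap_inv, indK]
        by_cases h3 : w = u
        · subst h3
          simp [h]
        · by_cases h4 : w = v
          · subst h4
            simp [h]
          · simp [swap_apply_of_ne_of_ne h3 h4]
      rw [h2] at h1
      calc (Ll (swap u v) * Tt (indK K) : Perm (YY p X A)) = (Ll (swap u v) * Tt (indK K) * (Ll (swap u v))⁻¹) * Ll (swap u v) := by group
        _ = Tt (indK K) * Ll (swap u v) := by rw [h1]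
  by_cases h1 : a ∈ K <;> by_cases h2 : b ∈ K <;> by_cases h3 : c ∈ K
  · exact key a b hab (by simp [h1, h2])
  · exact key a b hab (by simp [h1, h2])
  · exact key a c hac (by simp [h1, h3])
  · exact key b c hbc (by simp [h2, h3])
  · exact key b c hbc (by simp [h2, h3])
  · exact key a c hac (by simp [h1, h3])
  · exact key a b hab (by simp [h1, h2])
  · exact key a b hab (by simp [h1, h2])

/-- The strong closure statement for odd `p`. -/
theorem GCa_odd (hp2 : p ≠ 2) (hX : 3 ≤ Fintype.card X) (hA : Fintype.card A < p) {Q : Subgroup (Perm X)} (hQp : IsPGroup p Q)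
    (hQ : OmGen p Q) : GCa ((StS (p := p) (A := A) Q).subgroupOf (alternatingGroup (YY p X A))) := by
  classical
  have hpp := hp.out
  have hodd : Odd p := hpp.odd_of_ne_two hp2
  haveI : NeZero p := ⟨hpp.ne_zero⟩
  haveI : Finite (Perm (YY p X A)) := inferInstance
  refine GCa_of_perm _ fun T hTS hTA hc => ?_
  by_cases hb : T = ⊥
  · exact Or.inl hb
  right
  have hSp : IsPGroup p (StS (p := p) (A := A) Q) := IsPGroup_StS hQp
  have hTp : IsPGroup p T := hSp.to_le hTS
  -- an element of order `p`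
  obtain ⟨x, hxT, hxo⟩ : ∃ x ∈ T, orderOf x = p := by
    obtain ⟨t, ht, ht1⟩ := (Subgroup.ne_bot_iff_exists_ne_one (H := T)).1 hb |> fun ⟨t, h⟩ => (⟨t.1, t.2, fun h2 => h (Subtype.ext h2)⟩ : ∃ t ∈ T, t ≠ 1)
    obtain ⟨k, hk⟩ := (IsPGroup.iff_orderOf.1 hTp) ⟨t, ht⟩
    rw [Subgroup.orderOf_mk] at hk
    have hk0 : k ≠ 0 := by
      rintro rfl
      rw [pow_zero, orderOf_eq_one_iff] at hk
      exact ht1 hk
    refine ⟨t ^ (p ^ (k - 1)), T.pow_mem ht _, ?_⟩
    have hd : p ∣ orderOf t := by
      rw [hk]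
      exact dvd_pow_self p hk0
    have h1 := orderOf_pow_orderOf_div (x := t) (n := p) (by rw [hk]; exact pow_ne_zero _ hpp.ne_zero) hd
    have h2 : orderOf t / p = p ^ (k - 1) := by
      rw [hk]
      obtain ⟨l, rfl⟩ : ∃ l, k = l + 1 := ⟨k - 1, by omega⟩
      simp [pow_succ, hpp.pos]
    rwa [h2] at h1
  have hevenS : ∀ y ∈ StS (p := p) (A := A) Q, y ^ p = 1 → y ∈ alternatingGroup (YY p X A) :=
    fun y _ hy => Perm.mem_alternatingGroup.2 (sign_odd_of_pow hodd hy)
  -- transporting along conjugacy with an indicator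
  have hin : ∀ (K : Finset X) (y : Perm (YY p X A)), y ∈ T → IsConj y (Tt (indK K)) → (Tt (indK K) : Perm (YY p X A)) ∈ T := by
    intro K y hy hconj
    obtain ⟨t, ht, htz⟩ := exists_odd_comm_K (A := A) hp2 hX K
    obtain ⟨g, hg, hgy⟩ := exists_alt_conj hconj ht htz (hTA hy)
    rw [← hgy]
    exact hc y hy g hg (by rw [hgy]; exact Tt_mem _ _)
  have hout : ∀ (K : Finset X) (y : Perm (YY p X A)), (Tt (indK K) : Perm (YY p X A)) ∈ T → y ∈ StS (p := p) (A := A) Q → y ∈ alternatingGroup (YY p X A) →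
      IsConj y (Tt (indK K)) → y ∈ T := by
    intro K y hK hy hyA hconj
    obtain ⟨t, ht, htz⟩ := exists_odd_comm_K (A := A) hp2 hX K
    obtain ⟨g, hg, hgy⟩ := exists_alt_conj hconj ht htz hyA
    have e : y = g⁻¹ * Tt (indK K) * g⁻¹⁻¹ := by
      rw [← hgy]
      group
    rw [e]
    refine hc _ hK _ (inv_mem hg) ?_
    rw [← e]
    exact hy
  obtain ⟨K, hKne, hK⟩ := exists_conj_ind hA hxo
  have hzK := hin K x hxT hK
  obtain ⟨b₁, hb₁⟩ := hKne
  -- the `p`-cycle
  have h2ne : (2 : ZMod p) ≠ 0 := by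
    intro h
    have h3 : ((2 : ℕ) : ZMod p) = 0 := by exact_mod_cast h
    rw [ZMod.natCast_eq_zero_iff] at h3
    exact hp2 ((Nat.prime_dvd_prime_iff_eq hpp Nat.prime_two).1 h3)
  have hcyc : (Tt (indK {b₁}) : Perm (YY p X A)) ∈ T := by
    have he : ((Finset.univ.filter fun b => ((indK K + indK {b₁} : X → ZMod p)) b ≠ 0)) = K := by
      ext c
      by_cases h1 : c = b₁
      · subst h1
        simp [indK, hb₁, one_add_one_eq_two, h2ne]
      · simp [indK, h1]
    have h1 : (Tt (indK K + indK {b₁}) : Perm (YY p X A)) ∈ T := by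
      refine hout K _ hzK (Tt_mem _ _) (hevenS _ (Tt_mem _ _) (Tt_pow_p _)) (isConj_Tt_card ⟨b₁, hb₁⟩ (by rw [he]))
    have h3 := T.mul_mem (T.inv_mem hzK) h1
    rw [Tt_inv, Tt_mul] at h3
    have e : -(indK K : X → ZMod p) + (indK K + indK {b₁}) = indK {b₁} := by abel
    rwa [e] at h3
  have hsingle : ∀ b, (Tt (indK {b}) : Perm (YY p X A)) ∈ T := by
    intro b
    refine hin {b} _ hcyc (isConj_Tt_card (Finset.singleton_nonempty b) ?_)
    rw [filter_ind]
    simp
  have hall : ∀ K : Finset X, (Tt (indK K) : Perm (YY p X A)) ∈ T := by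
    intro K
    induction K using Finset.induction_on with
    | empty =>
      have : (indK (∅ : Finset X) : X → ZMod p) = 0 := by
        funext c
        simp [indK]
      rw [this, Tt_zero]
      exact T.one_mem
    | insert b K hb ih =>
      rw [indK_insert hb, ← Tt_mul]
      exact T.mul_mem ih (hsingle b)
  -- all elements of order `p`
  have hord : ∀ y ∈ StS (p := p) (A := A) Q, y ^ p = 1 → y ∈ T := by
    intro y hy hyp
    by_cases hy1 : y = 1
    · rw [hy1]
      exact T.one_mem
    have hyo : orderOf y = p := orderOf_eq_prime hyp hy1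
    obtain ⟨K', -, hK'⟩ := exists_conj_ind hA hyo
    exact hout K' y (hall K') hy (hevenS y hy hyp) hK'
  intro s hs
  have h1 : Subgroup.closure {x | x ∈ StS (p := p) (A := A) Q ∧ x ^ p = 1} ≤ T :=
    (Subgroup.closure_le _).2 fun y hy => hord y hy.1 hy.2
  exact h1 (OmGen_StS hQ hs.1)

end Main

section Two

variable {X A : Type*} [Fintype X] [DecidableEq X] [Fintype A] [DecidableEq A]

theorem sign_Tt_single (b : X) : Perm.sign (Tt (indK {b}) : Perm (YY 2 X A)) = -1 := by
  have h : (Tt (indK {b}) : Perm (YY 2 X A)).support.card = 2 := by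
    rw [card_support_Tt, filter_ind]
    simp
  exact (Perm.card_support_eq_two.1 h).sign_eq

theorem sign_Tt_ind (K : Finset X) : Perm.sign (Tt (indK K) : Perm (YY 2 X A)) = (-1) ^ K.card := by
  induction K using Finset.induction_on with
  | empty =>
    have : (indK (∅ : Finset X) : X → ZMod 2) = 0 := by
      funext c
      simp [indK]
    rw [this, Tt_zero]
    simp
  | insert b K hb ih =>
    rw [indK_insert hb, ← Tt_mul, map_mul, ih, sign_Tt_single, Finset.card_insert_of_notMem hb, pow_succ]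

theorem exists_order_of_ne_bot {p : ℕ} [hp : Fact p.Prime] {G : Type*} [Group G] {T : Subgroup G} (hTp : IsPGroup p T) (hb : T ≠ ⊥) :
    ∃ x ∈ T, orderOf x = p := by
  have hpp := hp.out
  obtain ⟨t, ht, ht1⟩ := (Subgroup.ne_bot_iff_exists_ne_one (H := T)).1 hb |> fun ⟨t, h⟩ => (⟨t.1, t.2, fun h2 => h (Subtype.ext h2)⟩ : ∃ t ∈ T, t ≠ 1)
  obtain ⟨k, hk⟩ := (IsPGroup.iff_orderOf.1 hTp) ⟨t, ht⟩
  rw [Subgroup.orderOf_mk] at hk
  have hk0 : k ≠ 0 := by
    rintro rfl
    rw [pow_zero, orderOf_eq_one_iff] at hk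
    exact ht1 hk
  refine ⟨t ^ (p ^ (k - 1)), T.pow_mem ht _, ?_⟩
  have hd : p ∣ orderOf t := by
    rw [hk]
    exact dvd_pow_self p hk0
  have h1 := orderOf_pow_orderOf_div (x := t) (n := p) (by rw [hk]; exact pow_ne_zero _ hpp.ne_zero) hd
  have h2 : orderOf t / p = p ^ (k - 1) := by
    rw [hk]
    obtain ⟨l, rfl⟩ : ∃ l, k = l + 1 := ⟨k - 1, by omega⟩
    simp [pow_succ, hpp.pos]
  rwa [h2] at h1

/-- The strong closure statement for `p = 2`. -/
theorem GCa_two (hX : 3 ≤ Fintype.card X) (hA : Fintype.card A < 2) {Q : Subgroup (Perm X)} (hQp : IsPGroup 2 Q)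
    (hQ : OmGen 2 Q) {b₁ b₂ : X} (hb12 : b₁ ≠ b₂) (hsw : swap b₁ b₂ ∈ Q) :
    GCa ((StS (p := 2) (A := A) Q).subgroupOf (alternatingGroup (YY 2 X A))) := by
  classical
  refine GCa_of_perm _ fun T hTS hTA hc => ?_
  by_cases hbot : T = ⊥
  · exact Or.inl hbot
  right
  have hSp : IsPGroup 2 (StS (p := 2) (A := A) Q) := IsPGroup_StS hQp
  have hTp : IsPGroup 2 T := hSp.to_le hTS
  obtain ⟨x, hxT, hxo⟩ := exists_order_of_ne_bot hTp hbot
  have htt : ∀ K : Finset X, ∃ t : Perm (YY 2 X A), Perm.sign t = -1 ∧ t * Tt (indK K) = Tt (indK K) * t :=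
    fun K => ⟨Tt (indK {b₁}), sign_Tt_single b₁, Tt_comm _ _⟩
  have hin : ∀ (K : Finset X) (y : Perm (YY 2 X A)), y ∈ T → IsConj y (Tt (indK K)) → (Tt (indK K) : Perm (YY 2 X A)) ∈ T := by
    intro K y hy hconj
    obtain ⟨t, ht, htz⟩ := htt K
    obtain ⟨g, hg, hgy⟩ := exists_alt_conj hconj ht htz (hTA hy)
    rw [← hgy]
    exact hc y hy g hg (by rw [hgy]; exact Tt_mem _ _)
  have hout : ∀ (K : Finset X) (y : Perm (YY 2 X A)), (Tt (indK K) : Perm (YY 2 X A)) ∈ T → y ∈ StS (p := 2) (A := A) Q → y ∈ alternatingGroup (YY 2 X A) →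
      IsConj y (Tt (indK K)) → y ∈ T := by
    intro K y hK hy hyA hconj
    obtain ⟨t, ht, htz⟩ := htt K
    obtain ⟨g, hg, hgy⟩ := exists_alt_conj hconj ht htz hyA
    have e : y = g⁻¹ * Tt (indK K) * g⁻¹⁻¹ := by
      rw [← hgy]
      group
    rw [e]
    refine hc _ hK _ (inv_mem hg) ?_
    rw [← e]
    exact hy
  have h11 : (1 : ZMod 2) + 1 = 0 := rfl
  have hconjcard : ∀ K K' : Finset X, K'.Nonempty → K.card = K'.card → IsConj (Tt (indK K) : Perm (YY 2 X A)) (Tt (indK K')) := by
    intro K K' hK' h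
    refine isConj_Tt_card hK' ?_
    rw [filter_ind, h]
  obtain ⟨K, hKne, hK⟩ := exists_conj_ind hA hxo
  have hzK := hin K x hxT hK
  -- a pair
  have hdouble : ∃ c d : X, c ≠ d ∧ (Tt (indK {c, d}) : Perm (YY 2 X A)) ∈ T := by
    by_cases huniv : ∀ b, b ∈ K
    · let L : Perm (YY 2 X A) := Ll (swap b₁ b₂)
      have hLS : L ∈ StS (p := 2) (A := A) Q := Ll_mem hsw
      have hLsign : Perm.sign L = 1 := by
        show Perm.sign (Ll (swap b₁ b₂) : Perm (YY 2 X A)) = 1
        rw [sign_Ll, Int.units_sq]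
      have hLL : L * L = 1 := by
        show (Ll (swap b₁ b₂) * Ll (swap b₁ b₂) : Perm (YY 2 X A)) = 1
        rw [Ll_mul, Equiv.swap_mul_self, Ll_one]
      have hLz : L * Tt (indK K) = Tt (indK K) * L := by
        have h1 := Ll_Tt (p := 2) (A := A) (swap b₁ b₂) (indK K)
        have h2 : (indK K : X → ZMod 2) ∘ ⇑(swap b₁ b₂)⁻¹ = indK K := by
          funext w
          simp [indK, huniv]
        rw [h2] at h1
        calc L * Tt (indK K) = (Ll (swap b₁ b₂) * Tt (indK K) * (Ll (swap b₁ b₂))⁻¹) * L := by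
              show (Ll (swap b₁ b₂) * Tt (indK K) : Perm (YY 2 X A)) = (Ll (swap b₁ b₂) * Tt (indK K) * (Ll (swap b₁ b₂))⁻¹) * Ll (swap b₁ b₂)
              group
          _ = Tt (indK K) * L := by rw [h1]
      have hzz : (Tt (indK K) * Tt (indK K) : Perm (YY 2 X A)) = 1 := by
        rw [← pow_two]
        exact Tt_pow_p _
      have hy : Tt (indK K) * L ∈ T := by
        refine hout K _ hzK (mul_mem (Tt_mem _ _) hLS) (mul_mem (hTA hzK) (Perm.mem_alternatingGroup.2 hLsign)) ?_
        have hord : (Tt (indK K) * L) ^ 2 = 1 := by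
          calc (Tt (indK K) * L) ^ 2 = (Tt (indK K) * Tt (indK K)) * (L * L) := by
                rw [pow_two, mul_assoc, ← mul_assoc L, hLz]
                simp only [mul_assoc]
            _ = 1 := by rw [hzz, hLL, one_mul]
        have hne : (Tt (indK K) * L) ≠ 1 := by
          intro h
          have h1 := congrArg (fun f : Perm (YY 2 X A) => f (Sum.inl (0, b₁))) h
          have h2 := congrArg (fun f : Perm (YY 2 X A) => f (Sum.inl (0, b₂))) h
          simp [L, indK, huniv] at h1
        have hind : (indK K : X → ZMod 2) ≠ 0 := by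
          intro h
          have := congrFun h b₁
          simp [indK, huniv] at this
        refine isConj_of_order_p (orderOf_eq_prime hord hne) (orderOf_Tt hind) ?_
        congr 1
        ext q
        rcases q with ⟨a, b⟩ | a
        · simp [Perm.mem_support, L, indK, huniv, Prod.ext_iff]
        · simp [Perm.mem_support, L]
      have hLT : L ∈ T := by
        have h1 := T.mul_mem (T.inv_mem hzK) hy
        rwa [inv_mul_cancel_left] at h1
      refine ⟨b₁, b₂, hb12, hin {b₁, b₂} L hLT ?_⟩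
      have hord : L ^ 2 = 1 := by rw [pow_two, hLL]
      have hne : L ≠ 1 := by
        intro h
        have h1 := congrArg (fun f : Perm (YY 2 X A) => f (Sum.inl (0, b₁))) h
        simp [L, hb12.symm] at h1
      have hind : (indK {b₁, b₂} : X → ZMod 2) ≠ 0 := by
        intro h
        have := congrFun h b₁
        simp [indK] at this
      refine isConj_of_order_p (orderOf_eq_prime hord hne) (orderOf_Tt hind) ?_
      congr 1
      ext q
      rcases q with ⟨a, b⟩ | a
      · by_cases h1 : b = b₁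
        · subst h1
          simp [Perm.mem_support, L, indK, hb12, hb12.symm, Prod.ext_iff]
        · by_cases h2 : b = b₂
          · subst h2
            simp [Perm.mem_support, L, indK, hb12, hb12.symm, Prod.ext_iff]
          · simp [Perm.mem_support, L, indK, h1, h2, Prod.ext_iff, swap_apply_of_ne_of_ne]
      · simp [Perm.mem_support, L]
    · push Not at huniv
      obtain ⟨b', hb'⟩ := huniv
      obtain ⟨c, hc'⟩ := hKne
      have hcb : c ≠ b' := fun h => hb' (h ▸ hc')
      let K' : Finset X := insert b' (K.erase c)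
      have hb'' : b' ∉ K.erase c := fun h => hb' (Finset.mem_of_mem_erase h)
      have hcard : K'.card = K.card := by
        show (insert b' (K.erase c)).card = K.card
        rw [Finset.card_insert_of_notMem hb'', Finset.card_erase_of_mem hc']
        have : 0 < K.card := Finset.card_pos.2 ⟨c, hc'⟩
        omega
      have hK'T : (Tt (indK K') : Perm (YY 2 X A)) ∈ T := by
        refine hout K _ hzK (Tt_mem _ _) ?_ (hconjcard K' K ⟨c, hc'⟩ hcard)
        have hs1 := Perm.mem_alternatingGroup.1 (hTA hzK)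
        rw [Perm.mem_alternatingGroup, sign_Tt_ind, hcard]
        rwa [sign_Tt_ind] at hs1
      refine ⟨c, b', hcb, ?_⟩
      have h3 := T.mul_mem hzK hK'T
      rw [Tt_mul] at h3
      have e : (indK K + indK K' : X → ZMod 2) = indK {c, b'} := by
        funext w
        by_cases h1 : w = c
        · subst h1
          simp [indK, K', hc', hcb]
        · by_cases h2 : w = b'
          · subst h2
            simp [indK, K', hb', h1, hb'']
          · by_cases h4 : w ∈ K
            · simp [indK, K', h1, h2, h4]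
              rfl
            · simp [indK, K', h1, h2, h4]
      rwa [e] at h3
  obtain ⟨c₀, d₀, hcd₀, hdT⟩ := hdouble
  have hpair : ∀ c d : X, c ≠ d → (Tt (indK {c, d}) : Perm (YY 2 X A)) ∈ T := by
    intro c d hcd
    refine hin {c, d} _ hdT (hconjcard {c₀, d₀} {c, d} ⟨c, by simp⟩ ?_)
    rw [Finset.card_pair hcd, Finset.card_pair hcd₀]
  have heven : ∀ (n : ℕ) (K : Finset X), K.card = 2 * n → (Tt (indK K) : Perm (YY 2 X A)) ∈ T := by
    intro n
    induction n with
    | zero =>
      intro K hK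
      have h0 : K = ∅ := Finset.card_eq_zero.1 (by omega)
      have : (indK K : X → ZMod 2) = 0 := by
        funext c
        simp [indK, h0]
      rw [this, Tt_zero]
      exact T.one_mem
    | succ n ih =>
      intro K hK
      obtain ⟨c, hc1, d, hd1, hcd⟩ := Finset.one_lt_card.1 (by omega : 1 < K.card)
      let K' := (K.erase c).erase d
      have hd2 : d ∈ K.erase c := Finset.mem_erase.2 ⟨hcd.symm, hd1⟩
      have hcK' : K'.card = 2 * n := by
        show ((K.erase c).erase d).card = 2 * n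
        rw [Finset.card_erase_of_mem hd2, Finset.card_erase_of_mem hc1]
        omega
      have e : (indK K : X → ZMod 2) = indK K' + indK {c, d} := by
        funext w
        by_cases h1 : w = c
        · subst h1
          simp [indK, K', hc1, hcd]
        · by_cases h2 : w = d
          · subst h2
            simp [indK, K', hd1, h1]
          · simp [indK, K', h1, h2]
      rw [e, ← Tt_mul]
      exact T.mul_mem (ih K' hcK') (hpair c d hcd)
  have hord : ∀ y ∈ StS (p := 2) (A := A) Q, y ∈ alternatingGroup (YY 2 X A) → y ^ 2 = 1 → y ∈ T := by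
    intro y hy hyA hy2
    by_cases hy1 : y = 1
    · rw [hy1]
      exact T.one_mem
    have hyo : orderOf y = 2 := orderOf_eq_prime hy2 hy1
    obtain ⟨K', -, hK'⟩ := exists_conj_ind hA hyo
    refine hout K' y ?_ hy hyA hK'
    obtain ⟨c, hc'⟩ := _root_.isConj_iff.1 hK'
    have hs : Perm.sign (Tt (indK K') : Perm (YY 2 X A)) = 1 := by
      rw [← hc', map_mul, map_mul, map_inv, Perm.mem_alternatingGroup.1 hyA, mul_one, mul_inv_cancel]
    rw [sign_Tt_ind] at hs
    have he : Even K'.card := by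
      by_contra h
      rw [Nat.not_even_iff_odd] at h
      rw [h.neg_one_pow] at hs
      exact absurd hs (by decide)
    obtain ⟨n, hn⟩ := he
    exact heven n K' (by omega)
  intro s hs
  obtain ⟨⟨e, π, hπ, rfl⟩, hsA⟩ := hs
  have hLl : (Ll π : Perm (YY 2 X A)) ∈ T := by
    have h2 : LlH 2 X A π ∈ (Subgroup.closure {x | x ∈ Q ∧ x ^ 2 = 1}).map (LlH 2 X A) := ⟨π, hQ hπ, rfl⟩
    rw [MonoidHom.map_closure] at h2
    refine (Subgroup.closure_le T).2 ?_ h2
    rintro _ ⟨y, ⟨hy, hy2⟩, rfl⟩
    refine hord _ (Ll_mem hy) ?_ ?_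
    · rw [LlH_apply, Perm.mem_alternatingGroup, sign_Ll, Int.units_sq]
    · rw [← map_pow, hy2, map_one]
  rw [Sq_eq] at hsA ⊢
  refine T.mul_mem hLl (hord _ (Tt_mem _ _) ?_ (Tt_pow_p _))
  have h1 := (alternatingGroup (YY 2 X A)).mul_mem ((alternatingGroup (YY 2 X A)).inv_mem (hTA hLl)) hsA
  rwa [inv_mul_cancel_left] at h1

end Two

end Cfsg.Agent.H25
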