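import Cfsg.Agent.Lib.H25.SimA3
set_option autoImplicit false
set_option linter.style.haveILetI false
set_option linter.unusedSectionVars false
set_option linter.unusedSimpArgs false
set_option linter.unusedVariables false

/-! Normalizers of wreath type subgroups are affine. -/

namespace Cfsg.Agent.H25

open Equiv

section Form

variable {p : ℕ} [hp : Fact p.Prime] {X A : Type*} [Finite X]

theorem StS_inl_fix {Q : Subgroup (Perm X)} {s : Perm (YY p X A)} (hs : s ∈ StS Q) {y y' : ZMod p} {b : X}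
    (h : s (Sum.inl (y, b)) = Sum.inl (y, b)) : s (Sum.inl (y', b)) = Sum.inl (y', b) := by
  obtain ⟨e, π, -, rfl⟩ := hs
  simp only [Ph_inl, Units.val_one, one_mul, Sum.inl.injEq, Prod.mk.injEq, add_eq_left] at h ⊢
  simp [h.1, h.2]

theorem StS_inr {Q : Subgroup (Perm X)} {s : Perm (YY p X A)} (hs : s ∈ StS Q) (a : A) : s (Sum.inr a) = Sum.inr a := by
  obtain ⟨e, π, -, rfl⟩ := hs
  simp

theorem fiber_eq {Q : Subgroup (Perm X)} {T : Subgroup (Perm (YY p X A))} (hTS : T ≤ StS Q)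
    (h1 : ∀ b b', b ≠ b' → ∃ e : X → ZMod p, Tt e ∈ T ∧ e b = 0 ∧ e b' ≠ 0) {g : Perm (YY p X A)}
    (hg : ∀ s ∈ T, g⁻¹ * s * g ∈ T) {y y' u u' : ZMod p} {b c c' : X} (h : g (Sum.inl (y, b)) = Sum.inl (u, c))
    (h' : g (Sum.inl (y', b)) = Sum.inl (u', c')) : c = c' := by
  by_contra hne
  obtain ⟨e, he, he0, he1⟩ := h1 c c' hne
  have h2 := hg _ he
  have h3 : (g⁻¹ * Tt e * g : Perm (YY p X A)) (Sum.inl (y, b)) = Sum.inl (y, b) := by
    rw [Perm.mul_apply, Perm.mul_apply, h]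
    simp only [Ph_inl, Units.val_one, one_mul, he0, add_zero, Perm.one_apply]
    rw [← h]
    simp
  have h4 := StS_inl_fix (hTS h2) (y' := y') h3
  rw [Perm.mul_apply, Perm.mul_apply, h'] at h4
  simp only [Ph_inl, Units.val_one, one_mul, Perm.one_apply] at h4
  have h5 : (Sum.inl (u' + e c', c') : YY p X A) = g (Sum.inl (y', b)) := by
    rw [← h4]
    simp
  rw [h'] at h5
  simp only [Sum.inl.injEq, Prod.mk.injEq, add_eq_left, and_true] at h5
  exact he1 h5

/-- Elements normalizing a wreath like subgroup are affine. -/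
theorem N_form [Subsingleton A] {Q : Subgroup (Perm X)} {T : Subgroup (Perm (YY p X A))} (hTS : T ≤ StS Q)
    (h1 : ∀ b b', b ≠ b' → ∃ e : X → ZMod p, Tt e ∈ T ∧ e b = 0 ∧ e b' ≠ 0)
    (h2 : ∀ b, ∃ e : X → ZMod p, Tt e ∈ T ∧ e b ≠ 0)
    {g : Perm (YY p X A)} (hg : g ∈ Subgroup.normalizer (T : Set (Perm (YY p X A)))) :
    ∃ (d : X → (ZMod p)ˣ) (e : X → ZMod p) (π : Perm X), g = Ph d e π := by
  classical
  have hpp := hp.out
  haveI : NeZero p := ⟨hpp.ne_zero⟩
  have hg1 : ∀ s ∈ T, g * s * g⁻¹ ∈ T := fun s hs => (Subgroup.mem_normalizer_iff.1 hg s).1 hs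
  have hg2 : ∀ s ∈ T, g⁻¹ * s * g ∈ T := by
    intro s hs
    have h3 := Subgroup.inv_mem _ hg
    have h4 := (Subgroup.mem_normalizer_iff.1 h3 s).1 hs
    simpa using h4
  have hg2' : ∀ s ∈ T, g⁻¹⁻¹ * s * g⁻¹⁻¹⁻¹ ∈ T := by
    intro s hs
    simpa using hg1 s hs
  have hinr : ∀ a : A, g (Sum.inr a) = Sum.inr a := by
    intro a
    rcases hq : g (Sum.inr a) with ⟨y, b⟩ | a'
    · exfalso
      obtain ⟨e, he, he0⟩ := h2 b
      have h3 := StS_inr (hTS (hg2 _ he)) a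
      rw [Perm.mul_apply, Perm.mul_apply, hq] at h3
      simp only [Ph_inl, Units.val_one, one_mul, Perm.one_apply] at h3
      have h5 : (Sum.inl (y + e b, b) : YY p X A) = g (Sum.inr a) := by
        rw [← h3]
        simp
      rw [hq] at h5
      simp only [Sum.inl.injEq, Prod.mk.injEq, add_eq_left, and_true] at h5
      exact he0 h5
    · rw [Subsingleton.elim a' a]
  have hinl : ∀ (y : ZMod p) (b : X), ∃ (u : ZMod p) (c : X), g (Sum.inl (y, b)) = Sum.inl (u, c) := by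
    intro y b
    rcases hq : g (Sum.inl (y, b)) with ⟨u, c⟩ | a'
    · exact ⟨u, c, rfl⟩
    · exfalso
      rw [← hinr a'] at hq
      simpa using g.injective hq
  choose F B hFB using hinl
  have hB : ∀ y y' b, B y b = B y' b := fun y y' b => fiber_eq hTS h1 hg2 (hFB y b) (hFB y' b)
  have hinj : Function.Injective (B 0) := by
    intro b b' hbb
    have h3 : g⁻¹ (Sum.inl (F 0 b, B 0 b)) = Sum.inl (0, b) := by
      rw [← hFB]
      simp
    have h4 : g⁻¹ (Sum.inl (F 0 b', B 0 b)) = Sum.inl (0, b') := by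
      rw [hbb, ← hFB]
      simp
    exact fiber_eq hTS h1 hg2' h3 h4
  let π : Perm X := Equiv.ofBijective (B 0) (Finite.injective_iff_bijective.1 hinj)
  have hπ : ∀ b, π b = B 0 b := fun b => rfl
  have hF : ∀ b, ∃ u : (ZMod p)ˣ, ∀ y, F y b = (u : ZMod p) * y + F 0 b := by
    intro b
    obtain ⟨e, he, he0⟩ := h2 b
    obtain ⟨e', π', -, hs⟩ := hTS (hg1 _ he)
    have hstep : ∀ y, F (y + e b) b = F y b + e' (B 0 b) := by
      intro y
      have h3 : (g * Tt e * g⁻¹ : Perm (YY p X A)) (g (Sum.inl (y, b))) = g ((Tt e : Perm (YY p X A)) (Sum.inl (y, b))) := by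
        simp
      rw [hs, hFB, hB y 0 b] at h3
      simp only [Ph_inl, Units.val_one, one_mul, Perm.one_apply, hFB] at h3
      have h4 := (Sum.inl.inj h3)
      exact (Prod.ext_iff.1 h4).1.symm
    have hk : ∀ k : ℕ, F ((k : ZMod p) * e b) b = F 0 b + (k : ZMod p) * e' (B 0 b) := by
      intro k
      induction k with
      | zero => simp
      | succ k ih =>
        have : (((k + 1 : ℕ) : ZMod p)) * e b = (k : ZMod p) * e b + e b := by
          push_cast
          ring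
        rw [this, hstep, ih]
        push_cast
        ring
    haveI : Fact p.Prime := ⟨hpp⟩
    have hE : e' (B 0 b) ≠ 0 := by
      intro hE0
      have h3 := hstep 0
      rw [hE0, add_zero, zero_add] at h3
      have h4 : g (Sum.inl (e b, b)) = g (Sum.inl (0, b)) := by
        rw [hFB, hFB, h3, hB (e b) 0 b]
      have h5 := g.injective h4
      simp only [Sum.inl.injEq, Prod.mk.injEq, and_true] at h5
      exact he0 h5
    refine ⟨Units.mk0 (e' (B 0 b) / e b) (div_ne_zero hE he0), fun y => ?_⟩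
    have hy := hk (y / e b).val
    rw [ZMod.natCast_zmod_val] at hy
    have e1 : y / e b * e b = y := div_mul_cancel₀ y he0
    rw [e1] at hy
    rw [hy, Units.val_mk0]
    field_simp
    ring
  choose d hd using hF
  refine ⟨d, F 0, π, ?_⟩
  ext q
  rcases q with ⟨y, b⟩ | a
  · rw [hFB, Ph_inl, hd b y, hB y 0 b, hπ]
  · rw [hinr a]
    simp

end Form

section Norm

variable {p : ℕ} [hp : Fact p.Prime] {X A : Type*}

/-- Affine elements of the right shape normalize the wreath product. -/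
theorem norm_step [Finite X] [Finite A] {Q : Subgroup (Perm X)} {π : Perm X} {d : X → (ZMod p)ˣ} (hπ : π ∈ Subgroup.normalizer (Q : Set (Perm X)))
    (hd : ∀ q ∈ Q, ∀ b, d (q b) = d b) : (Ph d (fun _ => 0) π : Perm (YY p X A)) ∈ Subgroup.normalizer ((StS (p := p) (A := A) Q : Subgroup _) : Set (Perm (YY p X A))) := by
  haveI : NeZero p := ⟨hp.out.ne_zero⟩
  haveI : Finite (YY p X A) := inferInstance
  refine Subgroup.mem_normalizer_fintype ?_
  rintro _ ⟨e, q, hq, rfl⟩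
  refine ⟨fun c => (d (π⁻¹ c) : ZMod p) * e (π⁻¹ c), π * q * π⁻¹, (Subgroup.mem_normalizer_iff.1 hπ q).1 hq, ?_⟩
  rw [mul_inv_eq_iff_eq_mul, Ph_mul, Ph_mul]
  congr 1
  · funext b
    simp [hd q hq]
  · funext b
    simp [hd q hq]
  · group

end Norm

section Top

variable {p : ℕ} [hp : Fact p.Prime] {X A : Type*}

theorem Ph_top_of_conj {Q : Subgroup (Perm X)} {d : X → (ZMod p)ˣ} {e : X → ZMod p} {π q : Perm X}
    (h : (Ph d e π * Ll q * (Ph d e π)⁻¹ : Perm (YY p X A)) ∈ StS (p := p) (A := A) Q) : π * q * π⁻¹ ∈ Q := by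
  obtain ⟨e', π', hπ', hs⟩ := h
  rw [mul_inv_eq_iff_eq_mul, Ph_mul, Ph_mul] at hs
  have h3 := (Ph_inj hs).2.2
  have h4 : π * q * π⁻¹ = π' := by
    rw [mul_inv_eq_iff_eq_mul]
    simpa using h3
  rwa [h4]

theorem Ph_pow_top (d : X → (ZMod p)ˣ) (e : X → ZMod p) (π : Perm X) (k : ℕ) :
    ∃ (d' : X → (ZMod p)ˣ) (e' : X → ZMod p), (Ph d e π : Perm (YY p X A)) ^ k = Ph d' e' (π ^ k) := by
  induction k with
  | zero =>
    exact ⟨fun _ => 1, fun _ => 0, by rw [pow_zero, pow_zero, Ph_one]⟩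
  | succ k ih =>
    obtain ⟨d', e', h⟩ := ih
    rw [pow_succ, h, Ph_mul, pow_succ]
    exact ⟨_, _, rfl⟩

theorem Ph_inv_top (d d' : X → (ZMod p)ˣ) (e e' : X → ZMod p) (π π' : Perm X)
    (h : (Ph d e π : Perm (YY p X A))⁻¹ = Ph d' e' π') : π' = π⁻¹ := by
  have h1 : (Ph d e π * Ph d' e' π' : Perm (YY p X A)) = 1 := by
    rw [← h, mul_inv_cancel]
  rw [Ph_mul, ← Ph_one (p := p) (X := X) (A := A)] at h1
  have h2 := (Ph_inj h1).2.2
  exact eq_inv_of_mul_eq_one_right h2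

/-- The property of having no odd elements in the normalizer. -/
def OddTriv {Z : Type*} (Q : Subgroup (Perm Z)) : Prop :=
  ∀ π ∈ Subgroup.normalizer (Q : Set (Perm Z)), ∀ r : ℕ, Odd r → π ^ r = 1 → π = 1

instance units_zmod2_subsingleton : Subsingleton ((ZMod 2)ˣ) := by
  refine ⟨fun a b => Units.ext ?_⟩
  have h : ∀ u : (ZMod 2)ˣ, (u : ZMod 2) = 1 := by
    intro u
    have h1 := u.ne_zero
    generalize (u : ZMod 2) = v at h1
    revert v
    decide
  rw [h a, h b]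

theorem odd_norm_trivial [Finite X] [Subsingleton A] {Q : Subgroup (Perm X)} {T : Subgroup (Perm (YY 2 X A))} (hTS : T ≤ StS Q)
    (hTL : ∀ q ∈ Q, (Ll q : Perm (YY 2 X A)) ∈ T)
    (h1 : ∀ b b', b ≠ b' → ∃ e : X → ZMod 2, Tt e ∈ T ∧ e b = 0 ∧ e b' ≠ 0)
    (h2 : ∀ b, ∃ e : X → ZMod 2, Tt e ∈ T ∧ e b ≠ 0) (hQ : OddTriv Q) :
    ∀ g ∈ Subgroup.normalizer (T : Set (Perm (YY 2 X A))), ∀ r : ℕ, Odd r → g ^ r = 1 → g = 1 := by
  intro g hg r hr hgr
  obtain ⟨d, e, π, rfl⟩ := N_form hTS h1 h2 hg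
  obtain ⟨d', e', π', hinv⟩ := N_form hTS h1 h2 (Subgroup.inv_mem _ hg)
  have hπ' := Ph_inv_top _ _ _ _ _ _ hinv
  subst hπ'
  have hnorm : π ∈ Subgroup.normalizer (Q : Set (Perm X)) := by
    refine mem_normalizer_of_conj (fun q hq => ?_) (fun q hq => ?_)
    · exact Ph_top_of_conj (hTS ((Subgroup.mem_normalizer_iff.1 hg _).1 (hTL q hq)))
    · have h3 := Subgroup.inv_mem _ hg
      have h4 := hTS ((Subgroup.mem_normalizer_iff.1 h3 _).1 (hTL q hq))
      rw [hinv] at h4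
      have h5 := Ph_top_of_conj h4
      simpa using h5
  have hπr : π ^ r = 1 := by
    obtain ⟨d'', e'', h3⟩ := Ph_pow_top (A := A) d e π r
    rw [hgr, ← Ph_one (p := 2) (X := X) (A := A)] at h3
    exact ((Ph_inj h3).2.2).symm
  have hπ1 := hQ π hnorm r hr hπr
  subst hπ1
  have hd1 : d = fun _ => 1 := Subsingleton.elim _ _
  subst hd1
  have h22 : (Tt e : Perm (YY 2 X A)) ^ 2 = 1 := Tt_pow_p e
  have h3 : orderOf (Tt e : Perm (YY 2 X A)) ∣ 1 := by
    have := Nat.dvd_gcd (orderOf_dvd_of_pow_eq_one h22) (orderOf_dvd_of_pow_eq_one hgr)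
    have hc : Nat.gcd 2 r = 1 := hr.coprime_two_left
    rwa [hc] at this
  exact orderOf_eq_one_iff.1 (Nat.dvd_one.1 h3)

theorem OddTriv_StS [Finite X] [Subsingleton A] {Q : Subgroup (Perm X)} (hQ : OddTriv Q) [Fintype X] [DecidableEq X] :
    OddTriv (StS (p := 2) (A := A) Q) := by
  intro g hg r hr hgr
  refine odd_norm_trivial le_rfl (fun q hq => Ll_mem hq) (fun b b' h => ⟨indK {b'}, Tt_mem _ _, ?_, ?_⟩) (fun b => ⟨indK {b}, Tt_mem _ _, ?_⟩) hQ g hg r hr hgr
  · simp [indK, h]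
  · simp [indK]
  · simp [indK]

end Top

end Cfsg.Agent.H25
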