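import Cfsg.Agent.Lib.H25.SimA4
set_option autoImplicit false
set_option linter.style.haveILetI false
set_option linter.unusedSectionVars false
set_option linter.unusedSimpArgs false
set_option linter.unusedVariables false

/-! The `p`-elements of the normalizer of the base group. -/

namespace Cfsg.Agent.H25

open Equiv

/-- The subgroup generated by `p`-elements of the normalizer. -/
def KK (p : ℕ) {G : Type*} [Group G] (R : Subgroup G) : Subgroup G :=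
  Subgroup.closure {h | h ∈ Subgroup.normalizer (R : Set G) ∧ ∃ k : ℕ, orderOf h = p ^ k}

section Gen
variable {p : ℕ} [hp : Fact p.Prime] {G : Type*} [Group G]

theorem order_of_pow_p {x : G} (h : x ^ p = 1) : ∃ k : ℕ, orderOf x = p ^ k := by
  have h1 := orderOf_dvd_of_pow_eq_one h
  rcases (Nat.dvd_prime hp.out).1 h1 with h2 | h2
  · exact ⟨0, by simpa using h2⟩
  · exact ⟨1, by simpa using h2⟩

theorem KK_of {R : Subgroup G} {x : G} (h : x ∈ Subgroup.normalizer (R : Set G)) (hx : x ^ p = 1) : x ∈ KK p R :=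
  Subgroup.subset_closure ⟨h, order_of_pow_p hx⟩

end Gen

section Sym
variable {p : ℕ} [hp : Fact p.Prime] {X : Type*} [Fintype X] [DecidableEq X]

/-- There is an element of order dividing `p` moving one given point to another. -/
theorem exists_pow_p_move (hX : p ≤ Fintype.card X) {b₀ b : X} (hne : b₀ ≠ b) :
    ∃ σ : Perm X, σ ^ p = 1 ∧ σ b₀ = b := by
  have hdvd : p ∣ Nat.card (Perm X) := by
    rw [Nat.card_eq_fintype_card, Fintype.card_perm]
    exact (hp.out.dvd_factorial).2 hX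
  obtain ⟨σ, hσ⟩ := exists_prime_orderOf_dvd_card' (G := Perm X) p hdvd
  have hσ1 : σ ≠ 1 := by
    rintro rfl
    rw [orderOf_one] at hσ
    exact hp.out.one_lt.ne hσ
  obtain ⟨a₁, ha₁⟩ : ∃ a, σ a ≠ a := by
    by_contra hcon
    push Not at hcon
    exact hσ1 (Equiv.ext hcon)
  -- a permutation taking `a₁, σ a₁` to `b₀, b`
  let a₂ := swap a₁ b₀ (σ a₁)
  have ha₂ : a₂ ≠ b₀ := by
    intro h
    have : swap a₁ b₀ (σ a₁) = swap a₁ b₀ a₁ := by
      rw [swap_apply_left]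
      exact h
    exact ha₁ ((swap a₁ b₀).injective this)
  let τ : Perm X := swap a₂ b * swap a₁ b₀
  have h1 : τ a₁ = b₀ := by
    show swap a₂ b (swap a₁ b₀ a₁) = b₀
    rw [swap_apply_left, swap_apply_of_ne_of_ne ha₂.symm hne]
  have h2 : τ (σ a₁) = b := by
    show swap a₂ b (swap a₁ b₀ (σ a₁)) = b
    exact swap_apply_left _ _
  refine ⟨τ * σ * τ⁻¹, ?_, ?_⟩
  · rw [conj_pow, ← hσ, pow_orderOf_eq_one]
    group
  · rw [Perm.mul_apply, Perm.mul_apply, ← h1]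
    simp [h2]

/-- The alternating group is generated by elements of order `p`. -/
theorem alt_le_closure (hp2 : p ≠ 2) (hX : p ≤ Fintype.card X) :
    alternatingGroup X ≤ Subgroup.closure {σ : Perm X | σ ^ p = 1} := by
  have hpp := hp.out
  have hodd : Odd p := hpp.odd_of_ne_two hp2
  have hdvd : p ∣ Nat.card (Perm X) := by
    rw [Nat.card_eq_fintype_card, Fintype.card_perm]
    exact (hp.out.dvd_factorial).2 hX
  obtain ⟨σ, hσ⟩ := exists_prime_orderOf_dvd_card' (G := Perm X) p hdvd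
  have hσp : σ ^ p = 1 := by rw [← hσ, pow_orderOf_eq_one]
  have hσ1 : σ ≠ 1 := by
    rintro rfl
    rw [orderOf_one] at hσ
    exact hp.out.one_lt.ne hσ
  obtain ⟨a₁, ha₁⟩ : ∃ a, σ a ≠ a := by
    by_contra hcon
    push Not at hcon
    exact hσ1 (Equiv.ext hcon)
  have h12 : a₁ ≠ σ a₁ := ha₁.symm
  have h23 : σ a₁ ≠ σ (σ a₁) := fun h => h12 (σ.injective h)
  have h13 : a₁ ≠ σ (σ a₁) := by
    intro h
    apply ha₁
    obtain ⟨k, hk⟩ := hodd
    have h3 : (σ ^ 2) a₁ = a₁ := by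
      rw [pow_two, Perm.mul_apply]
      exact h.symm
    have h4 := Perm.pow_apply_eq_self_of_apply_eq_self h3 k
    have h5 : (σ ^ p) a₁ = a₁ := by rw [hσp]; rfl
    rw [hk, pow_succ', Perm.mul_apply, pow_mul, ← Perm.mul_apply] at h5
    have h6 : (σ * (σ ^ 2) ^ k) a₁ = σ a₁ := by
      rw [Perm.mul_apply, h4]
    exact h6.symm.trans h5
  let s₀ : Perm X := swap a₁ (σ a₁)
  have hc3 : (s₀ * (σ * s₀ * σ⁻¹)).IsThreeCycle := by
    have e : s₀ * (σ * s₀ * σ⁻¹) = swap (σ a₁) a₁ * swap (σ a₁) (σ (σ a₁)) := by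
      show swap a₁ (σ a₁) * (σ * swap a₁ (σ a₁) * σ⁻¹) = _
      rw [← swap_apply_apply, swap_comm a₁ (σ a₁)]
    rw [e]
    exact Perm.isThreeCycle_swap_mul_swap_same h12.symm h23 h13
  have hs₀ : s₀⁻¹ = s₀ := swap_inv _ _
  rw [← Equiv.Perm.closure_three_cycles_eq_alternating]
  refine (Subgroup.closure_le _).2 fun τ hτ => ?_
  have hconj : IsConj (s₀ * (σ * s₀ * σ⁻¹)) τ := by
    rw [Perm.isConj_iff_cycleType_eq]
    exact hc3.trans (Set.mem_setOf_eq ▸ hτ).symm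
  obtain ⟨κ, hκ⟩ := _root_.isConj_iff.1 hconj
  have e : τ = (κ * s₀ * σ * (κ * s₀)⁻¹) * (κ * σ⁻¹ * κ⁻¹) := by
    rw [← hκ]
    have : s₀ * (σ * s₀ * σ⁻¹) = s₀ * σ * s₀⁻¹ * σ⁻¹ := by rw [hs₀]; group
    rw [this]
    group
  rw [e]
  refine Subgroup.mul_mem _ (Subgroup.subset_closure ?_) (Subgroup.subset_closure ?_)
  · show (κ * s₀ * σ * (κ * s₀)⁻¹) ^ p = 1
    rw [conj_pow, hσp]
    group
  · show (κ * σ⁻¹ * κ⁻¹) ^ p = 1
    rw [conj_pow, inv_pow, hσp]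
    group

end Sym

section KB
variable {p : ℕ} [hp : Fact p.Prime] {X A : Type*} [Fintype X] [DecidableEq X] [Fintype A] [DecidableEq A]

/-- The base group. -/
abbrev BB (p : ℕ) [Fact p.Prime] (X A : Type*) : Subgroup (Perm (YY p X A)) := StS (p := p) (A := A) (⊥ : Subgroup (Perm X))

theorem mem_BB {s : Perm (YY p X A)} : s ∈ BB p X A ↔ ∃ e : X → ZMod p, s = Tt e := by
  constructor
  · rintro ⟨e, π, hπ, rfl⟩
    rw [Subgroup.mem_bot.1 hπ]
    exact ⟨e, rfl⟩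
  · rintro ⟨e, rfl⟩
    exact Tt_mem _ _

instance finite_YY : Finite (YY p X A) := by
  haveI : NeZero p := ⟨hp.out.ne_zero⟩
  infer_instance

theorem Ll_norm_BB (σ : Perm X) : (Ll σ : Perm (YY p X A)) ∈ Subgroup.normalizer ((BB p X A : Subgroup _) : Set (Perm (YY p X A))) := by
  refine Subgroup.mem_normalizer_fintype ?_
  intro n hn
  obtain ⟨e, rfl⟩ := mem_BB.1 hn
  exact mem_BB.2 ⟨_, Ll_Tt σ e⟩

theorem Dd_norm_BB (d : X → (ZMod p)ˣ) : (Dd d : Perm (YY p X A)) ∈ Subgroup.normalizer ((BB p X A : Subgroup _) : Set (Perm (YY p X A))) := by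
  refine Subgroup.mem_normalizer_fintype ?_
  intro n hn
  obtain ⟨e, rfl⟩ := mem_BB.1 hn
  exact mem_BB.2 ⟨_, Dd_Tt d e⟩

theorem Ll_mem_KK {σ : Perm X} (hσ : σ ^ p = 1) : (Ll σ : Perm (YY p X A)) ∈ KK p (BB p X A) := by
  refine KK_of (Ll_norm_BB σ) ?_
  have : (LlH p X A σ) ^ p = 1 := by rw [← map_pow, hσ, map_one]
  exact this

theorem Tt_mem_KK (e : X → ZMod p) : (Tt e : Perm (YY p X A)) ∈ KK p (BB p X A) :=
  KK_of (Subgroup.le_normalizer (Tt_mem _ _)) (Tt_pow_p e)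

theorem Ll_alt_mem_KK (hp2 : p ≠ 2) (hX : p ≤ Fintype.card X) {π : Perm X} (hπ : π ∈ alternatingGroup X) :
    (Ll π : Perm (YY p X A)) ∈ KK p (BB p X A) := by
  have h1 := alt_le_closure hp2 hX hπ
  have h2 : LlH p X A π ∈ (Subgroup.closure {σ : Perm X | σ ^ p = 1}).map (LlH p X A) := ⟨π, h1, rfl⟩
  rw [MonoidHom.map_closure] at h2
  refine (Subgroup.closure_le _).2 ?_ h2
  rintro _ ⟨σ, hσ, rfl⟩
  exact Ll_mem_KK hσ

/-- The diagonal homomorphism. -/
def DdH (p : ℕ) [Fact p.Prime] (X A : Type*) : (X → (ZMod p)ˣ) →* Perm (YY p X A) where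
  toFun d := Dd d
  map_one' := Dd_one
  map_mul' a b := (Dd_mul a b).symm

@[simp] theorem DdH_apply (d : X → (ZMod p)ˣ) : DdH p X A d = Dd d := rfl

theorem mulSingle_comp (σ : Perm X) (b₀ : X) (u : (ZMod p)ˣ) : (Pi.mulSingle b₀ u : X → (ZMod p)ˣ) ∘ ⇑σ⁻¹ = Pi.mulSingle (σ b₀) u := by
  funext c
  by_cases h : c = σ b₀
  · subst h
    simp
  · have h2 : σ⁻¹ c ≠ b₀ := by
      intro h3
      apply h
      rw [← h3]
      simp
    show (Pi.mulSingle b₀ u : X → (ZMod p)ˣ) (σ⁻¹ c) = (Pi.mulSingle (σ b₀) u : X → (ZMod p)ˣ) c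
    rw [Pi.mulSingle_eq_of_ne h2, Pi.mulSingle_eq_of_ne h]

theorem Dd_pair_mem (hX : p ≤ Fintype.card X) {b₀ b : X} (hne : b₀ ≠ b) (u : (ZMod p)ˣ) :
    (Dd (Pi.mulSingle b u * Pi.mulSingle b₀ u⁻¹) : Perm (YY p X A)) ∈ KK p (BB p X A) := by
  obtain ⟨σ, hσ, hb⟩ := exists_pow_p_move hX hne
  have h1 := Ll_Dd (p := p) (A := A) σ (Pi.mulSingle b₀ u)
  rw [mulSingle_comp, hb] at h1
  have e : (Dd (Pi.mulSingle b u * Pi.mulSingle b₀ u⁻¹) : Perm (YY p X A)) =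
      Ll σ * (Dd (Pi.mulSingle b₀ u) * (Ll σ)⁻¹ * (Dd (Pi.mulSingle b₀ u))⁻¹) := by
    have h3 : (Dd (Pi.mulSingle b₀ u)⁻¹ : Perm (YY p X A)) = (Dd (Pi.mulSingle b₀ u))⁻¹ := map_inv (DdH p X A) _
    rw [← Dd_mul, ← h1, Pi.mulSingle_inv, h3]
    group
  rw [e]
  refine Subgroup.mul_mem _ (Ll_mem_KK hσ) (KK_of ?_ ?_)
  · exact Subgroup.mul_mem _ (Subgroup.mul_mem _ (Dd_norm_BB _) (Subgroup.inv_mem _ (Ll_norm_BB σ))) (Subgroup.inv_mem _ (Dd_norm_BB _))
  · rw [conj_pow, Ll_inv]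
    have : (LlH p X A σ⁻¹) ^ p = 1 := by rw [← map_pow, inv_pow, hσ, inv_one, map_one]
    have h3 : (Ll σ⁻¹ : Perm (YY p X A)) ^ p = 1 := this
    rw [h3]
    group

theorem Dd_mem_KK (hX : p ≤ Fintype.card X) {d : X → (ZMod p)ˣ} (hd : ∏ b, d b = 1) :
    (Dd d : Perm (YY p X A)) ∈ KK p (BB p X A) := by
  have hpos : 0 < Fintype.card X := lt_of_lt_of_le hp.out.pos hX
  obtain ⟨b₀⟩ := Fintype.card_pos_iff.1 hpos
  have e : d = ∏ b, (Pi.mulSingle b (d b) * Pi.mulSingle b₀ (d b)⁻¹) := by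
    rw [Finset.prod_mul_distrib, Finset.univ_prod_mulSingle]
    have h1 : ∏ b, (Pi.mulSingle b₀ (d b)⁻¹ : X → (ZMod p)ˣ) = Pi.mulSingle b₀ (∏ b, (d b)⁻¹) :=
      (map_prod (MonoidHom.mulSingle (fun _ : X => (ZMod p)ˣ) b₀) (fun b => (d b)⁻¹) Finset.univ).symm
    rw [h1, Finset.prod_inv_distrib, hd, inv_one, Pi.mulSingle_one, mul_one]
  have hfac : ∀ b, (Dd (Pi.mulSingle b (d b) * Pi.mulSingle b₀ (d b)⁻¹) : Perm (YY p X A)) ∈ KK p (BB p X A) := by
    intro b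
    by_cases h : b₀ = b
    · subst h
      rw [← Pi.mulSingle_mul, mul_inv_cancel, Pi.mulSingle_one, Dd_one]
      exact one_mem _
    · exact Dd_pair_mem hX h _
  have hs : ∀ s : Finset X, (Dd (∏ b ∈ s, (Pi.mulSingle b (d b) * Pi.mulSingle b₀ (d b)⁻¹)) : Perm (YY p X A)) ∈ KK p (BB p X A) := by
    intro s
    induction s using Finset.induction_on with
    | empty =>
      rw [Finset.prod_empty, Dd_one]
      exact one_mem _
    | insert b s hb ih =>
      rw [Finset.prod_insert hb, ← Dd_mul]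
      exact Subgroup.mul_mem _ (hfac b) ih
  rw [e]
  exact hs Finset.univ

theorem KK_le_alt (hp2 : p ≠ 2) {Z : Type*} [Fintype Z] [DecidableEq Z] (R : Subgroup (Perm Z)) : KK p R ≤ alternatingGroup Z := by
  refine (Subgroup.closure_le _).2 ?_
  rintro g ⟨-, k, hk⟩
  refine Perm.mem_alternatingGroup.2 (sign_odd_of_pow (r := p ^ k) ((hp.out.odd_of_ne_two hp2).pow) ?_)
  rw [← hk, pow_orderOf_eq_one]

/-- Affine elements of determinant one are generated by `p`-elements normalizing the base group. -/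
theorem Ph_mem_KK (hp2 : p ≠ 2) (hX : p ≤ Fintype.card X) {d : X → (ZMod p)ˣ} {e : X → ZMod p} {π : Perm X} (hd : ∏ b, d b = 1)
    (hg : (Ph d e π : Perm (YY p X A)) ∈ alternatingGroup (YY p X A)) : (Ph d e π : Perm (YY p X A)) ∈ KK p (BB p X A) := by
  rw [Ph_eq] at hg ⊢
  have h1 : (Tt e * Dd d : Perm (YY p X A)) ∈ KK p (BB p X A) := Subgroup.mul_mem _ (Tt_mem_KK e) (Dd_mem_KK hX hd)
  refine Subgroup.mul_mem _ (Ll_alt_mem_KK hp2 hX ?_) h1
  have h2 := (alternatingGroup (YY p X A)).mul_mem hg ((alternatingGroup (YY p X A)).inv_mem (KK_le_alt hp2 _ h1))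
  rw [mul_inv_cancel_right, Perm.mem_alternatingGroup, sign_Ll] at h2
  refine Perm.mem_alternatingGroup.2 ?_
  rcases Int.units_eq_one_or (Perm.sign π) with h3 | h3
  · exact h3
  · rw [h3, (hp.out.odd_of_ne_two hp2).neg_one_pow] at h2
    exact absurd h2 (by decide)

end KB

end Cfsg.Agent.H25
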