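import Cfsg.Agent.Lib.H25.SimA5
set_option autoImplicit false
set_option linter.style.haveILetI false
set_option linter.unusedSectionVars false
set_option linter.unusedSimpArgs false
set_option linter.unusedVariables false

/-! The element with prescribed determinant. -/

namespace Cfsg.Agent.H25

open Equiv

section Y3

variable {p : ℕ} [hp : Fact p.Prime] {X₂ A₂ A : Type*} [DecidableEq X₂]

/-- The triple level point set. -/
abbrev Y3 (p : ℕ) (X₂ A₂ A : Type*) := YY p (YY p X₂ A₂) A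

/-- Being in a block over `U`. -/
def InU (U : Finset X₂) : YY p X₂ A₂ → Prop
  | Sum.inl (_, w) => w ∈ U
  | Sum.inr _ => False

instance InU_dec (U : Finset X₂) : DecidablePred (InU (p := p) (A₂ := A₂) U) := fun b =>
  match b with
  | Sum.inl (_, w) => decidable_of_iff (w ∈ U) Iff.rfl
  | Sum.inr _ => isFalse (fun h => h)

@[simp] theorem InU_inl (U : Finset X₂) (x : ZMod p) (w : X₂) : InU (A₂ := A₂) U (Sum.inl (x, w)) ↔ w ∈ U := Iff.rfl
@[simp] theorem InU_inr (U : Finset X₂) (a : A₂) : InU (p := p) U (Sum.inr a) ↔ False := Iff.rfl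

/-- The shear function. -/
def eU (U : Finset X₂) (c : ZMod p) : YY p X₂ A₂ → ZMod p
  | Sum.inl (x, w) => if w ∈ U then c * x else 0
  | Sum.inr _ => 0

@[simp] theorem eU_inl (U : Finset X₂) (c x : ZMod p) (w : X₂) : eU (A₂ := A₂) U c (Sum.inl (x, w)) = if w ∈ U then c * x else 0 := rfl
@[simp] theorem eU_inr (U : Finset X₂) (c : ZMod p) (a : A₂) : eU U c (Sum.inr a) = 0 := rfl

/-- The lower shear. -/
def Lc (U : Finset X₂) (c : ZMod p) : Perm (Y3 p X₂ A₂ A) where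
  toFun q := match q with
    | Sum.inl (y, Sum.inl (x, w)) => if w ∈ U then Sum.inl (y, Sum.inl (x + c * y, w)) else Sum.inl (y, Sum.inl (x, w))
    | Sum.inl (y, Sum.inr a) => Sum.inl (y, Sum.inr a)
    | Sum.inr a => Sum.inr a
  invFun q := match q with
    | Sum.inl (y, Sum.inl (x, w)) => if w ∈ U then Sum.inl (y, Sum.inl (x - c * y, w)) else Sum.inl (y, Sum.inl (x, w))
    | Sum.inl (y, Sum.inr a) => Sum.inl (y, Sum.inr a)
    | Sum.inr a => Sum.inr a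
  left_inv := by
    rintro ((⟨y, ⟨x, w⟩ | a⟩) | a)
    · by_cases h : w ∈ U <;> simp [h]
    · rfl
    · rfl
  right_inv := by
    rintro ((⟨y, ⟨x, w⟩ | a⟩) | a)
    · by_cases h : w ∈ U <;> simp [h]
    · rfl
    · rfl

theorem Lc_in (U : Finset X₂) (c y x : ZMod p) {w : X₂} (h : w ∈ U) :
    (Lc U c : Perm (Y3 p X₂ A₂ A)) (Sum.inl (y, Sum.inl (x, w))) = Sum.inl (y, Sum.inl (x + c * y, w)) := by
  show (if w ∈ U then _ else _) = _
  rw [if_pos h]

theorem Lc_out (U : Finset X₂) (c y x : ZMod p) {w : X₂} (h : w ∉ U) :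
    (Lc U c : Perm (Y3 p X₂ A₂ A)) (Sum.inl (y, Sum.inl (x, w))) = Sum.inl (y, Sum.inl (x, w)) := by
  show (if w ∈ U then _ else _) = _
  rw [if_neg h]

@[simp] theorem Lc_inl_inr (U : Finset X₂) (c y : ZMod p) (a : A₂) :
    (Lc U c : Perm (Y3 p X₂ A₂ A)) (Sum.inl (y, Sum.inr a)) = Sum.inl (y, Sum.inr a) := rfl

@[simp] theorem Lc_inr (U : Finset X₂) (c : ZMod p) (a : A) :
    (Lc U c : Perm (Y3 p X₂ A₂ A)) (Sum.inr a) = Sum.inr a := rfl

theorem Lc_add (U : Finset X₂) (c c' : ZMod p) : (Lc U c * Lc U c' : Perm (Y3 p X₂ A₂ A)) = Lc U (c + c') := by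
  ext q
  rcases q with (⟨y, ⟨x, w⟩ | a⟩) | a
  · by_cases h : w ∈ U
    · rw [Perm.mul_apply, Lc_in _ _ _ _ h, Lc_in _ _ _ _ h, Lc_in _ _ _ _ h]
      congr 3
      ring
    · rw [Perm.mul_apply, Lc_out _ _ _ _ h, Lc_out _ _ _ _ h, Lc_out _ _ _ _ h]
  · rfl
  · rfl

theorem Lc_zero (U : Finset X₂) : (Lc U 0 : Perm (Y3 p X₂ A₂ A)) = 1 := by
  ext q
  rcases q with (⟨y, ⟨x, w⟩ | a⟩) | a
  · by_cases h : w ∈ U
    · rw [Lc_in _ _ _ _ h]
      simp
    · rw [Lc_out _ _ _ _ h]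
      simp
  · rfl
  · rfl

theorem Lc_pow_p (U : Finset X₂) (c : ZMod p) : (Lc U c : Perm (Y3 p X₂ A₂ A)) ^ p = 1 := by
  have h : ∀ k : ℕ, (Lc U c : Perm (Y3 p X₂ A₂ A)) ^ k = Lc U ((k : ZMod p) * c) := by
    intro k
    induction k with
    | zero => simp [Lc_zero]
    | succ k ih =>
      rw [pow_succ, ih, Lc_add]
      push_cast
      congr 1
      ring
  rw [h]
  simp [Lc_zero]

/-- The upper shear. -/
abbrev Uc (U : Finset X₂) (c : ZMod p) : Perm (Y3 p X₂ A₂ A) := Tt (eU U c)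

/-- The group of translations of the blocks. -/
def R3 (U : Finset X₂) : Subgroup (Perm (Y3 p X₂ A₂ A)) where
  carrier := {s | ∃ (e : YY p X₂ A₂ → ZMod p) (e₂ : X₂ → ZMod p), (∀ w, w ∉ U → e₂ w = 0) ∧
    (∀ w, w ∈ U → ∀ x x', e (Sum.inl (x, w)) = e (Sum.inl (x', w))) ∧ s = Ph (fun _ => 1) e (Tt e₂)}
  mul_mem' := by
    rintro _ _ ⟨e, e₂, h1, h2, rfl⟩ ⟨e', e₂', h1', h2', rfl⟩
    refine ⟨fun b => e' b + e ((Tt e₂' : Perm (YY p X₂ A₂)) b), e₂ + e₂', ?_, ?_, ?_⟩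
    · intro w hw
      simp [h1 w hw, h1' w hw]
    · intro w hw x x'
      simp only [Ph_inl, Units.val_one, one_mul, Perm.one_apply]
      rw [h2' w hw x x', h2 w hw (x + e₂' w) (x' + e₂' w)]
    · rw [Ph_mul, Tt_mul]
      congr 1
      · funext b
        simp
      · funext b
        simp
  one_mem' := ⟨0, 0, fun _ _ => rfl, fun _ _ _ _ => rfl, by
    rw [Tt_zero]
    exact Ph_one.symm⟩
  inv_mem' := by
    rintro _ ⟨e, e₂, h1, h2, rfl⟩
    refine ⟨fun b => -e ((Tt (-e₂) : Perm (YY p X₂ A₂)) b), -e₂, ?_, ?_, ?_⟩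
    · intro w hw
      simp [h1 w hw]
    · intro w hw x x'
      simp only [Ph_inl, Units.val_one, one_mul, Perm.one_apply]
      rw [h2 w hw (x + (-e₂) w) (x' + (-e₂) w)]
    · rw [inv_eq_iff_mul_eq_one, Ph_mul, ← Ph_one (p := p) (X := YY p X₂ A₂) (A := A), Tt_mul, add_neg_cancel, Tt_zero]
      congr 1
      · funext b
        simp
      · funext b
        rw [← Tt_inv]
        simp

theorem R3_le_StS (U : Finset X₂) (W : Subgroup (Perm X₂)) :
    R3 (p := p) (A₂ := A₂) (A := A) U ≤ StS (StS W) := by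
  rintro _ ⟨e, e₂, -, -, rfl⟩
  exact ⟨e, _, Tt_mem _ _, rfl⟩

variable [Fintype X₂] [Fintype A₂] [DecidableEq A₂] [Fintype A] [DecidableEq A]

instance finite_Y3 : Finite (Y3 p X₂ A₂ A) := inferInstance

theorem Uc_norm (U : Finset X₂) (c : ZMod p) :
    (Uc U c : Perm (Y3 p X₂ A₂ A)) ∈ Subgroup.normalizer ((R3 U : Subgroup (Perm (Y3 p X₂ A₂ A))) : Set (Perm (Y3 p X₂ A₂ A))) := by
  refine Subgroup.mem_normalizer_fintype ?_
  rintro _ ⟨e, e₂, h1, h2, rfl⟩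
  refine ⟨fun b => e b + eU U c ((Tt e₂ : Perm (YY p X₂ A₂)) b) - eU U c b, e₂, h1, ?_, ?_⟩
  · intro w hw x x'
    simp only [Ph_inl, Units.val_one, one_mul, Perm.one_apply, eU_inl, if_pos hw]
    rw [h2 w hw x x']
    ring
  · rw [mul_inv_eq_iff_eq_mul, Ph_mul, Ph_mul]
    congr 1
    · funext b
      simp

theorem Lc_norm (U : Finset X₂) (c : ZMod p) :
    (Lc U c : Perm (Y3 p X₂ A₂ A)) ∈ Subgroup.normalizer ((R3 U : Subgroup (Perm (Y3 p X₂ A₂ A))) : Set (Perm (Y3 p X₂ A₂ A))) := by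
  refine Subgroup.mem_normalizer_fintype ?_
  rintro _ ⟨e, e₂, h1, h2, rfl⟩
  refine ⟨e, fun w => e₂ w + (if w ∈ U then c * e (Sum.inl (0, w)) else 0), ?_, h2, ?_⟩
  · intro w hw
    simp [h1 w hw, hw]
  · rw [mul_inv_eq_iff_eq_mul]
    ext q
    rcases q with (⟨y, ⟨x, w⟩ | a⟩) | a
    · by_cases hw : w ∈ U
      · rw [Perm.mul_apply, Perm.mul_apply, Lc_in _ _ _ _ hw]
        simp only [Ph_inl, Units.val_one, one_mul, Perm.one_apply, if_pos hw]
        rw [Lc_in _ _ _ _ hw, h2 w hw (x + c * y) x, h2 w hw 0 x]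
        congr 3
        ring
      · rw [Perm.mul_apply, Perm.mul_apply, Lc_out _ _ _ _ hw]
        simp only [Ph_inl, Units.val_one, one_mul, Perm.one_apply, if_neg hw, h1 w hw, add_zero]
        rw [Lc_out _ _ _ _ hw]
    · simp
    · simp

end Y3

end Cfsg.Agent.H25
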