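import Cfsg.Agent.Lib.H25.SimA6
set_option autoImplicit false
set_option linter.style.haveILetI false
set_option linter.unusedSectionVars false
set_option linter.unusedSimpArgs false
set_option linter.unusedVariables false

/-! The group `R3` is self-centralizing, and the element with prescribed determinant. -/

namespace Cfsg.Agent.H25

open Equiv

section Aux
variable {p : ℕ} [hp : Fact p.Prime]

theorem add_one_form (f : ZMod p → ZMod p) (h : ∀ y, f (y + 1) = f y + 1) : ∀ y, f y = y + f 0 := by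
  haveI : NeZero p := ⟨hp.out.ne_zero⟩
  have hk : ∀ k : ℕ, f (k : ZMod p) = (k : ZMod p) + f 0 := by
    intro k
    induction k with
    | zero => simp
    | succ k ih =>
      push_cast
      rw [h, ih]
      ring
  intro y
  have := hk y.val
  rwa [ZMod.natCast_zmod_val] at this

theorem const_form {T : Type*} (f : ZMod p → T) (h : ∀ y, f (y + 1) = f y) : ∀ y, f y = f 0 := by
  haveI : NeZero p := ⟨hp.out.ne_zero⟩
  have hk : ∀ k : ℕ, f (k : ZMod p) = f 0 := by
    intro k
    induction k with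
    | zero => simp
    | succ k ih =>
      push_cast
      rw [h, ih]
  intro y
  have := hk y.val
  rwa [ZMod.natCast_zmod_val] at this

theorem one_ne_zero_zmod : (1 : ZMod p) ≠ 0 := one_ne_zero

end Aux

section Y3

variable {p : ℕ} [hp : Fact p.Prime] {X₂ A₂ A : Type*} [DecidableEq X₂]
variable [Fintype X₂] [Fintype A₂] [DecidableEq A₂] [Fintype A] [DecidableEq A]

theorem Tt_mem_R3 (U : Finset X₂) {e : YY p X₂ A₂ → ZMod p} (h2 : ∀ w, w ∈ U → ∀ x x', e (Sum.inl (x, w)) = e (Sum.inl (x', w))) :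
    (Tt e : Perm (Y3 p X₂ A₂ A)) ∈ R3 U :=
  ⟨e, 0, fun _ _ => rfl, h2, by rw [Tt_zero]⟩

/-- The block indicator. -/
def eB (w : X₂) : YY p X₂ A₂ → ZMod p
  | Sum.inl (_, w') => if w' = w then 1 else 0
  | Sum.inr _ => 0

/-- The group `R3` is self-centralizing. -/
theorem R3_selfcent [Subsingleton A] (U : Finset X₂) {g : Perm (Y3 p X₂ A₂ A)} (hg : ∀ r ∈ R3 (p := p) (A₂ := A₂) (A := A) U, g * r = r * g) :
    g ∈ R3 (p := p) (A₂ := A₂) (A := A) U := by
  classical
  have hcomm : ∀ r ∈ R3 (p := p) (A₂ := A₂) (A := A) U, ∀ q, g (r q) = r (g q) := by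
    intro r hr q
    have := congrArg (fun f : Perm (Y3 p X₂ A₂ A) => f q) (hg r hr)
    simpa using this
  have hone : (Tt (fun _ => 1) : Perm (Y3 p X₂ A₂ A)) ∈ R3 U := Tt_mem_R3 U (fun _ _ _ _ => rfl)
  have hinr : ∀ a : A, g (Sum.inr a) = Sum.inr a := by
    intro a
    rcases hq : g (Sum.inr a) with ⟨y, b⟩ | a'
    · exfalso
      have h3 := hcomm _ hone (Sum.inr a)
      rw [Ph_inr, hq, Ph_inl] at h3
      have h4 := (Prod.ext_iff.1 (Sum.inl.inj h3)).1
      simp at h4
    · rw [Subsingleton.elim a' a]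
  have hinl : ∀ (y : ZMod p) (b : YY p X₂ A₂), ∃ (u : ZMod p) (c : YY p X₂ A₂), g (Sum.inl (y, b)) = Sum.inl (u, c) := by
    intro y b
    rcases hq : g (Sum.inl (y, b)) with ⟨u, c⟩ | a'
    · exact ⟨u, c, rfl⟩
    · exfalso
      rw [← hinr a'] at hq
      simpa using g.injective hq
  choose F B hFB using hinl
  have hstep : ∀ y b, g (Sum.inl (y + 1, b)) = (Tt (fun _ => 1) : Perm (Y3 p X₂ A₂ A)) (g (Sum.inl (y, b))) := by
    intro y b
    have := hcomm _ hone (Sum.inl (y, b))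
    simpa using this
  have hF1 : ∀ b y, F (y + 1) b = F y b + 1 := by
    intro b y
    have h3 := hstep y b
    rw [hFB, hFB] at h3
    simp only [Ph_inl, Units.val_one, one_mul, Perm.one_apply] at h3
    exact (Prod.ext_iff.1 (Sum.inl.inj h3)).1
  have hB1 : ∀ b y, B (y + 1) b = B y b := by
    intro b y
    have h3 := hstep y b
    rw [hFB, hFB] at h3
    simp only [Ph_inl, Units.val_one, one_mul, Perm.one_apply] at h3
    exact (Prod.ext_iff.1 (Sum.inl.inj h3)).2
  have hF : ∀ y b, F y b = y + F 0 b := fun y b => add_one_form (fun y => F y b) (hF1 b) y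
  have hB : ∀ y b, B y b = B 0 b := fun y b => const_form (fun y => B y b) (hB1 b) y
  -- the form
  have hform : ∀ y b, g (Sum.inl (y, b)) = Sum.inl (y + F 0 b, B 0 b) := by
    intro y b
    rw [hFB, hF, hB]
  -- translations with nonzero value at `b` stay nonzero
  have hnz : ∀ e : YY p X₂ A₂ → ZMod p, (∀ w, w ∈ U → ∀ x x', e (Sum.inl (x, w)) = e (Sum.inl (x', w))) →
      ∀ b, e b ≠ 0 → e (B 0 b) = e b := by
    intro e he b heb
    have h3 := hcomm _ (Tt_mem_R3 U he) (Sum.inl (0, b))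
    simp only [Ph_inl, Units.val_one, one_mul, Perm.one_apply, zero_add, hform] at h3
    have h4 : e b + F 0 b = F 0 b + e (B 0 b) := (Prod.ext_iff.1 (Sum.inl.inj h3)).1
    rw [add_comm] at h4
    exact (add_left_cancel h4).symm
  have hout : ∀ b, ¬ InU U b → B 0 b = b := by
    intro b hb
    by_contra hne
    have h3 := hnz (indK {b}) (by
      intro w hw x x'
      have h1 : (Sum.inl (x, w) : YY p X₂ A₂) ≠ b := by
        rintro rfl
        exact hb hw
      have h2 : (Sum.inl (x', w) : YY p X₂ A₂) ≠ b := by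
        rintro rfl
        exact hb hw
      simp [indK, h1, h2]) b (by simp [indK])
    simp [indK, hne] at h3
  have hin : ∀ x w, w ∈ U → ∃ x', B 0 (Sum.inl (x, w)) = Sum.inl (x', w) := by
    intro x w hw
    have h3 := hnz (eB w) (by
      intro w' hw' x x'
      rfl) (Sum.inl (x, w)) (by simp [eB])
    rcases hq : B 0 (Sum.inl (x, w)) with ⟨x', w'⟩ | a
    · rw [hq] at h3
      by_cases hww : w' = w
      · rw [hww]
        exact ⟨x', rfl⟩
      · simp [eB, hww] at h3
    · rw [hq] at h3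
      simp [eB] at h3
  choose! XF hXF using hin
  -- the shift in the second coordinate
  have hTw : ∀ w, w ∈ U → (Ph (fun _ => 1) 0 (Tt (indK {w})) : Perm (Y3 p X₂ A₂ A)) ∈ R3 U := by
    intro w hw
    refine ⟨0, indK {w}, ?_, fun _ _ _ _ => rfl, rfl⟩
    intro w' hw'
    have : w' ≠ w := by
      rintro rfl
      exact hw' hw
    simp [indK, this]
  have hblock : ∀ w, w ∈ U → ∀ x, F 0 (Sum.inl (x + 1, w)) = F 0 (Sum.inl (x, w)) ∧ XF (x + 1) w = XF x w + 1 := by
    intro w hw x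
    have h3 := hcomm _ (hTw w hw) (Sum.inl (0, Sum.inl (x, w)))
    simp only [Ph_inl, Units.val_one, one_mul, Perm.one_apply, zero_add, hform, mul_zero, add_zero, Pi.zero_apply] at h3
    simp only [indK, Finset.mem_singleton, if_true] at h3
    rw [hXF x w hw, hXF (x + 1) w hw] at h3
    simp only [Ph_inl, Units.val_one, one_mul, Perm.one_apply, add_zero, Pi.zero_apply, indK, Finset.mem_singleton, if_true] at h3
    have h4 := Sum.inl.inj h3
    have h5 := (Prod.ext_iff.1 h4).1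
    have h6 := Sum.inl.inj (Prod.ext_iff.1 h4).2
    exact ⟨h5, (Prod.ext_iff.1 h6).1⟩
  refine ⟨F 0, fun w => if w ∈ U then XF 0 w else 0, ?_, ?_, ?_⟩
  · intro w hw
    simp [hw]
  · intro w hw x x'
    have h3 := const_form (fun x => F 0 (Sum.inl (x, w))) (fun x => (hblock w hw x).1)
    exact (h3 x).trans (h3 x').symm
  · ext q
    rcases q with ⟨y, ⟨x, w⟩ | a⟩ | a
    · rw [hform, Ph_inl]
      by_cases hw : w ∈ U
      · have h3 : XF x w = x + XF 0 w := add_one_form (fun x => XF x w) (fun x => (hblock w hw x).2) x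
        rw [hXF x w hw, h3]
        simp [hw, add_comm]
      · have h3 : ¬ InU U (Sum.inl (x, w) : YY p X₂ A₂) := hw
        rw [hout _ h3]
        simp [hw, add_comm]
    · have h3 : ¬ InU U (Sum.inr a : YY p X₂ A₂) := fun h => h
      rw [hform, Ph_inl, hout _ h3]
      simp [add_comm]
    · rw [hinr]
      simp

/-- The first level diagonal. -/
def dU (U : Finset X₂) (β : (ZMod p)ˣ) : YY p X₂ A₂ → (ZMod p)ˣ := fun b => if InU U b then β else 1

/-- The second level diagonal. -/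
def d2U (U : Finset X₂) (β : (ZMod p)ˣ) : X₂ → (ZMod p)ˣ := fun w => if w ∈ U then β⁻¹ else 1

/-- The element with prescribed determinant. -/
def G0 (U : Finset X₂) (β : (ZMod p)ˣ) : Perm (Y3 p X₂ A₂ A) :=
  Ph (dU U β) (fun _ => 0) (Ph (d2U U β) (fun _ => 0) 1)

theorem G0_eq (U : Finset X₂) (β : (ZMod p)ˣ) :
    (G0 U β : Perm (Y3 p X₂ A₂ A)) = Uc U ((β : ZMod p) - 1) * Lc U 1 * Uc U (((β⁻¹ : (ZMod p)ˣ) : ZMod p) - 1) * Lc U (-(β : ZMod p)) := by
  have hb : (β : ZMod p) * ((β⁻¹ : (ZMod p)ˣ) : ZMod p) = 1 := Units.mul_inv β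
  ext q
  rcases q with (⟨y, ⟨x, w⟩ | a⟩) | a
  · by_cases hw : w ∈ U
    · rw [Perm.mul_apply, Perm.mul_apply, Perm.mul_apply, Lc_in _ _ _ _ hw]
      simp only [Ph_inl, Units.val_one, one_mul, Perm.one_apply, eU_inl, if_pos hw]
      rw [Lc_in _ _ _ _ hw]
      simp only [Ph_inl, Units.val_one, one_mul, Perm.one_apply, eU_inl, if_pos hw, G0, dU, d2U, InU_inl, add_zero, Sum.inl.injEq, Prod.mk.injEq, and_true]
      constructor
      · generalize (β : ZMod p) = t at hb
        generalize ((β⁻¹ : (ZMod p)ˣ) : ZMod p) = t' at hb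
        linear_combination (-(x - t * y)) * hb
      · generalize (β : ZMod p) = t at hb
        generalize ((β⁻¹ : (ZMod p)ˣ) : ZMod p) = t' at hb
        linear_combination y * hb
    · rw [Perm.mul_apply, Perm.mul_apply, Perm.mul_apply, Lc_out _ _ _ _ hw]
      simp only [Ph_inl, Units.val_one, one_mul, Perm.one_apply, eU_inl, if_neg hw, add_zero]
      rw [Lc_out _ _ _ _ hw]
      simp [G0, dU, d2U, hw]
  · rw [Perm.mul_apply, Perm.mul_apply, Perm.mul_apply, Lc_inl_inr]
    simp only [Ph_inl, Units.val_one, one_mul, Perm.one_apply, eU_inr, add_zero]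
    rw [Lc_inl_inr]
    simp only [Ph_inl, Units.val_one, one_mul, Perm.one_apply, eU_inr, add_zero, G0, dU, InU_inr, if_false, Ph_inr]
  · rw [Perm.mul_apply, Perm.mul_apply, Perm.mul_apply, Lc_inr]
    simp only [Ph_inr, Lc_inr, G0]

theorem G0_mem_KK (hp2 : p ≠ 2) (U : Finset X₂) (β : (ZMod p)ˣ) :
    (G0 U β : Perm (Y3 p X₂ A₂ A)) ∈ KK p (R3 (p := p) (A₂ := A₂) (A := A) U) := by
  rw [G0_eq]
  exact Subgroup.mul_mem _ (Subgroup.mul_mem _ (Subgroup.mul_mem _ (KK_of (Uc_norm U _) (Tt_pow_p _))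
    (KK_of (Lc_norm U _) (Lc_pow_p U _))) (KK_of (Uc_norm U _) (Tt_pow_p _))) (KK_of (Lc_norm U _) (Lc_pow_p U _))

theorem units_pow_p_pow (β : (ZMod p)ˣ) (n : ℕ) : β ^ (p ^ n) = β := by
  induction n with
  | zero => simp
  | succ n ih =>
    rw [pow_succ, pow_mul, ih]
    apply Units.ext
    rw [Units.val_pow_eq_pow_val]
    exact ZMod.pow_card _

theorem prod_dU (U : Finset X₂) (β : (ZMod p)ˣ) {k : ℕ} (hU : U.card = p ^ k) : ∏ b, dU (A₂ := A₂) U β b = β := by
  classical
  haveI : NeZero p := ⟨hp.out.ne_zero⟩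
  have hf : (Finset.univ.filter fun b : YY p X₂ A₂ => InU U b) = ((Finset.univ : Finset (ZMod p)) ×ˢ U).map ⟨Sum.inl, Sum.inl_injective⟩ := by
    ext q
    rcases q with ⟨x, w⟩ | a
    · simp
    · simp
  have h1 : ∏ b, dU (A₂ := A₂) U β b = β ^ (Finset.univ.filter fun b : YY p X₂ A₂ => InU U b).card := by
    simp only [dU]
    rw [Finset.prod_ite, Finset.prod_const, Finset.prod_const_one, mul_one]
  rw [h1, hf, Finset.card_map, Finset.card_product, Finset.card_univ, ZMod.card, hU, ← pow_succ']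
  exact units_pow_p_pow β (k + 1)

theorem G0_norm (U : Finset X₂) (β : (ZMod p)ˣ) {W : Subgroup (Perm X₂)} (hW : ∀ q ∈ W, ∀ w, q w ∈ U ↔ w ∈ U) :
    (G0 U β : Perm (Y3 p X₂ A₂ A)) ∈ Subgroup.normalizer ((StS (p := p) (A := A) (StS (p := p) (A := A₂) W) : Subgroup (Perm (Y3 p X₂ A₂ A))) : Set (Perm (Y3 p X₂ A₂ A))) := by
  refine norm_step (norm_step (Subgroup.one_mem _) ?_) ?_
  · intro q hq w
    simp [d2U, hW q hq w]
  · rintro _ ⟨e, τ, hτ, rfl⟩ b
    rcases b with ⟨x, w⟩ | a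
    · simp [dU, hW τ hτ w]
    · simp [dU]

end Y3

end Cfsg.Agent.H25
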