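import Cfsg.Agent.Lib.H25.SimA7
set_option autoImplicit false
set_option linter.style.haveILetI false
set_option linter.unusedSectionVars false
set_option linter.unusedSimpArgs false
set_option linter.unusedVariables false

/-! The generation statements in alternating groups. -/

namespace Cfsg.Agent.H25

open Equiv

section Lift
variable {Z : Type*} [Fintype Z] [DecidableEq Z]

theorem mem_subgroupOf_norm (S' : Subgroup (Perm Z)) {h : Perm Z} (hN : h ∈ Subgroup.normalizer (S' : Set (Perm Z)))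
    (hh : h ∈ alternatingGroup Z) :
    (⟨h, hh⟩ : alternatingGroup Z) ∈ Subgroup.normalizer ((S'.subgroupOf (alternatingGroup Z) : Subgroup (alternatingGroup Z)) : Set (alternatingGroup Z)) := by
  refine Subgroup.mem_normalizer_iff.2 fun y => ?_
  have h1 := Subgroup.mem_normalizer_iff.1 hN (y : Perm Z)
  rw [Subgroup.mem_subgroupOf, Subgroup.mem_subgroupOf]
  exact h1

theorem norm_of_subgroupOf (S' : Subgroup (Perm Z)) {g : alternatingGroup Z}
    (hg : g ∈ Subgroup.normalizer ((S'.subgroupOf (alternatingGroup Z) : Subgroup (alternatingGroup Z)) : Set (alternatingGroup Z))) :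
    (g : Perm Z) ∈ Subgroup.normalizer ((S' ⊓ alternatingGroup Z : Subgroup (Perm Z)) : Set (Perm Z)) := by
  refine Subgroup.mem_normalizer_fintype ?_
  rintro n ⟨hn1, hn2⟩
  have h1 : (⟨n, hn2⟩ : alternatingGroup Z) ∈ S'.subgroupOf (alternatingGroup Z) := Subgroup.mem_subgroupOf.2 hn1
  have h2 := (Subgroup.mem_normalizer_iff.1 hg _).1 h1
  rw [Subgroup.mem_subgroupOf] at h2
  refine ⟨h2, ?_⟩
  exact (g * ⟨n, hn2⟩ * g⁻¹ : alternatingGroup Z).2

variable {p : ℕ} [hp : Fact p.Prime]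

theorem KK_lift (hp2 : p ≠ 2) (R' : Subgroup (Perm Z)) {x : Perm Z} (hx : x ∈ KK p R') :
    ∃ hxa : x ∈ alternatingGroup Z, (⟨x, hxa⟩ : alternatingGroup Z) ∈ KK p (R'.subgroupOf (alternatingGroup Z)) := by
  induction hx using Subgroup.closure_induction with
  | mem x hx =>
    have hxa : x ∈ alternatingGroup Z := KK_le_alt hp2 R' (Subgroup.subset_closure hx)
    refine ⟨hxa, Subgroup.subset_closure ⟨mem_subgroupOf_norm R' hx.1 hxa, ?_⟩⟩
    obtain ⟨k, hk⟩ := hx.2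
    exact ⟨k, by rw [Subgroup.orderOf_mk, hk]⟩
  | one => exact ⟨one_mem _, one_mem _⟩
  | mul x y _ _ hx hy =>
    obtain ⟨h1, h2⟩ := hx
    obtain ⟨h3, h4⟩ := hy
    exact ⟨mul_mem h1 h3, mul_mem h2 h4⟩
  | inv x _ hx =>
    obtain ⟨h1, h2⟩ := hx
    exact ⟨inv_mem h1, inv_mem h2⟩

theorem selfcent_lift {R' : Subgroup (Perm Z)} (hR : R' ≤ alternatingGroup Z) (hc : ∀ g : Perm Z, (∀ r ∈ R', g * r = r * g) → g ∈ R') :
    ∀ g : alternatingGroup Z, (∀ r ∈ R'.subgroupOf (alternatingGroup Z), g * r = r * g) → g ∈ R'.subgroupOf (alternatingGroup Z) := by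
  intro g hg
  rw [Subgroup.mem_subgroupOf]
  refine hc _ fun r hr => ?_
  have h1 := hg ⟨r, hR hr⟩ (Subgroup.mem_subgroupOf.2 hr)
  exact congrArg Subtype.val h1

theorem GGen2_lift (hp2 : p ≠ 2) {S' R' : Subgroup (Perm Z)} (hRS : R' ≤ S') (hR : R' ≤ alternatingGroup Z)
    (hc : ∀ g : Perm Z, (∀ r ∈ R', g * r = r * g) → g ∈ R') {x : Perm Z} (hx : x ∈ KK p R')
    (hxN : x ∈ Subgroup.normalizer (S' : Set (Perm Z))) :
    ∃ hxa : x ∈ alternatingGroup Z, (⟨x, hxa⟩ : alternatingGroup Z) ∈ GGen2 p (S'.subgroupOf (alternatingGroup Z)) := by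
  obtain ⟨hxa, hK⟩ := KK_lift hp2 R' hx
  refine ⟨hxa, Or.inr ⟨mem_subgroupOf_norm S' hxN hxa, R'.subgroupOf (alternatingGroup Z), ?_, selfcent_lift hR hc, hK⟩⟩
  intro y hy
  exact Subgroup.mem_subgroupOf.2 (hRS (Subgroup.mem_subgroupOf.1 hy))

end Lift

section Main

variable {p : ℕ} [hp : Fact p.Prime] {X A : Type*} [Fintype X] [DecidableEq X] [Fintype A] [DecidableEq A]

theorem BB_selfcent [Subsingleton A] {g : Perm (YY p X A)} (hg : ∀ r ∈ BB p X A, g * r = r * g) : g ∈ BB p X A := by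
  have hN : g ∈ Subgroup.normalizer ((BB p X A : Subgroup _) : Set (Perm (YY p X A))) := by
    refine Subgroup.mem_normalizer_fintype fun n hn => ?_
    have : g * n * g⁻¹ = n := by
      rw [hg n hn]
      group
    rwa [this]
  obtain ⟨d, e, π, rfl⟩ := N_form (Q := ⊥) le_rfl (fun b b' h => ⟨indK {b'}, Tt_mem _ _, by simp [indK, h], by simp [indK]⟩)
    (fun b => ⟨indK {b}, Tt_mem _ _, by simp [indK]⟩) hN
  have hb : ∀ b, (d b : ZMod p) = (indK {b} : X → ZMod p) (π b) ∧ True := by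
    intro b
    have h1 := congrArg (fun f : Perm (YY p X A) => f (Sum.inl (0, b))) (hg _ (Tt_mem _ (indK {b})))
    simp only [Perm.mul_apply, Ph_inl, Units.val_one, one_mul, Perm.one_apply, zero_add, mul_zero] at h1
    have h2 := (Prod.ext_iff.1 (Sum.inl.inj h1)).1
    simp only at h2
    have h3 : (indK {b} : X → ZMod p) b = 1 := by simp [indK]
    rw [h3, mul_one, add_comm] at h2
    exact ⟨add_left_cancel h2, trivial⟩
  have hπ : ∀ b, π b = b := by
    intro b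
    by_contra hne
    have h1 := (hb b).1
    have h2 : (indK {b} : X → ZMod p) (π b) = 0 := by simp [indK, hne]
    rw [h2] at h1
    exact (d b).ne_zero h1
  have hd : ∀ b, d b = 1 := by
    intro b
    apply Units.ext
    rw [(hb b).1, hπ b]
    simp [indK]
  have e1 : π = 1 := Equiv.ext hπ
  have e2 : d = fun _ => 1 := funext hd
  subst e1 e2
  exact Tt_mem _ _

theorem StS_le_alt (hp2 : p ≠ 2) {Q : Subgroup (Perm X)} (hQ : IsPGroup p Q) : StS (p := p) (A := A) Q ≤ alternatingGroup (YY p X A) := by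
  intro s hs
  obtain ⟨k, hk⟩ := (IsPGroup_StS hQ) ⟨s, hs⟩
  have h1 : s ^ p ^ k = 1 := congrArg Subtype.val hk
  exact Perm.mem_alternatingGroup.2 (sign_odd_of_pow (hp.out.odd_of_ne_two hp2).pow h1)

theorem sep1 {Q : Subgroup (Perm X)} (b b' : X) (h : b ≠ b') : ∃ e : X → ZMod p, (Tt e : Perm (YY p X A)) ∈ StS Q ∧ e b = 0 ∧ e b' ≠ 0 :=
  ⟨indK {b'}, Tt_mem _ _, by simp [indK, h], by simp [indK]⟩

theorem sep2 {Q : Subgroup (Perm X)} (b : X) : ∃ e : X → ZMod p, (Tt e : Perm (YY p X A)) ∈ StS Q ∧ e b ≠ 0 :=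
  ⟨indK {b}, Tt_mem _ _, by simp [indK]⟩

end Main

section Odd

variable {p : ℕ} [hp : Fact p.Prime] {X₂ A₂ A : Type*} [DecidableEq X₂]
variable [Fintype X₂] [Fintype A₂] [DecidableEq A₂] [Fintype A] [DecidableEq A]

/-- The generation statement for odd `p`. -/
theorem GCb2_odd [Subsingleton A] (hp2 : p ≠ 2) (hX : p ≤ Fintype.card (YY p X₂ A₂)) {W : Subgroup (Perm X₂)} (hWp : IsPGroup p W)
    (U : Finset X₂) (hU : ∀ q ∈ W, ∀ w, q w ∈ U ↔ w ∈ U) {k : ℕ} (hk : U.card = p ^ k) :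
    GCb2 p ((StS (p := p) (A := A) (StS (p := p) (A := A₂) W)).subgroupOf (alternatingGroup (Y3 p X₂ A₂ A))) := by
  intro g hg
  have hSp : IsPGroup p (StS (p := p) (A := A₂) W) := IsPGroup_StS hWp
  have hle : StS (p := p) (A := A) (StS (p := p) (A := A₂) W) ≤ alternatingGroup (Y3 p X₂ A₂ A) := StS_le_alt hp2 hSp
  have hg' := norm_of_subgroupOf _ hg
  rw [inf_eq_left.2 hle] at hg'
  obtain ⟨d, e, π, hform⟩ := N_form le_rfl sep1 sep2 hg'
  set β : (ZMod p)ˣ := ∏ b, d b with hβ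
  set G₀ : Perm (Y3 p X₂ A₂ A) := G0 U β with hG₀
  have hg0N : G₀ ∈ Subgroup.normalizer ((StS (p := p) (A := A) (StS (p := p) (A := A₂) W) : Subgroup (Perm (Y3 p X₂ A₂ A))) : Set (Perm (Y3 p X₂ A₂ A))) :=
    G0_norm U β hU
  have hg1N := Subgroup.mul_mem _ (Subgroup.inv_mem _ hg0N) hg'
  obtain ⟨d₁, e₁, π₁, hform₁⟩ := N_form le_rfl sep1 sep2 hg1N
  have hd₁ : ∏ b, d₁ b = 1 := by
    have h1 : (g : Perm (Y3 p X₂ A₂ A)) = G₀ * (G₀⁻¹ * g) := by group
    rw [hform₁, hform, hG₀, G0, Ph_mul] at h1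
    have h2 := (Ph_inj h1).1
    have h3 : β = (∏ b, dU U β (π₁ b)) * ∏ b, d₁ b := by
      rw [hβ, ← Finset.prod_mul_distrib]
      rw [← hβ]
      exact Finset.prod_congr rfl fun b _ => congrFun h2 b
    rw [Equiv.prod_comp π₁ (dU U β), prod_dU U β hk] at h3
    exact (mul_eq_left.1 h3.symm)
  obtain ⟨h0a, h0G⟩ := GGen2_lift hp2 ((R3_le_StS U W).trans le_rfl) ((R3_le_StS U W).trans hle)
    (fun _ hg => R3_selfcent U hg) (G0_mem_KK hp2 U β) hg0N
  have hg1a : (G₀⁻¹ * g : Perm (Y3 p X₂ A₂ A)) ∈ alternatingGroup (Y3 p X₂ A₂ A) :=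
    mul_mem (inv_mem h0a) g.2
  have hg1K : (G₀⁻¹ * g : Perm (Y3 p X₂ A₂ A)) ∈ KK p (BB p (YY p X₂ A₂) A) := by
    rw [hform₁] at hg1a ⊢
    exact Ph_mem_KK hp2 hX hd₁ hg1a
  obtain ⟨h1a, h1G⟩ := GGen2_lift (S' := StS (p := p) (A := A) (StS (p := p) (A := A₂) W)) hp2
    (R' := BB p (YY p X₂ A₂) A) (fun s hs => by
      obtain ⟨e, rfl⟩ := mem_BB.1 hs
      exact Tt_mem _ _) (fun s hs => hle (by
      obtain ⟨e, rfl⟩ := mem_BB.1 hs
      exact Tt_mem _ _))
    (fun _ hg => BB_selfcent hg) hg1K hg1N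
  have hfin : g = (⟨G₀, h0a⟩ : alternatingGroup (Y3 p X₂ A₂ A)) * ⟨G₀⁻¹ * g, h1a⟩ := by
    apply Subtype.ext
    show (g : Perm (Y3 p X₂ A₂ A)) = G₀ * (G₀⁻¹ * g)
    group
  rw [hfin]
  exact Subgroup.mul_mem _ (Subgroup.subset_closure h0G) (Subgroup.subset_closure h1G)

end Odd

section TwoN

variable {X A : Type*} [Fintype X] [DecidableEq X] [Fintype A] [DecidableEq A]

theorem two_odd_decomp' {G : Type*} [Group G] [Finite G] (h : G) :
    ∃ (a b : ℤ) (m r : ℕ), Odd r ∧ (h ^ a) ^ 2 ^ m = 1 ∧ (h ^ b) ^ r = 1 ∧ h = h ^ a * h ^ b := by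
  obtain ⟨m, r, hr, ho⟩ := Nat.exists_eq_two_pow_mul_odd (n := orderOf h) (orderOf_pos h).ne'
  have hc : Nat.Coprime (2 ^ m) r := Nat.Coprime.pow_left m hr.coprime_two_right.symm
  have h1 := Nat.gcd_eq_gcd_ab (2 ^ m) r
  rw [hc] at h1
  have hpow : h ^ (orderOf h) = 1 := pow_orderOf_eq_one h
  rw [ho] at hpow
  refine ⟨r * Nat.gcdB (2 ^ m) r, ((2 ^ m : ℕ) : ℤ) * Nat.gcdA (2 ^ m) r, m, r, hr, ?_, ?_, ?_⟩
  · rw [← zpow_natCast, ← _root_.zpow_mul]
    have e : (r : ℤ) * Nat.gcdB (2 ^ m) r * ((2 ^ m : ℕ) : ℤ) = ((2 ^ m * r : ℕ) : ℤ) * Nat.gcdB (2 ^ m) r := by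
      push_cast
      ring
    rw [e, _root_.zpow_mul, zpow_natCast, hpow, one_zpow]
  · rw [← zpow_natCast, ← _root_.zpow_mul]
    have e' : ((2 ^ m : ℕ) * Nat.gcdA (2 ^ m) r : ℤ) * (r : ℤ) = ((2 ^ m * r : ℕ) : ℤ) * Nat.gcdA (2 ^ m) r := by
      push_cast
      ring
    rw [e', _root_.zpow_mul, zpow_natCast, hpow, one_zpow]
  · rw [← zpow_add]
    have e : (r : ℤ) * Nat.gcdB (2 ^ m) r + (2 ^ m : ℕ) * Nat.gcdA (2 ^ m) r = 1 := by
      have h2 : ((1 : ℕ) : ℤ) = ((2 ^ m : ℕ) : ℤ) * Nat.gcdA (2 ^ m) r + (r : ℤ) * Nat.gcdB (2 ^ m) r := h1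
      push_cast at h2 ⊢
      linarith
    rw [e, _root_.zpow_one]

theorem exists_third (hX : 3 ≤ Fintype.card X) (b b' : X) : ∃ c : X, c ≠ b ∧ c ≠ b' := by
  by_contra hcon
  push Not at hcon
  have h1 : (Finset.univ : Finset X) ⊆ {b, b'} := by
    intro c _
    by_cases h : c = b
    · simp [h]
    · simp [hcon c h]
  have h2 := Finset.card_le_card h1
  have h3 : ({b, b'} : Finset X).card ≤ 2 := Finset.card_le_two
  rw [Finset.card_univ] at h2
  omega

theorem sign_pair {p : ℕ} [hp : Fact p.Prime] {b b' : X} (h : b ≠ b') : Perm.sign (Tt (indK {b, b'}) : Perm (YY p X A)) = 1 := by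
  have h1 : (indK {b, b'} : X → ZMod p) = indK {b} + indK {b'} := by
    have : ({b, b'} : Finset X) = insert b {b'} := rfl
    rw [this, indK_insert (by simpa using h)]
    exact add_comm _ _
  have h2 : IsConj (Tt (indK {b}) : Perm (YY p X A)) (Tt (indK {b'})) := by
    refine isConj_Tt_card (Finset.singleton_nonempty _) ?_
    rw [filter_ind]
    simp
  obtain ⟨c, hc⟩ := _root_.isConj_iff.1 h2
  rw [h1, ← Tt_mul, map_mul, ← hc]
  simp only [map_mul, map_inv]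
  have h5 : Perm.sign c * Perm.sign (Tt (indK {b}) : Perm (YY p X A)) * (Perm.sign c)⁻¹ = Perm.sign (Tt (indK {b}) : Perm (YY p X A)) := by
    rw [mul_comm (Perm.sign c), mul_assoc, mul_inv_cancel, mul_one]
  rw [h5, Int.units_mul_self]

/-- The generation statement for `p = 2`. -/
theorem GCb2_two [Subsingleton A] (hX : 3 ≤ Fintype.card X) {Q : Subgroup (Perm X)} (hQ : OddTriv Q)
    (S₀ : Sylow 2 (alternatingGroup (YY 2 X A)))
    (hS₀ : (S₀ : Subgroup (alternatingGroup (YY 2 X A))) = (StS (p := 2) (A := A) Q).subgroupOf (alternatingGroup (YY 2 X A))) :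
    GCb2 2 (S₀ : Subgroup (alternatingGroup (YY 2 X A))) := by
  classical
  have hnt := odd_norm_trivial (Q := Q) (T := StS (p := 2) (A := A) Q ⊓ alternatingGroup (YY 2 X A)) inf_le_left
    (fun q hq => ⟨Ll_mem hq, Perm.mem_alternatingGroup.2 (by rw [sign_Ll, Int.units_sq])⟩)
    (fun b b' h => by
      obtain ⟨c, hc1, hc2⟩ := exists_third hX b b'
      refine ⟨indK {b', c}, ⟨Tt_mem _ _, Perm.mem_alternatingGroup.2 (sign_pair hc2.symm)⟩, ?_, ?_⟩
      · simp [indK, h, hc1.symm]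
      · simp [indK])
    (fun b => by
      obtain ⟨c, hc1, -⟩ := exists_third hX b b
      exact ⟨indK {b, c}, ⟨Tt_mem _ _, Perm.mem_alternatingGroup.2 (sign_pair hc1.symm)⟩, by simp [indK]⟩) hQ
  have hnorm : ∀ g ∈ Subgroup.normalizer ((S₀ : Subgroup (alternatingGroup (YY 2 X A))) : Set (alternatingGroup (YY 2 X A))), ∃ m : ℕ, g ^ 2 ^ m = 1 := by
    intro g hg
    obtain ⟨a, b, m, r, hr, h1, h2, hd⟩ := two_odd_decomp' g
    have hgb := Subgroup.zpow_mem _ hg b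
    rw [hS₀] at hgb
    have h3 := norm_of_subgroupOf _ hgb
    have h4 : ((g ^ b : alternatingGroup (YY 2 X A)) : Perm (YY 2 X A)) ^ r = 1 := by
      have := congrArg Subtype.val h2
      simpa using this
    have h5 := hnt _ h3 r hr h4
    have h6 : g ^ b = 1 := Subtype.ext h5
    rw [h6, mul_one] at hd
    rw [← hd] at h1
    exact ⟨m, h1⟩
  have hmem : ∀ g ∈ Subgroup.normalizer ((S₀ : Subgroup (alternatingGroup (YY 2 X A))) : Set (alternatingGroup (YY 2 X A))),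
      g ∈ (S₀ : Subgroup (alternatingGroup (YY 2 X A))) := by
    intro g hg
    obtain ⟨m, hm⟩ := hnorm g hg
    have hp : IsPGroup 2 (Subgroup.zpowers g) := by
      rintro ⟨x, n, rfl⟩
      refine ⟨m, Subtype.ext ?_⟩
      show (g ^ n) ^ 2 ^ m = 1
      rw [← zpow_natCast, ← _root_.zpow_mul, mul_comm, _root_.zpow_mul, zpow_natCast, hm, one_zpow]
    have h1 := hp.inf_normalizer_sylow S₀
    have h3 : g ∈ Subgroup.zpowers g ⊓ (S₀ : Subgroup (alternatingGroup (YY 2 X A))) := by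
      rw [← h1]
      exact ⟨Subgroup.mem_zpowers g, hg⟩
    exact h3.2
  intro g hg
  refine Subgroup.subset_closure (Or.inr ⟨hg, (S₀ : Subgroup (alternatingGroup (YY 2 X A))), le_rfl, ?_, Subgroup.subset_closure ⟨hg, ?_⟩⟩)
  · intro c hc
    refine hmem c (Subgroup.mem_normalizer_fintype fun n hn => ?_)
    have : c * n * c⁻¹ = n := by
      rw [hc n hn]
      group
    rw [SetLike.mem_coe, this]
    exact hn
  · obtain ⟨m, hm⟩ := hnorm g hg
    obtain ⟨k, -, hk⟩ := (Nat.dvd_prime_pow Nat.prime_two).1 (orderOf_dvd_of_pow_eq_one hm)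
    exact ⟨k, hk⟩

end TwoN

end Cfsg.Agent.H25
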