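import Cfsg.Agent.Lib.H25.SimA8
set_option autoImplicit false
set_option linter.style.haveILetI false
set_option linter.unusedSectionVars false
set_option linter.unusedSimpArgs false
set_option linter.unusedVariables false

/-! Sylow subgroups of alternating groups of wreath type, and assembly. -/

namespace Cfsg.Agent.H25

open Equiv

section Rec
variable {p : ℕ} [hp : Fact p.Prime]

theorem fact_val (n : ℕ) : (Nat.factorial n).factorization p = (Nat.factorial (n / p)).factorization p + n / p := by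
  have hpp := hp.out
  have hdecomp : p * (n / p) + n % p = n := Nat.div_add_mod n p
  rw [Nat.factorization_def _ hpp, Nat.factorization_def _ hpp]
  conv_lhs => rw [← hdecomp]
  rw [padicValNat_factorial_mul_add _ (Nat.mod_lt n hpp.pos), padicValNat_factorial_mul]

theorem OddTriv_map_gen {α β : Type*} (φ : Perm α ≃* Perm β) {Q : Subgroup (Perm α)} (h : OddTriv Q) :
    OddTriv (Q.map φ.toMonoidHom) := by
  intro π hπ r hr hπr
  have h1 := mem_norm_equiv φ.symm hπ
  have h2 : (Q.map φ.toMonoidHom).map φ.symm.toMonoidHom = Q := by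
    ext x
    rw [mem_map_equiv, mem_map_equiv]
    simp
  rw [h2] at h1
  have h3 : (φ.symm π) ^ r = 1 := by
    rw [← map_pow, hπr, map_one]
  have h4 := h _ h1 r hr h3
  have h5 := congrArg φ h4
  simpa using h5

/-- Existence of Sylow subgroups with the needed properties. -/
theorem exists_W (p : ℕ) [hp : Fact p.Prime] : ∀ n : ℕ, ∃ W : Subgroup (Perm (Fin n)), Nat.card W = p ^ (Nat.factorial n).factorization p ∧
    OmGen p W ∧ (p = 2 → OddTriv W) ∧ IsPGroup p W := by
  intro n
  induction n using Nat.strong_induction_on with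
  | _ n ih =>
  have hpp : p.Prime := hp.out
  haveI : NeZero p := ⟨hpp.ne_zero⟩
  by_cases hnp : n < p
  · refine ⟨⊥, ?_, OmGen_bot, ?_, IsPGroup.of_bot⟩
    · rw [Subgroup.card_bot, Nat.factorization_eq_zero_of_not_dvd, pow_zero]
      rw [hpp.dvd_factorial]
      omega
    · rintro rfl π - r hr hπr
      have h1 : n ≤ 1 := by omega
      haveI : Subsingleton (Fin n) := Fintype.card_le_one_iff_subsingleton.1 (by simpa using h1)
      exact Subsingleton.elim _ _
  · have hmn : n / p < n := Nat.div_lt_self (lt_of_lt_of_le hpp.pos (not_lt.1 hnp)) hpp.one_lt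
    obtain ⟨Q, hQc, hQg, hQo, hQp⟩ := ih (n / p) hmn
    have hdecomp : p * (n / p) + n % p = n := Nat.div_add_mod n p
    have hcard : Fintype.card (YY p (Fin (n / p)) (Fin (n % p))) = Fintype.card (Fin n) := by
      rw [Fintype.card_sum, Fintype.card_prod, ZMod.card, Fintype.card_fin, Fintype.card_fin, Fintype.card_fin, hdecomp]
    let e : YY p (Fin (n / p)) (Fin (n % p)) ≃ Fin n := Fintype.equivOfCardEq hcard
    refine ⟨(StS Q).map e.permCongrHom.toMonoidHom, ?_, OmGen_map (OmGen_StS hQg) _, ?_, (IsPGroup_StS hQp).map _⟩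
    · rw [Subgroup.card_map_of_injective e.permCongrHom.injective, card_StS, hQc, fact_val n, Fintype.card_fin, ← pow_add, add_comm]
    · intro h2
      subst h2
      refine OddTriv_map_gen e.permCongrHom ?_
      haveI : Subsingleton (Fin (n % 2)) := by
        refine Fintype.card_le_one_iff_subsingleton.1 ?_
        simp only [Fintype.card_fin]
        have := Nat.mod_lt n (by norm_num : 2 > 0)
        omega
      exact OddTriv_StS (hQo rfl)

theorem exists_orbit {X₂ : Type*} [Fintype X₂] [DecidableEq X₂] {W : Subgroup (Perm X₂)} (hW : IsPGroup p W) (w₀ : X₂) :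
    ∃ (U : Finset X₂) (k : ℕ), U.card = p ^ k ∧ ∀ q ∈ W, ∀ w, q w ∈ U ↔ w ∈ U := by
  classical
  obtain ⟨k, hk⟩ := hW.card_orbit w₀
  refine ⟨(MulAction.orbit W w₀).toFinset, k, ?_, ?_⟩
  · rw [Set.toFinset_card, ← Nat.card_eq_fintype_card]
    exact hk
  · intro q hq w
    simp only [Set.mem_toFinset]
    have e : q w = (⟨q, hq⟩ : W) • w := rfl
    rw [e]
    constructor
    · rintro ⟨x, hx⟩
      refine ⟨(⟨q, hq⟩ : W)⁻¹ * x, ?_⟩
      have hx' : x • w₀ = (⟨q, hq⟩ : W) • w := hx
      show ((⟨q, hq⟩ : W)⁻¹ * x) • w₀ = w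
      rw [mul_smul, hx', inv_smul_smul]
    · rintro ⟨x, hx⟩
      refine ⟨(⟨q, hq⟩ : W) * x, ?_⟩
      have hx' : x • w₀ = w := hx
      show ((⟨q, hq⟩ : W) * x) • w₀ = (⟨q, hq⟩ : W) • w
      rw [mul_smul, hx']

end Rec

section Transfer
variable {p : ℕ} [hp : Fact p.Prime]

theorem transfer_sylow {G H : Type*} [Group G] [Group H] [Finite G] [Finite H] (φ : G ≃* H) (S : Sylow p G)
    (h1 : (S : Subgroup G) ≠ ⊥) (ha : GCa (S : Subgroup G)) (hb : GCb2 p (S : Subgroup G)) :
    ∃ S₀ : Sylow p H, (S₀ : Subgroup H) ≠ ⊥ ∧ GCa (S₀ : Subgroup H) ∧ GCb2 p (S₀ : Subgroup H) := by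
  have hcard : Nat.card ((S : Subgroup G).map φ.toMonoidHom) = p ^ (Nat.card H).factorization p := by
    rw [Subgroup.card_map_of_injective φ.injective, Sylow.card_eq_multiplicity, Nat.card_congr φ.toEquiv]
  refine ⟨Sylow.ofCard _ hcard, ?_, ?_, ?_⟩
  · rw [Sylow.coe_ofCard]
    intro h
    apply h1
    rw [eq_bot_iff]
    intro x hx
    have h2 : φ.toMonoidHom x ∈ (S : Subgroup G).map φ.toMonoidHom := ⟨x, hx, rfl⟩
    rw [h] at h2
    have h3 : φ x = 1 := Subgroup.mem_bot.1 h2
    exact Subgroup.mem_bot.2 ((map_eq_one_iff φ φ.injective).1 h3)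
  · rw [Sylow.coe_ofCard]
    exact GCa_equiv φ ha
  · rw [Sylow.coe_ofCard]
    exact GCb2_equiv φ hb

variable {Z : Type*} [Fintype Z] [DecidableEq Z]

theorem card_subgroupOf_alt_le {S' : Subgroup (Perm Z)} (h : S' ≤ alternatingGroup Z) :
    Nat.card (S'.subgroupOf (alternatingGroup Z)) = Nat.card S' :=
  Nat.card_congr (Subgroup.subgroupOfEquivOfLe h).toEquiv

theorem card_subgroupOf_alt_two {S' : Subgroup (Perm Z)} {t : Perm Z} (ht : t ∈ S') (hts : Perm.sign t = -1) :
    Nat.card (S'.subgroupOf (alternatingGroup Z)) * 2 = Nat.card S' := by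
  let f : S' →* ℤˣ := (Perm.sign).comp S'.subtype
  have hker : f.ker = (alternatingGroup Z).subgroupOf S' := by
    ext x
    rw [MonoidHom.mem_ker, Subgroup.mem_subgroupOf, Perm.mem_alternatingGroup]
    rfl
  have hrange : Nat.card f.range = 2 := by
    have h1 : f.range = ⊤ := by
      rw [eq_top_iff]
      intro u _
      rcases Int.units_eq_one_or u with h | h
      · rw [h]
        exact one_mem _
      · rw [h]
        exact ⟨⟨t, ht⟩, hts⟩
    rw [h1, Subgroup.card_top, Nat.card_eq_fintype_card]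
    rfl
  have hcong : Nat.card (S'.subgroupOf (alternatingGroup Z)) = Nat.card ((alternatingGroup Z).subgroupOf S') := by
    refine Nat.card_congr ⟨fun x => ⟨⟨x.1.1, x.2⟩, x.1.2⟩, fun y => ⟨⟨y.1.1, y.2⟩, y.1.2⟩, fun _ => rfl, fun _ => rfl⟩
  have h2 := Subgroup.card_mul_index f.ker
  rw [Subgroup.index_ker, hrange, hker, ← hcong] at h2
  exact h2

end Transfer

end Cfsg.Agent.H25
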